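import Cfsg.Agent.Lib.Helper99.AutPSU.Geom2

set_option autoImplicit false
set_option linter.unusedSectionVars false
set_option linter.unusedVariables false

/-!
Rigidity for `PSU n F q`: `cG g * fl σ = 1` forces `σ = 1` and `g` scalar.
-/

namespace Cfsg.Agent.Lib.Helper47.AutPSU

open Matrix MatrixGroups Cfsg.Agent.Lib.Helper17 Cfsg.Agent.Lib.Helper99.AutPSU

variable {F : Type*} [Field F] [Fintype F] {n q : ℕ}

/-- the semilinear map `v ↦ g σ(v)` -/
def Gam (g : ↥(Cfsg.GU n F q)) (σ : F ≃+* F) (v : Fin n → F) : Fin n → F :=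
  (g : GL (Fin n) F).1 *ᵥ (fun i => σ (v i))

theorem Gam_add (g : ↥(Cfsg.GU n F q)) (σ : F ≃+* F) (u v : Fin n → F) :
    Gam g σ (u + v) = Gam g σ u + Gam g σ v := by
  rw [Gam, Gam, Gam, ← mulVec_add]
  congr 1
  ext i
  simp

theorem Gam_smul (g : ↥(Cfsg.GU n F q)) (σ : F ≃+* F) (c : F) (v : Fin n → F) :
    Gam g σ (c • v) = σ c • Gam g σ v := by
  rw [Gam, Gam, ← mulVec_smul]
  congr 1
  ext i
  simp

theorem Gam_herm (g : ↥(Cfsg.GU n F q)) (σ : F ≃+* F) (u v : Fin n → F) :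
    Cfsg.hermForm n F q (Gam g σ u) (Gam g σ v) = σ (Cfsg.hermForm n F q u v) := by
  rw [Gam, Gam, gu_herm, herm_map]

theorem Gam_conj (g : ↥(Cfsg.GU n F q)) (σ : F ≃+* F) (x : ↥(Cfsg.SU n F q)) (v : Fin n → F) :
    mt (conjS g (fldS σ x)) *ᵥ Gam g σ v = Gam g σ (mt x *ᵥ v) := by
  rw [conjS_mulVec, Gam, gu_inv_mulVec', fldS_val, map_mulVec, Gam]

theorem Gam_ne_zero (g : ↥(Cfsg.GU n F q)) (σ : F ≃+* F) {v : Fin n → F} (hv : v ≠ 0) :
    Gam g σ v ≠ 0 := by
  intro h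
  apply hv
  have h1 := gu_inv_mulVec' g (fun i => σ (v i))
  rw [show (g : GL (Fin n) F).1 *ᵥ (fun i => σ (v i)) = 0 from h, mulVec_zero] at h1
  ext i
  have := congrFun h1 i
  simpa using this.symm

/-- the semilinear map fixes every isotropic point -/
theorem Gam_iso (hF : Fintype.card F = q ^ 2) (g : ↥(Cfsg.GU n F q)) (σ : F ≃+* F)
    (h : (cG g * fl σ : MulAut (Cfsg.PSU n F q)) = 1) {b : Fin n → F} (hb : Iso q b) :
    ∃ c : F, c ≠ 0 ∧ Gam g σ b = c • b := by
  obtain ⟨a, hp⟩ := exists_HP hF hb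
  obtain ⟨x, hx, hx1⟩ := exists_X_ne_one hF hb
  obtain ⟨l, -, hl⟩ := (mem_X_iff hF hp x).1 hx
  have hl0 := l_ne_zero hx1 hl
  have hpm : pm (conjS g (fldS σ x)) = pm x := by
    have := congrArg (fun β : MulAut (Cfsg.PSU n F q) => β (pm x)) h
    simpa [MulAut.mul_apply, fl_pm, cG_pm] using this
  obtain ⟨ζ, hζ⟩ := exists_scalar_of_pm_eq hF hpm
  have hgb : Gam g σ b ≠ 0 := Gam_ne_zero g σ hb.1
  have key : ∃ c : F, Gam g σ b = c • b := by
    by_cases hζ1 : ζ = 1
    · have h1 := hζ (Gam g σ a)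
      rw [Gam_conj, hl, hl, hp.ba hF, mul_one, Gam_add, Gam_smul, hζ1, one_smul] at h1
      have h2 : σ l • Gam g σ b = (l * Cfsg.hermForm n F q (Gam g σ a) b) • b :=
        (add_left_cancel h1).symm
      have hσl : σ l ≠ 0 := by simpa using hl0
      refine ⟨(σ l)⁻¹ * (l * Cfsg.hermForm n F q (Gam g σ a) b), ?_⟩
      rw [mul_smul, ← h2, smul_smul, inv_mul_cancel₀ hσl, one_smul]
    · have h1 := hζ (Gam g σ b)
      rw [Gam_conj, hl, hl b, hb.2, mul_zero, zero_smul, add_zero] at h1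
      have h2 : (ζ - 1) • Gam g σ b = (l * Cfsg.hermForm n F q (Gam g σ b) b) • b := by
        rw [sub_smul, one_smul, ← h1]; abel
      refine ⟨(ζ - 1)⁻¹ * (l * Cfsg.hermForm n F q (Gam g σ b) b), ?_⟩
      rw [mul_smul, ← h2, smul_smul, inv_mul_cancel₀ (sub_ne_zero.2 hζ1), one_smul]
  obtain ⟨c, hc⟩ := key
  refine ⟨c, ?_, hc⟩
  rintro rfl
  rw [zero_smul] at hc
  exact hgb hc

theorem pow_q_eq_frob (hF : Fintype.card F = q ^ 2) (x : F) : x ^ q = frobQ hF x := rfl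

/-- every scalar `k` occurs in an isotropic vector `b + w + k a` -/
theorem exists_w (hF : Fintype.card F = q ^ 2) (hn : 3 ≤ n) {a b : Fin n → F} (hp : HP q a b)
    (k : F) : ∃ w, Cfsg.hermForm n F q w a = 0 ∧ Cfsg.hermForm n F q w b = 0 ∧
      k + k ^ q + Cfsg.hermForm n F q w w = 0 := by
  by_cases hk : k + k ^ q = 0
  · exact ⟨0, herm_zero_left _, herm_zero_left _, by rw [herm_zero_left, hk, add_zero]⟩
  obtain ⟨w0, h1, h2, h3⟩ := W_ne hF hn hp
  have hs : (Cfsg.hermForm n F q w0 w0) ^ q = Cfsg.hermForm n F q w0 w0 := hermForm_conj hF _ _ _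
  obtain ⟨lam, hlam⟩ := exists_norm_eq hF (-(k + k ^ q) / Cfsg.hermForm n F q w0 w0)
    (div_ne_zero (neg_ne_zero.2 hk) h3) (by
      rw [pow_q_eq_frob hF, map_div₀, map_neg, map_add, ← pow_q_eq_frob hF, ← pow_q_eq_frob hF,
        ← pow_q_eq_frob hF, hs, pow_q_pow_q hF, add_comm])
  refine ⟨lam • w0, ?_, ?_, ?_⟩
  · rw [hermForm_smul_left, h1, mul_zero]
  · rw [hermForm_smul_left, h2, mul_zero]
  · rw [hermForm_smul_left, hermForm_smul_right, ← mul_assoc, ← pow_succ', hlam]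
    field_simp
    ring

theorem rigid (hF : Fintype.card F = q ^ 2) (hn : 3 ≤ n) (g : ↥(Cfsg.GU n F q)) (σ : F ≃+* F)
    (h : (cG g * fl σ : MulAut (Cfsg.PSU n F q)) = 1) :
    σ = 1 ∧ ∃ c : F, (g : GL (Fin n) F).1 = c • 1 := by
  obtain ⟨a, ha0, haa⟩ := exists_isotropic_ne_zero hF (n := n) (by omega)
  obtain ⟨b, hp⟩ := exists_HP hF (⟨ha0, haa⟩ : Iso q a)
  obtain ⟨α, hα0, hα⟩ := Gam_iso hF g σ h hp.isoA
  obtain ⟨β, hβ0, hβ⟩ := Gam_iso hF g σ h (hp.isoB hF)
  have key : ∀ (w : Fin n → F) (k : F), Cfsg.hermForm n F q w a = 0 →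
      Cfsg.hermForm n F q w b = 0 → k + k ^ q + Cfsg.hermForm n F q w w = 0 →
      σ k * α = β * k ∧ Gam g σ w = β • w := by
    intro w k hwa hwb hk
    have haw := herm_zero_comm hF hwa
    have hbw := herm_zero_comm hF hwb
    have hv : Iso q (b + w + k • a) := by
      constructor
      · intro h0
        have := congrArg (fun u => Cfsg.hermForm n F q u a) h0
        simp only [hermForm_add_left, hermForm_smul_left, hp.a0, hp.ba hF, hwa,
          herm_zero_left] at this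
        simp at this
      · simp only [hermForm_add_left, hermForm_add_right hF, hermForm_smul_left,
          hermForm_smul_right, hp.a0, hp.b0, hp.ab, hp.ba hF, hwa, hwb, haw, hbw]
        linear_combination hk
    obtain ⟨c, hc0, hc⟩ := Gam_iso hF g σ h hv
    rw [Gam_add, Gam_add, Gam_smul, hα, hβ] at hc
    have hGa : Cfsg.hermForm n F q (Gam g σ w) a = 0 := by
      have h1 := Gam_herm g σ w a
      rw [hα, hwa, map_zero, hermForm_smul_right] at h1
      exact (mul_eq_zero.1 h1).resolve_left (pow_ne_zero _ hα0)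
    have hGb : Cfsg.hermForm n F q (Gam g σ w) b = 0 := by
      have h1 := Gam_herm g σ w b
      rw [hβ, hwb, map_zero, hermForm_smul_right] at h1
      exact (mul_eq_zero.1 h1).resolve_left (pow_ne_zero _ hβ0)
    have e1 := congrArg (fun u => Cfsg.hermForm n F q u a) hc
    have e2 := congrArg (fun u => Cfsg.hermForm n F q u b) hc
    simp only [hermForm_add_left, hermForm_smul_left, hp.a0, hp.b0, hp.ab, hp.ba hF, hwa, hwb,
      hGa, hGb] at e1 e2
    have hcβ : c = β := by linear_combination -e1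
    rw [hcβ] at hc e2
    have e3 : σ k * α = β * k := by linear_combination e2
    refine ⟨e3, ?_⟩
    have h5 : Gam g σ w = β • (b + w + k • a) - β • b - σ k • α • a := by rw [← hc]; abel
    rw [h5, smul_smul, e3]
    module
  have hk : ∀ k : F, σ k * α = β * k := by
    intro k
    obtain ⟨w, h1, h2, h3⟩ := exists_w hF hn hp k
    exact (key w k h1 h2 h3).1
  have hαβ : α = β := by
    have := hk 1
    rwa [map_one, one_mul, mul_one] at this
  have hσ : σ = 1 := by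
    ext k
    have := hk k
    rw [hαβ, mul_comm] at this
    exact mul_left_cancel₀ hβ0 this
  refine ⟨hσ, β, ?_⟩
  rw [Matrix.ext_iff_mulVec]
  intro v
  have hG : ∀ u, Gam g σ u = (g : GL (Fin n) F).1 *ᵥ u := by
    intro u
    rw [hσ]
    rfl
  rw [smul_mulVec, one_mulVec, ← hG]
  obtain ⟨k, hk'⟩ := exists_trace_eq hF (-(Cfsg.hermForm n F q (pw q a b v) (pw q a b v))) (by
    rw [pow_q_eq_frob hF, map_neg, ← pow_q_eq_frob hF, hermForm_conj hF])
  have h6 := (key (pw q a b v) k (pw_a hF hp v) (pw_b hF hp v) (by rw [hk']; ring)).2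
  conv_lhs => rw [decomp (q := q) a b v]
  rw [Gam_add, Gam_add, Gam_smul, Gam_smul, hα, hβ, h6, hαβ, hσ]
  conv_rhs => rw [decomp (q := q) a b v]
  have h1 : ∀ x : F, (1 : F ≃+* F) x = x := fun _ => rfl
  simp only [h1, smul_add, smul_smul]
  congr 1
  congr 1 <;> rw [mul_comm]

theorem exists_smul_of_cG_eq_one (hF : Fintype.card F = q ^ 2) (hn : 3 ≤ n)
    {g : ↥(Cfsg.GU n F q)} (h : (cG g : MulAut (Cfsg.PSU n F q)) = 1) :
    ∃ c : F, (g : GL (Fin n) F).1 = c • 1 :=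
  (rigid hF hn g 1 (by rw [map_one, mul_one, h])).2

theorem fl_injective (hF : Fintype.card F = q ^ 2) (hn : 3 ≤ n) :
    Function.Injective (fl : (F ≃+* F) →* MulAut (Cfsg.PSU n F q)) := by
  rw [injective_iff_map_eq_one]
  intro σ hσ
  exact (rigid hF hn 1 σ (by rw [map_one, one_mul, hσ])).1

/-- scalar elements of `GU` act trivially -/
theorem cG_eq_one_of_smul {g : ↥(Cfsg.GU n F q)} {c : F} (h : (g : GL (Fin n) F).1 = c • 1) :
    (cG g : MulAut (Cfsg.PSU n F q)) = 1 := by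
  ext x
  obtain ⟨x, rfl⟩ := pm_surjective x
  rw [cG_pm]
  show pm _ = pm x
  congr 1
  apply conjS_eq_of_mul
  rw [h, Matrix.mul_smul, Matrix.smul_mul, Matrix.mul_one, Matrix.one_mul]

end Cfsg.Agent.Lib.Helper47.AutPSU
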