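import Mathlib

set_option autoImplicit false

namespace Cfsg.Agent.Lib.Helper47

open MulAction

/-- the largest product of a partition of `n`. -/
def gmax : ℕ → ℕ
  | 0 => 1
  | 1 => 1
  | 2 => 2
  | 3 => 3
  | 4 => 4
  | (n + 5) => 3 * gmax (n + 2)

theorem gmax_add_five (n : ℕ) : gmax (n + 5) = 3 * gmax (n + 2) := by rw [gmax]

theorem gmax_ineq : ∀ n : ℕ, gmax n ≤ gmax (n + 1) ∧ 2 * gmax n ≤ gmax (n + 2) ∧
    3 * gmax n ≤ gmax (n + 3) ∧ 4 * gmax n ≤ gmax (n + 4)
  | 0 => by decide
  | 1 => by decide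
  | 2 => by decide
  | 3 => by decide
  | 4 => by decide
  | (n + 5) => by
    obtain ⟨h1, h2, h3, h4⟩ := gmax_ineq (n + 2)
    have e0 := gmax_add_five n
    have e1 := gmax_add_five (n + 1)
    have e2 := gmax_add_five (n + 2)
    have e3 := gmax_add_five (n + 3)
    have e4 := gmax_add_five (n + 4)
    rw [show n + 5 + 1 = n + 1 + 5 by ring, show n + 5 + 2 = n + 2 + 5 by ring,
      show n + 5 + 3 = n + 3 + 5 by ring, show n + 5 + 4 = n + 4 + 5 by ring, e0, e1, e2, e3, e4,
      show n + 1 + 2 = n + 2 + 1 by ring, show n + 3 + 2 = n + 2 + 3 by ring,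
      show n + 4 + 2 = n + 2 + 4 by ring]
    omega

theorem mul_gmax_le (a m : ℕ) (ha : 1 ≤ a) : a * gmax m ≤ gmax (a + m) := by
  induction a using Nat.strong_induction_on with
  | _ a ih =>
    obtain ⟨h1, h2, h3, h4⟩ := gmax_ineq m
    rcases Nat.lt_or_ge a 5 with h5 | h5
    · interval_cases a
      · rw [add_comm]; omega
      · rw [add_comm]; omega
      · rw [add_comm]; omega
      · rw [add_comm]; omega
    · have ih' := ih (a - 3) (by omega) (by omega)
      have h3' := (gmax_ineq (a - 3 + m)).2.2.1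
      have e : a - 3 + m + 3 = a + m := by omega
      rw [e] at h3'
      calc a * gmax m ≤ (3 * (a - 3)) * gmax m := Nat.mul_le_mul_right _ (by omega)
        _ = 3 * ((a - 3) * gmax m) := by ring
        _ ≤ 3 * gmax (a - 3 + m) := Nat.mul_le_mul_left _ ih'
        _ ≤ gmax (a + m) := h3'

theorem gmax_three_mul (k : ℕ) : gmax (3 * k) = 3 ^ k := by
  induction k with
  | zero => rfl
  | succ k ih =>
    rcases k with _ | k
    · rfl
    · rw [show 3 * (k + 1 + 1) = (3 * k + 1) + 5 by ring, gmax_add_five,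
        show 3 * k + 1 + 2 = 3 * (k + 1) by ring, ih, pow_succ 3 (k + 1)]
      ring

theorem gmax_three_mul_add_one (k : ℕ) : gmax (3 * (k + 1) + 1) = 4 * 3 ^ k := by
  induction k with
  | zero => rfl
  | succ k ih =>
    rw [show 3 * (k + 1 + 1) + 1 = (3 * k + 2) + 5 by ring, gmax_add_five,
      show 3 * k + 2 + 2 = 3 * (k + 1) + 1 by ring, ih, pow_succ 3 k]
    ring

theorem gmax_three_mul_add_two (k : ℕ) : gmax (3 * k + 2) = 2 * 3 ^ k := by
  induction k with
  | zero => rfl
  | succ k ih =>
    rw [show 3 * (k + 1) + 2 = (3 * k) + 5 by ring, gmax_add_five, ih, pow_succ 3 k]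
    ring

/-- the complement of an orbit, as a sub-action. -/
def orbitCompl (A : Type*) {X : Type*} [Group A] [MulAction A X] (x : X) : SubMulAction A X where
  carrier := (orbit A x)ᶜ
  smul_mem' := by
    intro a y hy h
    apply hy
    have := mem_orbit_of_mem_orbit a⁻¹ h
    rwa [inv_smul_smul] at this

theorem stabilizer_smul_eq {A X : Type*} [Group A] [MulAction A X]
    (hcomm : ∀ a b : A, a * b = b * a) (x : X) (b : A) (hb : b ∈ stabilizer A x) (z : X)
    (hz : z ∈ orbit A x) : b • z = z := by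
  obtain ⟨a, rfl⟩ := hz
  change b • a • x = a • x
  rw [smul_smul, hcomm, mul_smul, mem_stabilizer_iff.mp hb]

theorem faithful_stabilizer {A X : Type*} [Group A] [MulAction A X] [FaithfulSMul A X]
    (hcomm : ∀ a b : A, a * b = b * a) (x : X) :
    FaithfulSMul (stabilizer A x) (orbitCompl A x) := by
  refine ⟨fun {b₁ b₂} h => ?_⟩
  apply Subtype.ext
  apply FaithfulSMul.eq_of_smul_eq_smul (α := X)
  intro z
  by_cases hz : z ∈ orbit A x
  · rw [stabilizer_smul_eq hcomm x b₁ b₁.2 z hz, stabilizer_smul_eq hcomm x b₂ b₂.2 z hz]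
  · exact congrArg Subtype.val (h ⟨z, hz⟩)

theorem finite_of_faithful (A X : Type*) [Group A] [MulAction A X] [FaithfulSMul A X] [Finite X] :
    Finite A :=
  Finite.of_injective (MulAction.toPermHom A X) MulAction.toPerm_injective

/-- An abelian group acting faithfully on `n` points has order at most `gmax n`. -/
theorem card_le_gmax : ∀ (n : ℕ) (X : Type) [Fintype X] (A : Type) [Group A] [MulAction A X]
    [FaithfulSMul A X], (∀ a b : A, a * b = b * a) → Fintype.card X = n → Nat.card A ≤ gmax n := by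
  intro n
  induction n using Nat.strong_induction_on with
  | _ n ih =>
    intro X _ A _ _ _ hcomm hn
    classical
    have hfin : Finite A := finite_of_faithful A X
    rcases isEmpty_or_nonempty X with hX | ⟨⟨x⟩⟩
    · have hsub : Subsingleton A := by
        refine ⟨fun a b => ?_⟩
        apply FaithfulSMul.eq_of_smul_eq_smul (α := X)
        intro z
        exact hX.elim z
      have h0 : n = 0 := by rw [← hn]; exact Fintype.card_eq_zero
      rw [h0, Nat.card_unique]
      decide
    · have hfaith := faithful_stabilizer hcomm x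
      have hO : 0 < (orbit A x).ncard := by
        rw [Set.ncard_pos]
        exact ⟨x, mem_orbit_self x⟩
      have hcardY : Fintype.card (orbitCompl A x) = n - (orbit A x).ncard := by
        have h1 : Fintype.card (orbitCompl A x) = Fintype.card ((orbit A x)ᶜ : Set X) :=
          Fintype.card_congr (Equiv.subtypeEquivRight (fun _ => Iff.rfl))
        rw [h1, Fintype.card_compl_set, hn, Set.ncard_eq_toFinset_card', Set.toFinset_card]
      have hle : (orbit A x).ncard ≤ n := by
        rw [← hn, Set.ncard_eq_toFinset_card', ← Finset.card_univ]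
        exact Finset.card_le_univ _
      have hB := ih (n - (orbit A x).ncard) (by omega) (orbitCompl A x) (stabilizer A x)
        (fun a b => Subtype.ext (hcomm a b)) hcardY
      have hA : Nat.card A = (orbit A x).ncard * Nat.card (stabilizer A x) := by
        rw [← index_stabilizer, Subgroup.index_mul_card]
      rw [hA]
      calc (orbit A x).ncard * Nat.card (stabilizer A x)
          ≤ (orbit A x).ncard * gmax (n - (orbit A x).ncard) := Nat.mul_le_mul_left _ hB
        _ ≤ gmax ((orbit A x).ncard + (n - (orbit A x).ncard)) := mul_gmax_le _ _ hO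
        _ = gmax n := by rw [Nat.add_sub_cancel' hle]

/-- An abelian subgroup of `S_n` has order at most `gmax n`. -/
theorem card_le_gmax_perm (n : ℕ) (A : Subgroup (Equiv.Perm (Fin n))) (hA : IsMulCommutative A) :
    Nat.card A ≤ gmax n := by
  have hf : FaithfulSMul A (Fin n) := by
    refine ⟨fun {a b} h => ?_⟩
    apply Subtype.ext
    ext z
    exact congrArg Fin.val (h z)
  exact card_le_gmax n (Fin n) A (fun a b => mul_comm' a b) (Fintype.card_fin n)

/-- `S_n` has an abelian subgroup of order `c`, consisting of even permutations if `ev`. -/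
def HasAb (ev : Prop) (n c : ℕ) : Prop :=
  ∃ A : Subgroup (Equiv.Perm (Fin n)), IsMulCommutative A ∧ Nat.card A = c ∧
    (ev → A ≤ alternatingGroup (Fin n))

noncomputable def sumHom (n m : ℕ) :
    Equiv.Perm (Fin n) × Equiv.Perm (Fin m) →* Equiv.Perm (Fin (n + m)) :=
  (finSumFinEquiv.permCongrHom).toMonoidHom.comp (Equiv.Perm.sumCongrHom (Fin n) (Fin m))

theorem sumHom_injective (n m : ℕ) : Function.Injective (sumHom n m) :=
  (finSumFinEquiv.permCongrHom).injective.comp Equiv.Perm.sumCongrHom_injective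

theorem sign_sumHom (n m : ℕ) (p : Equiv.Perm (Fin n) × Equiv.Perm (Fin m)) :
    Equiv.Perm.sign (sumHom n m p) = Equiv.Perm.sign p.1 * Equiv.Perm.sign p.2 := by
  change Equiv.Perm.sign (finSumFinEquiv.permCongr (Equiv.Perm.sumCongr p.1 p.2)) = _
  rw [Equiv.Perm.sign_permCongr, Equiv.Perm.sign_sumCongr]

theorem HasAb.add {ev : Prop} {n m c d : ℕ} (h1 : HasAb ev n c) (h2 : HasAb ev m d) :
    HasAb ev (n + m) (c * d) := by
  obtain ⟨A, hA, hAc, hAe⟩ := h1
  obtain ⟨B, hB, hBc, hBe⟩ := h2
  refine ⟨(A.prod B).map (sumHom n m), ?_, ?_, ?_⟩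
  · have : IsMulCommutative (A.prod B) := by
      refine ⟨⟨fun x y => ?_⟩⟩
      apply Subtype.ext
      apply Prod.ext
      · exact congrArg Subtype.val (mul_comm' (⟨x.1.1, x.2.1⟩ : A) ⟨y.1.1, y.2.1⟩)
      · exact congrArg Subtype.val (mul_comm' (⟨x.1.2, x.2.2⟩ : B) ⟨y.1.2, y.2.2⟩)
    exact Subgroup.map_isMulCommutative _ _
  · rw [Subgroup.card_map_of_injective (sumHom_injective n m),
      Nat.card_congr (Subgroup.prodEquiv A B).toEquiv, Nat.card_prod, hAc, hBc]
  · intro he
    rintro _ ⟨p, hp, rfl⟩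
    rw [Equiv.Perm.mem_alternatingGroup, sign_sumHom,
      Equiv.Perm.mem_alternatingGroup.mp (hAe he hp.1),
      Equiv.Perm.mem_alternatingGroup.mp (hBe he hp.2), one_mul]

theorem HasAb.zero (ev : Prop) : HasAb ev 0 1 :=
  ⟨⊥, inferInstance, by simp, fun _ => bot_le⟩

theorem orderOf_finRotate' (n : ℕ) : orderOf (finRotate (n + 2)) = n + 2 := by
  rw [← Equiv.Perm.lcm_cycleType, cycleType_finRotate]
  simp

theorem HasAb.cyc (n : ℕ) : HasAb False (n + 2) (n + 2) :=
  ⟨Subgroup.zpowers (finRotate (n + 2)), inferInstance,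
    by rw [Nat.card_zpowers, orderOf_finRotate'], fun h => h.elim⟩

theorem HasAb.three (ev : Prop) : HasAb ev 3 3 :=
  ⟨Subgroup.zpowers (finRotate 3), inferInstance,
    by rw [Nat.card_zpowers]; exact orderOf_finRotate' 1, fun _ => by
      rw [Subgroup.zpowers_le, Equiv.Perm.mem_alternatingGroup]
      rw [sign_finRotate 3]
      rfl⟩

theorem HasAb.three_mul (ev : Prop) (k : ℕ) : HasAb ev (3 * k) (3 ^ k) := by
  induction k with
  | zero => exact HasAb.zero ev
  | succ k ih =>
    have := ih.add (HasAb.three ev)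
    rwa [show 3 * k + 3 = 3 * (k + 1) by ring, ← pow_succ] at this

end Cfsg.Agent.Lib.Helper47
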