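import Mathlib
import Cfsg.Agent.Lib.Helper47.AbelianPerm

set_option autoImplicit false

namespace Cfsg.Agent.Lib.Helper47

open MulAction

/-- the largest order of an abelian group of even permutations of `n` points. -/
def hmax : ℕ → ℕ
  | 0 => 1
  | 1 => 1
  | 2 => 1
  | 3 => 3
  | 4 => 4
  | 5 => 5
  | 6 => 9
  | 7 => 12
  | 8 => 16
  | (n + 9) => 3 * hmax (n + 6)

theorem hmax_add_nine (n : ℕ) : hmax (n + 9) = 3 * hmax (n + 6) := by rw [hmax]

theorem hmax_ineq : ∀ n : ℕ, hmax n ≤ hmax (n + 1) ∧ 3 * hmax n ≤ hmax (n + 3) ∧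
    4 * hmax n ≤ hmax (n + 4) ∧ 5 * hmax n ≤ hmax (n + 5)
  | 0 => by decide
  | 1 => by decide
  | 2 => by decide
  | 3 => by decide
  | 4 => by decide
  | 5 => by decide
  | 6 => by decide
  | 7 => by decide
  | 8 => by decide
  | (n + 9) => by
    obtain ⟨h1, h3, h4, h5⟩ := hmax_ineq (n + 6)
    have e0 := hmax_add_nine n
    have e1 := hmax_add_nine (n + 1)
    have e3 := hmax_add_nine (n + 3)
    have e4 := hmax_add_nine (n + 4)
    have e5 := hmax_add_nine (n + 5)
    rw [show n + 9 + 1 = n + 1 + 9 by ring, show n + 9 + 3 = n + 3 + 9 by ring,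
      show n + 9 + 4 = n + 4 + 9 by ring, show n + 9 + 5 = n + 5 + 9 by ring, e0, e1, e3, e4, e5,
      show n + 1 + 6 = n + 6 + 1 by ring, show n + 3 + 6 = n + 6 + 3 by ring,
      show n + 4 + 6 = n + 6 + 4 by ring, show n + 5 + 6 = n + 6 + 5 by ring]
    omega

theorem mul_hmax_le (a m : ℕ) (ha : 3 ≤ a) : a * hmax m ≤ hmax (a + m) := by
  induction a using Nat.strong_induction_on with
  | _ a ih =>
    obtain ⟨h1, h3, h4, h5⟩ := hmax_ineq m
    rcases Nat.lt_or_ge a 6 with h6 | h6
    · interval_cases a
      · rw [add_comm]; omega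
      · rw [add_comm]; omega
      · rw [add_comm]; omega
    · have ih' := ih (a - 3) (by omega) (by omega)
      have h3' := (hmax_ineq (a - 3 + m)).2.1
      have e : a - 3 + m + 3 = a + m := by omega
      rw [e] at h3'
      calc a * hmax m ≤ (3 * (a - 3)) * hmax m := Nat.mul_le_mul_right _ (by omega)
        _ = 3 * ((a - 3) * hmax m) := by ring
        _ ≤ 3 * hmax (a - 3 + m) := Nat.mul_le_mul_left _ ih'
        _ ≤ hmax (a + m) := h3'

theorem gmax_le_hmax_aux : ∀ n : ℕ, gmax (n + 4) ≤ hmax (n + 6)
  | 0 => by decide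
  | 1 => by decide
  | 2 => by decide
  | (n + 3) => by
    have ih := gmax_le_hmax_aux n
    rw [show n + 3 + 4 = (n + 2) + 5 by ring, gmax_add_five, show n + 3 + 6 = n + 9 by ring,
      hmax_add_nine, show n + 2 + 2 = n + 4 by ring]
    omega

theorem gmax_le_hmax (n : ℕ) : gmax n ≤ hmax (n + 2) := by
  rcases Nat.lt_or_ge n 4 with h | h
  · interval_cases n <;> decide
  · obtain ⟨m, rfl⟩ := Nat.exists_eq_add_of_le h
    rw [add_comm 4 m]
    exact gmax_le_hmax_aux m

theorem hmax_three_mul_add_eight (j : ℕ) : hmax (3 * j + 8) = 16 * 3 ^ j := by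
  induction j with
  | zero => rfl
  | succ j ih =>
    rw [show 3 * (j + 1) + 8 = (3 * j + 2) + 9 by ring, hmax_add_nine,
      show 3 * j + 2 + 6 = 3 * j + 8 by ring, ih, pow_succ 3 j]
    ring

theorem eq_of_mem_pair {X : Type*} {u v p q r : X} (hp : p = u ∨ p = v) (hq : q = u ∨ q = v)
    (hr : r = u ∨ r = v) (hpq : p ≠ q) (hrq : r ≠ q) : r = p := by
  rcases hp with rfl | rfl <;> rcases hq with rfl | rfl <;> rcases hr with rfl | rfl <;>
    first | rfl | exact absurd rfl hpq | exact absurd rfl hrq

/-- if an abelian group of even permutations has an orbit of size two, it acts faithfully on the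
complement of that orbit. -/
theorem faithful_of_orbit_two {A X : Type*} [Group A] [MulAction A X] [FaithfulSMul A X]
    [Fintype X] [DecidableEq X]
    (hcomm : ∀ a b : A, a * b = b * a) (hev : ∀ a : A, Equiv.Perm.sign (toPerm a : Equiv.Perm X) = 1)
    (x : X) (h2 : (orbit A x).ncard = 2) : FaithfulSMul A (orbitCompl A x) := by
  have key : ∀ a : A, (∀ y : orbitCompl A x, a • y = y) → a = 1 := by
    intro a ha
    have ha' : ∀ z, z ∉ orbit A x → a • z = z := fun z hz => congrArg Subtype.val (ha ⟨z, hz⟩)
    apply FaithfulSMul.eq_of_smul_eq_smul (α := X)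
    intro z
    rw [one_smul]
    by_cases hax : a • x = x
    · by_cases hz : z ∈ orbit A x
      · exact stabilizer_smul_eq hcomm x a hax z hz
      · exact ha' z hz
    · exfalso
      obtain ⟨u, v, huv, hO⟩ := Set.ncard_eq_two.mp h2
      have hx : x ∈ orbit A x := mem_orbit_self x
      have hax' : a • x ∈ orbit A x := mem_orbit x a
      have haax' : a • a • x ∈ orbit A x := mem_orbit_of_mem_orbit a hax'
      have haax : a • a • x = x := by
        have hne : a • a • x ≠ a • x := fun h => hax (smul_left_cancel a h)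
        rw [hO] at hx hax' haax'
        simp only [Set.mem_insert_iff, Set.mem_singleton_iff] at hx hax' haax'
        exact eq_of_mem_pair hx hax' haax' (Ne.symm hax) hne
      have hswap : (toPerm a : Equiv.Perm X) = Equiv.swap x (a • x) := by
        ext w
        rw [toPerm_apply]
        by_cases hw1 : w = x
        · subst hw1; rw [Equiv.swap_apply_left]
        · by_cases hw2 : w = a • x
          · subst hw2; rw [Equiv.swap_apply_right, haax]
          · rw [Equiv.swap_apply_of_ne_of_ne hw1 hw2]
            apply ha'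
            intro hw
            rw [hO] at hx hax' hw
            simp only [Set.mem_insert_iff, Set.mem_singleton_iff] at hx hax' hw
            exact hw1 (eq_of_mem_pair hx hax' hw (Ne.symm hax) hw2)
      have := hev a
      rw [hswap, Equiv.Perm.sign_swap (Ne.symm hax)] at this
      exact absurd this (by decide)
  refine ⟨fun {a₁ a₂} h => ?_⟩
  have : a₁⁻¹ * a₂ = 1 := by
    apply key
    intro y
    rw [mul_smul, ← h y, inv_smul_smul]
  exact (inv_mul_eq_one.mp this)

theorem sign_inst_irrel {α : Type*} (i1 i2 : DecidableEq α) (j1 j2 : Fintype α)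
    (f : Equiv.Perm α) : @Equiv.Perm.sign α i1 j1 f = @Equiv.Perm.sign α i2 j2 f := by
  have h1 : i1 = i2 := Subsingleton.elim _ _
  have h2 : j1 = j2 := Subsingleton.elim _ _
  subst h1; subst h2; rfl

theorem sign_stabilizer_aux {A X : Type*} [Group A] [MulAction A X] [Fintype X] [DecidableEq X]
    (hcomm : ∀ a b : A, a * b = b * a) (x : X) (b : stabilizer A x)
    [DecidablePred (fun z => z ∈ orbitCompl A x)]
    (h₁ : ∀ z, (toPerm (b : A) : Equiv.Perm X) z ∈ orbitCompl A x ↔ z ∈ orbitCompl A x) :
    Equiv.Perm.sign (Equiv.Perm.subtypePerm (toPerm (b : A) : Equiv.Perm X) h₁) =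
      Equiv.Perm.sign (toPerm (b : A) : Equiv.Perm X) := by
  apply Equiv.Perm.sign_subtypePerm
  intro z hz hz'
  exact hz (stabilizer_smul_eq hcomm x b b.2 z hz')

theorem sign_stabilizer {A X : Type*} [Group A] [MulAction A X] [Fintype X] [DecidableEq X]
    (hcomm : ∀ a b : A, a * b = b * a) (x : X) [Fintype (orbitCompl A x)]
    [DecidableEq (orbitCompl A x)] (b : stabilizer A x) :
    Equiv.Perm.sign (toPerm b : Equiv.Perm (orbitCompl A x)) =
      Equiv.Perm.sign (toPerm (b : A) : Equiv.Perm X) := by
  have h₁ : ∀ z, (toPerm (b : A) : Equiv.Perm X) z ∈ orbitCompl A x ↔ z ∈ orbitCompl A x := by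
    intro z
    exact (orbitCompl A x).smul_mem_iff' (b : A)
  classical
  rw [← sign_stabilizer_aux hcomm x b h₁]
  have e : (toPerm b : Equiv.Perm (orbitCompl A x)) =
      Equiv.Perm.subtypePerm (toPerm (b : A) : Equiv.Perm X) h₁ := by
    ext z; rfl
  rw [e]
  exact sign_inst_irrel _ _ _ _ _

/-- An abelian group acting faithfully by even permutations on `n` points has order at most
`hmax n`. -/
theorem card_le_hmax : ∀ (n : ℕ) (X : Type) [Fintype X] [DecidableEq X] (A : Type) [Group A]
    [MulAction A X] [FaithfulSMul A X], (∀ a b : A, a * b = b * a) →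
    (∀ a : A, Equiv.Perm.sign (toPerm a : Equiv.Perm X) = 1) →
    Fintype.card X = n → Nat.card A ≤ hmax n := by
  intro n
  induction n using Nat.strong_induction_on with
  | _ n ih =>
    intro X _ _ A _ _ _ hcomm hev hn
    classical
    have hfin : Finite A := finite_of_faithful A X
    have hcardY : ∀ x : X, Fintype.card (orbitCompl A x) = n - (orbit A x).ncard := by
      intro x
      classical
      have h1 : Fintype.card (orbitCompl A x) = Fintype.card ((orbit A x)ᶜ : Set X) :=
        Fintype.card_congr (Equiv.subtypeEquivRight (fun _ => Iff.rfl))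
      rw [h1, Fintype.card_compl_set, hn, Set.ncard_eq_toFinset_card', Set.toFinset_card]
    have hle : ∀ x : X, (orbit A x).ncard ≤ n := by
      intro x
      classical
      rw [← hn, Set.ncard_eq_toFinset_card', ← Finset.card_univ]
      exact Finset.card_le_univ _
    by_cases h2 : ∃ x : X, (orbit A x).ncard = 2
    · obtain ⟨x, hx⟩ := h2
      have hf := faithful_of_orbit_two hcomm hev x hx
      have h1 := card_le_gmax (n - 2) (orbitCompl A x) A hcomm (by rw [hcardY x, hx])
      have h3 := gmax_le_hmax (n - 2)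
      have h4 := hle x
      rw [show n - 2 + 2 = n by omega] at h3
      exact h1.trans h3
    · rcases isEmpty_or_nonempty X with hX | ⟨⟨x⟩⟩
      · have hsub : Subsingleton A := by
          refine ⟨fun a b => ?_⟩
          apply FaithfulSMul.eq_of_smul_eq_smul (α := X)
          intro z
          exact hX.elim z
        have h0 : n = 0 := by rw [← hn]; exact Fintype.card_eq_zero
        rw [h0, Nat.card_unique]
        decide
      · have hfaith := faithful_stabilizer hcomm x
        have hO : 0 < (orbit A x).ncard := by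
          rw [Set.ncard_pos]
          exact ⟨x, mem_orbit_self x⟩
        have hO2 : (orbit A x).ncard ≠ 2 := fun h => h2 ⟨x, h⟩
        have hB := ih (n - (orbit A x).ncard) (by have := hle x; omega) (orbitCompl A x)
          (stabilizer A x) (fun a b => Subtype.ext (hcomm a b))
          (fun b => by rw [sign_stabilizer hcomm x b]; exact hev b) (hcardY x)
        have hA : Nat.card A = (orbit A x).ncard * Nat.card (stabilizer A x) := by
          rw [← index_stabilizer, Subgroup.index_mul_card]
        rw [hA]
        have hfinal : (orbit A x).ncard * hmax (n - (orbit A x).ncard) ≤ hmax n := by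
          rcases Nat.lt_or_ge (orbit A x).ncard 3 with h3 | h3
          · have h1 : (orbit A x).ncard = 1 := by omega
            rw [h1, one_mul]
            have := (hmax_ineq (n - 1)).1
            have h4 := hle x
            rwa [show n - 1 + 1 = n by omega] at this
          · have := mul_hmax_le _ (n - (orbit A x).ncard) h3
            rwa [Nat.add_sub_cancel' (hle x)] at this
        exact (Nat.mul_le_mul_left _ hB).trans hfinal

/-- An abelian subgroup of `A_n` has order at most `hmax n`. -/
theorem card_le_hmax_alt (n : ℕ) (A : Subgroup (alternatingGroup (Fin n)))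
    (hA : IsMulCommutative A) : Nat.card A ≤ hmax n := by
  have hf : FaithfulSMul A (Fin n) := by
    refine ⟨fun {a b} h => ?_⟩
    apply Subtype.ext
    apply Subtype.ext
    ext z
    exact congrArg Fin.val (h z)
  refine card_le_hmax n (Fin n) A (fun a b => mul_comm' a b) ?_ (Fintype.card_fin n)
  intro a
  have h1 : (toPerm a : Equiv.Perm (Fin n)) = ((a : alternatingGroup (Fin n)) : Equiv.Perm (Fin n)) := by
    ext z; rfl
  rw [h1]
  exact Equiv.Perm.mem_alternatingGroup.mp (a : alternatingGroup (Fin n)).2

/-- An abelian subgroup of `A_n` has order at most `gmax n`. -/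
theorem card_le_gmax_alt (n : ℕ) (A : Subgroup (alternatingGroup (Fin n)))
    (hA : IsMulCommutative A) : Nat.card A ≤ gmax n := by
  have h1 : IsMulCommutative (A.map (alternatingGroup (Fin n)).subtype) :=
    Subgroup.map_isMulCommutative _ _
  have h2 := card_le_gmax_perm n _ h1
  rwa [Subgroup.card_map_of_injective (alternatingGroup (Fin n)).subtype_injective] at h2

theorem HasAb.four : HasAb True 4 4 := by
  have h4 : Nat.card (Fin 4) = 4 := by simp
  refine ⟨(alternatingGroup.kleinFour (Fin 4)).map (alternatingGroup (Fin 4)).subtype, ?_, ?_, ?_⟩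
  · have := alternatingGroup.kleinFour_isKleinFour h4
    have : IsMulCommutative (alternatingGroup.kleinFour (Fin 4)) := IsKleinFour.isMulCommutative
    exact Subgroup.map_isMulCommutative _ _
  · rw [Subgroup.card_map_of_injective (alternatingGroup (Fin 4)).subtype_injective,
      alternatingGroup.kleinFour_card_of_card_eq_four h4]
  · intro _
    rintro _ ⟨g, -, rfl⟩
    exact g.2

theorem HasAb.toAlt {n c : ℕ} (h : HasAb True n c) :
    ∃ A : Subgroup (alternatingGroup (Fin n)), IsMulCommutative A ∧ Nat.card A = c := by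
  obtain ⟨A, hA, hc, he⟩ := h
  refine ⟨A.subgroupOf (alternatingGroup (Fin n)), ?_, ?_⟩
  · refine ⟨⟨fun x y => ?_⟩⟩
    apply Subtype.ext
    apply Subtype.ext
    change (x.1.1 * y.1.1 : Equiv.Perm (Fin n)) = y.1.1 * x.1.1
    exact congrArg Subtype.val (mul_comm' (⟨x.1.1, x.2⟩ : A) ⟨y.1.1, y.2⟩)
  · rw [Nat.card_congr (Subgroup.subgroupOfEquivOfLe (he trivial)).toEquiv, hc]

end Cfsg.Agent.Lib.Helper47
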