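import Cfsg.Agent.Lib.Helper47.AutPSUMain

set_option autoImplicit false
set_option linter.unusedSectionVars false
set_option linter.unusedVariables false

/-!
Centralisers of field automorphisms of odd prime order of `PSU_n(q)` in `Inndiag`, and the
splitting of their classes.
-/

namespace Cfsg.Agent.Lib.Helper47.AutPSU

open Matrix MatrixGroups Cfsg.Agent.Lib.Helper17 Cfsg.Agent.Lib.Helper99.AutPSU
open Cfsg.Agent.Lib.Helper18.AutPSL (mp mp_apply mp_eq_map mp_one mp_smul nrm nrmS nrmS_zero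
  nrmS_succ hilbert90_one st st_apply st_mul st_one st_smul st_st det_st mem_GU_iff_st
  mp_pow_of_smul det_mp splitClassCount_eq splitClassCount_conj centralizer_equiv
  index_sup_of_card orderOf_conj')

variable {F : Type*} [Field F] [Fintype F] {n q : ℕ}

/-! ### norm-one scalars, determinants -/

/-- the group of elements of norm one -/
abbrev U1 (F : Type*) [Field F] (q : ℕ) : Subgroup Fˣ := (powMonoidHom (q + 1) : Fˣ →* Fˣ).ker

omit [Fintype F] in
theorem mem_U1 {a : Fˣ} : a ∈ U1 F q ↔ (a : F) ^ (q + 1) = 1 := by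
  rw [MonoidHom.mem_ker, powMonoidHom_apply, Units.ext_iff, Units.val_pow_eq_pow_val,
    Units.val_one]

theorem card_U1 (hF : Fintype.card F = q ^ 2) : Nat.card (U1 F q) = q + 1 := by
  classical
  rw [IsCyclic.card_powMonoidHom_ker, Nat.card_eq_fintype_card, Fintype.card_units, hF]
  apply Nat.gcd_eq_right
  exact ⟨q - 1, by
    have := two_le_of_card_sq hF
    obtain ⟨k, rfl⟩ : ∃ k, q = k + 1 := ⟨q - 1, by omega⟩
    simp only [Nat.add_sub_cancel]
    have : (k + 1) ^ 2 = (k + 1 + 1) * k + 1 := by ring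
    omega⟩

theorem det_gu (hF : Fintype.card F = q ^ 2) (g : ↥(Cfsg.GU n F q)) :
    ((g : GL (Fin n) F).1.det) ^ (q + 1) = 1 := by
  rw [pow_succ, ← ph_apply hF, ← det_st, ← det_mul, gu_st, det_one]

/-- the determinant `GU → U1` -/
noncomputable def detU (hF : Fintype.card F = q ^ 2) : ↥(Cfsg.GU n F q) →* ↥(U1 F q) :=
  ((GeneralLinearGroup.det : GL (Fin n) F →* Fˣ).comp (Cfsg.GU n F q).subtype).codRestrict
    (U1 F q) (fun g => by
      rw [mem_U1]
      show ((GeneralLinearGroup.det (g : GL (Fin n) F) : Fˣ) : F) ^ (q + 1) = 1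
      rw [GeneralLinearGroup.val_det_apply]
      exact det_gu hF g)

theorem detU_val (hF : Fintype.card F = q ^ 2) (g : ↥(Cfsg.GU n F q)) :
    (((detU hF g : ↥(U1 F q)) : Fˣ) : F) = (g : GL (Fin n) F).1.det := by
  show ((GeneralLinearGroup.det (g : GL (Fin n) F) : Fˣ) : F) = _
  rw [GeneralLinearGroup.val_det_apply]

omit [Fintype F] in
theorem st_diagonal (τ : F ≃+* F) (v : Fin n → F) :
    st τ (Matrix.diagonal v) = Matrix.diagonal (fun i => τ (v i)) := by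
  ext i k
  rw [st_apply]
  by_cases h : i = k
  · subst h; simp
  · rw [Matrix.diagonal_apply_ne _ h, Matrix.diagonal_apply_ne _ (Ne.symm h), map_zero]

/-- `diag(a, 1, …, 1)` in `GU` -/
noncomputable def dgU (hF : Fintype.card F = q ^ 2) (i₀ : Fin n) (a : F) (ha : a ^ (q + 1) = 1) :
    ↥(Cfsg.GU n F q) :=
  mkGU hF (Matrix.diagonal (Function.update 1 i₀ a)) (by
    rw [st_diagonal, Matrix.diagonal_mul_diagonal, ← Matrix.diagonal_one]
    congr 1
    funext i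
    by_cases hi : i = i₀
    · subst hi
      simp [ph_apply, ← pow_succ, ha]
    · simp [Function.update_of_ne hi])

theorem dgU_val (hF : Fintype.card F = q ^ 2) (i₀ : Fin n) (a : F) (ha : a ^ (q + 1) = 1) :
    ((dgU hF i₀ a ha : ↥(Cfsg.GU n F q)) : GL (Fin n) F).1 =
      Matrix.diagonal (Function.update 1 i₀ a) := rfl

theorem det_dgU (hF : Fintype.card F = q ^ 2) (i₀ : Fin n) (a : F) (ha : a ^ (q + 1) = 1) :
    ((dgU hF i₀ a ha : ↥(Cfsg.GU n F q)) : GL (Fin n) F).1.det = a := by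
  rw [dgU_val, det_diagonal, Finset.prod_update_of_mem (Finset.mem_univ i₀)]
  simp

/-- scalars in `GU` -/
noncomputable def scU (hF : Fintype.card F = q ^ 2) (a : F) (ha : a ^ (q + 1) = 1) :
    ↥(Cfsg.GU n F q) :=
  mkGU hF (a • 1) (by
    rw [st_smul, st_one, Matrix.smul_mul, Matrix.mul_smul, Matrix.one_mul, smul_smul, ph_apply,
      ← pow_succ, ha, one_smul])

theorem scU_val (hF : Fintype.card F = q ^ 2) (a : F) (ha : a ^ (q + 1) = 1) :
    ((scU hF a ha : ↥(Cfsg.GU n F q)) : GL (Fin n) F).1 = a • 1 := rfl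

theorem cG_scU (hF : Fintype.card F = q ^ 2) (a : F) (ha : a ^ (q + 1) = 1) :
    (cG (scU hF a ha) : MulAut (Cfsg.PSU n F q)) = 1 := cG_eq_one_of_smul (scU_val hF a ha)

theorem detU_surjective (hF : Fintype.card F = q ^ 2) (hn : 0 < n) :
    Function.Surjective (detU hF : ↥(Cfsg.GU n F q) →* ↥(U1 F q)) := by
  intro a
  refine ⟨dgU hF ⟨0, hn⟩ (a : Fˣ) (mem_U1.1 a.2), ?_⟩
  apply Subtype.ext
  apply Units.ext
  rw [detU_val, det_dgU]

theorem inn_eq (hF : Fintype.card F = q ^ 2) :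
    Cfsg.Inn (Cfsg.PSU n F q) = (detU hF : ↥(Cfsg.GU n F q) →* ↥(U1 F q)).ker.map cG := by
  ext β
  constructor
  · rintro ⟨x, rfl⟩
    obtain ⟨x, rfl⟩ := pm_surjective x
    refine ⟨toGU x, ?_, cG_toGU x⟩
    show detU hF (toGU x) = 1
    apply Subtype.ext
    apply Units.ext
    rw [detU_val, toGU_val]
    exact mt_det x
  · rintro ⟨g, hg, rfl⟩
    have hg' : detU hF g = 1 := hg
    have hdet : (g : GL (Fin n) F).1.det = 1 := by
      rw [← detU_val hF, hg']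
      rfl
    let x : ↥(Cfsg.SU n F q) := mkSU (g : GL (Fin n) F).1 hdet (gu_herm g)
    have e : g = toGU x := by
      apply Subtype.ext
      apply Units.ext
      rfl
    rw [e, cG_toGU]
    exact ⟨_, rfl⟩

theorem mem_comap_cent {s : MulAut (Cfsg.PSU n F q)} {g : ↥(Cfsg.GU n F q)} :
    g ∈ (Subgroup.centralizer {s}).comap (cG : ↥(Cfsg.GU n F q) →* _) ↔ cG g * s = s * cG g := by
  rw [Subgroup.mem_comap, Subgroup.mem_centralizer_singleton_iff]

theorem comm_fl_of_fixed (σ : F ≃+* F) (g : ↥(Cfsg.GU n F q))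
    (h : mp σ (g : GL (Fin n) F).1 = (g : GL (Fin n) F).1) :
    (cG g * fl σ : MulAut (Cfsg.PSU n F q)) = fl σ * cG g := by
  have : mapGU σ g = g := Subtype.ext (Units.ext h)
  rw [fl_mul_cG, this]

variable {F₀ : Type*} [Field F₀] [Fintype F₀] {q₀ : ℕ} {j : F₀ →+* F} {σ : F ≃+* F}

theorem Sub.pow_succ_map (S : Sub q σ F₀ q₀ j) (x : F₀) : j (x ^ (q₀ + 1)) = (j x) ^ (q + 1) := by
  rw [pow_succ, map_mul, S.pow, ← pow_succ]

/-- an element of `GU` commuting with `fl σ` modulo scalars is a unitary scalar times a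
`σ`-fixed one -/
theorem Sub.exists_fixed_of_comm (hF : Fintype.card F = q ^ 2) (S : Sub q σ F₀ q₀ j)
    (hn : 3 ≤ n) (g : ↥(Cfsg.GU n F q)) (r : ℕ) (hr0 : 0 < r) (hr : orderOf σ = r)
    (h : (cG g * fl σ : MulAut (Cfsg.PSU n F q)) = fl σ * cG g) :
    ∃ c : F, c ^ (q + 1) = 1 ∧ mp σ (c • (g : GL (Fin n) F).1) = c • (g : GL (Fin n) F).1 := by
  have hn0 : 0 < n := by omega
  have hσ : σ ^ r = 1 := by rw [← hr]; exact pow_orderOf_eq_one σ
  rw [fl_mul_cG] at h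
  have h1 : (cG (g⁻¹ * mapGU σ g) : MulAut (Cfsg.PSU n F q)) = 1 := by
    rw [map_mul, map_inv, ← mul_right_cancel h, inv_mul_cancel]
  obtain ⟨lam, hl⟩ := exists_smul_of_cG_eq_one hF hn h1
  have h2 : mp σ (g : GL (Fin n) F).1 = lam • (g : GL (Fin n) F).1 := by
    have h3 : (g : GL (Fin n) F)⁻¹.1 * mp σ (g : GL (Fin n) F).1 = lam • 1 := hl
    calc mp σ (g : GL (Fin n) F).1
        = (g : GL (Fin n) F).1 * ((g : GL (Fin n) F)⁻¹.1 * mp σ (g : GL (Fin n) F).1) := by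
          rw [← Matrix.mul_assoc, Units.mul_inv, Matrix.one_mul]
      _ = _ := by rw [h3, Matrix.mul_smul, Matrix.mul_one]
  have h5 := mp_pow_of_smul σ (g : GL (Fin n) F).1 lam h2 r
  rw [hσ, mp_one] at h5
  have h6 : nrmS σ lam r = 1 :=
    (eq_of_smul_eq_smul hn0 (det_GL_ne_zero g.1) (by rw [one_smul]; exact h5)).symm
  obtain ⟨c, hc0, hc⟩ := hilbert90_one σ lam r hr0 hr h6
  have hfix : mp σ (c • (g : GL (Fin n) F).1) = c • (g : GL (Fin n) F).1 := by
    rw [mp_smul, h2, smul_smul, mul_comm, hc]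
  -- the norm of `c` lies in the fixed field
  have hκ : st (ph hF) (c • (g : GL (Fin n) F).1) * (c • (g : GL (Fin n) F).1) =
      (c ^ (q + 1)) • 1 := by
    rw [st_smul, Matrix.smul_mul, Matrix.mul_smul, smul_smul, gu_st, ph_apply, ← pow_succ]
  have hκσ : σ (c ^ (q + 1)) = c ^ (q + 1) := by
    have h7 := congrArg (mp σ) hκ
    rw [map_mul, ← st_mp, hfix, hκ, mp_smul, map_one] at h7
    have h8 := congrFun (congrFun h7 ⟨0, hn0⟩) ⟨0, hn0⟩
    simpa using h8.symm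
  obtain ⟨κ₀, hκ₀⟩ := (S.fix _).1 hκσ
  have hκ0 : κ₀ ≠ 0 := by
    rintro rfl
    rw [map_zero] at hκ₀
    exact pow_ne_zero _ hc0 hκ₀.symm
  have hκq : κ₀ ^ q₀ = κ₀ := by
    apply j.injective
    rw [S.pow, hκ₀, ← pow_mul, mul_comm, pow_mul, pow_succ, pow_q_pow_q hF, mul_comm, ← pow_succ]
  obtain ⟨s₀, hs₀⟩ := exists_norm_eq S.card κ₀ hκ0 hκq
  have hs : (j s₀) ^ (q + 1) = c ^ (q + 1) := by rw [← S.pow_succ_map, hs₀, hκ₀]
  have hs0 : j s₀ ≠ 0 := by
    intro h0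
    rw [h0, zero_pow (by omega)] at hs
    exact pow_ne_zero _ hc0 hs.symm
  have hsσ : σ (j s₀) = j s₀ := (S.fix _).2 ⟨s₀, rfl⟩
  refine ⟨(j s₀)⁻¹ * c, ?_, ?_⟩
  · rw [mul_pow, inv_pow, hs, inv_mul_cancel₀ (pow_ne_zero _ hc0)]
  · rw [← smul_smul, mp_smul, hfix, map_inv₀, hsσ]

/-- the `σ`-fixed elements of norm one -/
def fixU (q : ℕ) (σ : F ≃+* F) : Subgroup ↥(U1 F q) where
  carrier := {a | σ ((a : Fˣ) : F) = ((a : Fˣ) : F)}
  mul_mem' {a b} ha hb := by
    show σ (((a : Fˣ) : F) * ((b : Fˣ) : F)) = _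
    rw [map_mul, ha, hb]
    rfl
  one_mem' := map_one σ
  inv_mem' {a} ha := by
    show σ (((a : Fˣ)⁻¹ : Fˣ) : F) = (((a : Fˣ)⁻¹ : Fˣ) : F)
    rw [Units.val_inv_eq_inv_val, map_inv₀, ha]

theorem mem_fixU {a : ↥(U1 F q)} : a ∈ fixU q σ ↔ σ ((a : Fˣ) : F) = ((a : Fˣ) : F) := Iff.rfl

theorem Sub.card_fixU (S : Sub q σ F₀ q₀ j) : Nat.card (fixU q σ) = q₀ + 1 := by
  rw [← card_U1 S.card]
  symm
  apply Nat.card_congr
  refine Equiv.ofBijective (fun a => ⟨⟨Units.map (j : F₀ →* F) (a : F₀ˣ), ?_⟩, ?_⟩) ⟨?_, ?_⟩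
  · rw [mem_U1]
    show (j ((a : F₀ˣ) : F₀)) ^ (q + 1) = 1
    rw [← S.pow_succ_map, mem_U1.1 a.2, map_one]
  · exact (S.fix _).2 ⟨((a : F₀ˣ) : F₀), rfl⟩
  · intro a b hab
    apply Subtype.ext
    apply Units.ext
    apply j.injective
    exact congrArg (fun z : ↥(fixU q σ) => (((z : ↥(U1 F q)) : Fˣ) : F)) hab
  · rintro ⟨a, ha⟩
    obtain ⟨y, hy⟩ := (S.fix _).1 ha
    have hy0 : y ≠ 0 := by
      rintro rfl
      rw [map_zero] at hy
      exact (a : Fˣ).ne_zero hy.symm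
    refine ⟨⟨Units.mk0 y hy0, ?_⟩, ?_⟩
    · rw [mem_U1]
      apply j.injective
      rw [Units.val_mk0, S.pow_succ_map, hy, mem_U1.1 a.2, map_one]
    · apply Subtype.ext
      apply Subtype.ext
      apply Units.ext
      exact hy

theorem Sub.map_det_cent (hF : Fintype.card F = q ^ 2) (S : Sub q σ F₀ q₀ j) (hn : 3 ≤ n)
    (r : ℕ) (hr0 : 0 < r) (hr : orderOf σ = r) :
    ((Subgroup.centralizer {fl σ}).comap (cG : ↥(Cfsg.GU n F q) →* _)).map (detU hF) =
      (powMonoidHom n : ↥(U1 F q) →* ↥(U1 F q)).range ⊔ fixU q σ := by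
  apply le_antisymm
  · rintro _ ⟨g, hg, rfl⟩
    obtain ⟨c, hc1, hc⟩ := S.exists_fixed_of_comm hF hn g r hr0 hr (mem_comap_cent.1 hg)
    have hc0 : c ≠ 0 := by
      rintro rfl
      rw [zero_pow (by omega)] at hc1
      exact zero_ne_one hc1
    have hv : ((scU hF c hc1 * g : ↥(Cfsg.GU n F q)) : GL (Fin n) F).1 =
        c • (g : GL (Fin n) F).1 := by
      show (c • (1 : Matrix (Fin n) (Fin n) F)) * (g : GL (Fin n) F).1 = _
      rw [Matrix.smul_mul, Matrix.one_mul]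
    rw [Subgroup.mem_sup]
    refine ⟨(⟨Units.mk0 c hc0, mem_U1.2 hc1⟩ : ↥(U1 F q))⁻¹ ^ n, ⟨_, rfl⟩,
      detU hF (scU hF c hc1 * g), ?_, ?_⟩
    · rw [mem_fixU, detU_val, hv, ← det_mp, hc]
    · have h3 : detU hF (scU hF c hc1 : ↥(Cfsg.GU n F q)) =
          (⟨Units.mk0 c hc0, mem_U1.2 hc1⟩ : ↥(U1 F q)) ^ n := by
        apply Subtype.ext
        apply Units.ext
        rw [detU_val, scU_val, Matrix.det_smul, Matrix.det_one, mul_one, Fintype.card_fin]
        rfl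
      rw [map_mul, h3, ← mul_assoc, ← mul_pow, inv_mul_cancel, one_pow, one_mul]
  · apply sup_le
    · rintro _ ⟨a, rfl⟩
      refine ⟨scU hF ((a : Fˣ) : F) (mem_U1.1 a.2),
        mem_comap_cent.2 (by rw [cG_scU, one_mul, mul_one]), ?_⟩
      apply Subtype.ext
      apply Units.ext
      rw [detU_val, scU_val, Matrix.det_smul, Matrix.det_one, mul_one, Fintype.card_fin]
      rfl
    · intro a ha
      rw [mem_fixU] at ha
      refine ⟨dgU hF ⟨0, by omega⟩ ((a : Fˣ) : F) (mem_U1.1 a.2),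
        mem_comap_cent.2 (comm_fl_of_fixed σ _ ?_), ?_⟩
      · rw [dgU_val, mp_eq_map, Matrix.diagonal_map (map_zero σ)]
        congr 1
        funext i
        by_cases hi : i = ⟨0, by omega⟩
        · subst hi; simpa using ha
        · simp [Function.update_of_ne hi]
      · apply Subtype.ext
        apply Units.ext
        rw [detU_val, det_dgU]

end Cfsg.Agent.Lib.Helper47.AutPSU
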