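import Cfsg.Agent.Lib.Helper47.AutPSUCent

set_option autoImplicit false
set_option linter.unusedSectionVars false
set_option linter.unusedVariables false

/-!
The subfield subgroup `GU_n(q₀) → Aut(PSU_n(q))` and the centraliser theorem
(conditional on `AutForm`).
-/

namespace Cfsg.Agent.Lib.Helper47.AutPSU

open Matrix MatrixGroups Cfsg.Agent.Lib.Helper17 Cfsg.Agent.Lib.Helper99.AutPSU
open Cfsg.Agent.Lib.Helper18.AutPSL (mp mp_apply mp_eq_map mp_one mp_smul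
  st st_apply st_mul st_one st_smul st_st det_st mem_GU_iff_st
  splitClassCount_eq splitClassCount_conj centralizer_equiv
  index_sup_of_card orderOf_conj')

variable {F : Type*} [Field F] [Fintype F] {n q : ℕ}
variable {F₀ : Type*} [Field F₀] [Fintype F₀] {q₀ : ℕ} {j : F₀ →+* F} {σ : F ≃+* F}

/-- `GU_n(q₀) → GU_n(q)` -/
noncomputable def Sub.mapJ (hF : Fintype.card F = q ^ 2) (S : Sub q σ F₀ q₀ j) :
    ↥(Cfsg.GU n F₀ q₀) →* ↥(Cfsg.GU n F q) :=
  ((GeneralLinearGroup.map j).comp (Cfsg.GU n F₀ q₀).subtype).codRestrict (Cfsg.GU n F q)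
    (fun g => by
      rw [mem_GU_iff_st hF (ph hF) (ph_apply hF)]
      show ((g : GL (Fin n) F₀).1.map j) * st (ph hF) ((g : GL (Fin n) F₀).1.map j) = 1
      rw [← S.st_map hF, ← Matrix.map_mul,
        (mem_GU_iff_st S.card (ph S.card) (ph_apply S.card) g.1).1 g.2,
        Matrix.map_one j (map_zero j) (map_one j)])

theorem Sub.mapJ_val (hF : Fintype.card F = q ^ 2) (S : Sub q σ F₀ q₀ j)
    (g : ↥(Cfsg.GU n F₀ q₀)) :
    ((S.mapJ hF g : ↥(Cfsg.GU n F q)) : GL (Fin n) F).1 = (g : GL (Fin n) F₀).1.map j := rfl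

/-- `GU_n(q₀) → Aut(PSU_n(q))` -/
noncomputable def Sub.Th (hF : Fintype.card F = q ^ 2) (S : Sub q σ F₀ q₀ j) :
    ↥(Cfsg.GU n F₀ q₀) →* MulAut (Cfsg.PSU n F q) := cG.comp (S.mapJ hF)

theorem Sub.Th_apply (hF : Fintype.card F = q ^ 2) (S : Sub q σ F₀ q₀ j)
    (g : ↥(Cfsg.GU n F₀ q₀)) : S.Th hF g = (cG (S.mapJ hF g) : MulAut (Cfsg.PSU n F q)) := rfl

theorem Sub.ker_Th (hF : Fintype.card F = q ^ 2) (S : Sub q σ F₀ q₀ j) (hn : 3 ≤ n) :
    (S.Th hF : ↥(Cfsg.GU n F₀ q₀) →* MulAut (Cfsg.PSU n F q)).ker =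
      (Cfsg.Geo.scalars (Fin n) F₀).subgroupOf (Cfsg.GU n F₀ q₀) := by
  ext g
  rw [Subgroup.mem_subgroupOf, Cfsg.Geo.mem_scalars_iff, MonoidHom.mem_ker, S.Th_apply]
  constructor
  · intro h
    obtain ⟨a, ha⟩ := exists_smul_of_cG_eq_one hF hn h
    rw [S.mapJ_val] at ha
    have hM : (g : GL (Fin n) F₀).1 =
        ((g : GL (Fin n) F₀).1 ⟨0, by omega⟩ ⟨0, by omega⟩) • (1 : Matrix (Fin n) (Fin n) F₀) := by
      ext i k
      have h2 := congrFun (congrFun ha i) k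
      have h3 := congrFun (congrFun ha ⟨0, by omega⟩) ⟨0, by omega⟩
      rw [Matrix.map_apply] at h2 h3
      by_cases hik : i = k
      · subst hik
        simp only [Matrix.smul_apply, Matrix.one_apply_eq, smul_eq_mul, mul_one] at h2 h3 ⊢
        exact j.injective (by rw [h2, h3])
      · simp only [Matrix.smul_apply, Matrix.one_apply_ne hik, smul_eq_mul, mul_zero] at h2 ⊢
        exact (j.injective (by rw [h2, map_zero]))
    have h0 : (g : GL (Fin n) F₀).1 ⟨0, by omega⟩ ⟨0, by omega⟩ ≠ 0 := by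
      intro h0
      rw [h0, zero_smul] at hM
      have := det_GL_ne_zero (g : GL (Fin n) F₀)
      rw [hM] at this
      apply this
      have : Nonempty (Fin n) := ⟨⟨0, by omega⟩⟩
      exact Matrix.det_zero
    exact ⟨Units.mk0 _ h0, hM⟩
  · rintro ⟨c, hc⟩
    apply cG_eq_one_of_smul (c := j c)
    have hc' : (g : GL (Fin n) F₀).1 = (c : F₀) • (1 : Matrix (Fin n) (Fin n) F₀) := hc
    rw [S.mapJ_val, hc']
    ext i k
    by_cases hik : i = k
    · subst hik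
      simp
    · simp [hik]

theorem Sub.range_Th (hF : Fintype.card F = q ^ 2) (S : Sub q σ F₀ q₀ j) (hn : 3 ≤ n)
    (r : ℕ) (hr0 : 0 < r) (hr : orderOf σ = r) :
    (S.Th hF : ↥(Cfsg.GU n F₀ q₀) →* MulAut (Cfsg.PSU n F q)).range =
      (cG : ↥(Cfsg.GU n F q) →* _).range ⊓ Subgroup.centralizer {fl σ} := by
  ext y
  constructor
  · rintro ⟨g, rfl⟩
    refine ⟨⟨_, rfl⟩, ?_⟩
    apply Subgroup.mem_centralizer_singleton_iff.2
    apply comm_fl_of_fixed
    rw [S.mapJ_val]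
    exact S.mp_map _
  · rintro ⟨⟨g, rfl⟩, h2⟩
    obtain ⟨c, hc1, hc⟩ := S.exists_fixed_of_comm hF hn g r hr0 hr
      (Subgroup.mem_centralizer_singleton_iff.1 h2)
    obtain ⟨M₀, hM₀⟩ := S.exists_map _ hc
    have hv : ((scU hF c hc1 * g : ↥(Cfsg.GU n F q)) : GL (Fin n) F).1 =
        c • (g : GL (Fin n) F).1 := by
      show (c • (1 : Matrix (Fin n) (Fin n) F)) * (g : GL (Fin n) F).1 = _
      rw [Matrix.smul_mul, Matrix.one_mul]
    have hu : st (ph S.card) M₀ * M₀ = 1 := by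
      apply Matrix.map_injective j.injective
      show (st (ph S.card) M₀ * M₀).map j = (1 : Matrix (Fin n) (Fin n) F₀).map j
      rw [Matrix.map_mul, S.st_map hF, hM₀, ← hv, gu_st, Matrix.map_one j (map_zero j) (map_one j)]
    refine ⟨mkGU S.card M₀ hu, ?_⟩
    have e : S.mapJ hF (mkGU S.card M₀ hu) = scU hF c hc1 * g := by
      apply Subtype.ext
      apply Units.ext
      rw [S.mapJ_val, mkGU_val, hM₀, hv]
    rw [S.Th_apply, e, map_mul, cG_scU, one_mul]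

/-- **S2705**, conditional on the hub. -/
theorem field_cent {p f : ℕ} [Fact p.Prime] (hq : q = p ^ f) (hf : 1 ≤ f)
    (hF : Fintype.card F = q ^ 2) (hn : 3 ≤ n) (hA : AutForm n F q)
    (x : MulAut (Cfsg.PSU n F q)) (hx : Cfsg.IsFieldAutClassPSU x) {r : ℕ} (hr : r.Prime)
    (hro : Odd r) (hxr : orderOf x = r) (hF₀ : Fintype.card F₀ = p ^ (2 * (f / r))) :
    r ∣ f ∧ Nonempty (↥(Cfsg.inndiagPSU n F q ⊓ Subgroup.centralizer {x}) ≃*
        Cfsg.PGU n F₀ (p ^ (f / r))) ∧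
      Cfsg.splitClassCount (Cfsg.inndiagPSU n F q) (Cfsg.Inn (Cfsg.PSU n F q)) x =
        Nat.gcd n ((q + 1) / (p ^ (f / r) + 1)) := by
  classical
  have hF' : Fintype.card F = p ^ (2 * f) := by rw [hF, hq, ← pow_mul, mul_comm]
  have hchar : CharP F p := charP_of_card_eq_prime_pow hF'
  obtain ⟨u, σ, hσ, hodd, rfl⟩ := exists_conj_fld p hA hx
  rw [orderOf_conj', orderOf_injective _ (fl_injective hF hn)] at hxr
  obtain ⟨hdvd, hsub⟩ := exists_sub hq hF σ hxr hro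
  obtain ⟨j, S⟩ := hsub F₀ hF₀
  refine ⟨hdvd, ?_, ?_⟩
  · rw [inndiag_eq]
    obtain ⟨e⟩ := centralizer_equiv (S.Th hF) (cG : ↥(Cfsg.GU n F q) →* _).range (fl σ) (cG u)
      ⟨u, rfl⟩ (S.range_Th hF hn r hr.pos hxr)
    exact ⟨e.trans (QuotientGroup.quotientMulEquivOfEq (S.ker_Th hF hn))⟩
  · rw [inndiag_eq, splitClassCount_conj (cG : ↥(Cfsg.GU n F q) →* _).range _ (fl σ) (cG u)
      ⟨u, rfl⟩, inn_eq hF, splitClassCount_eq cG (detU hF) (detU_surjective hF (by omega)),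
      S.map_det_cent hF hn r hr.pos hxr]
    apply index_sup_of_card _ (p ^ (f / r) + 1)
    · exact S.card_fixU
    · rw [card_U1 hF]
      symm
      apply Nat.mul_div_cancel'
      have := Subgroup.card_subgroup_dvd_card (fixU q σ)
      rwa [S.card_fixU, card_U1 hF] at this

end Cfsg.Agent.Lib.Helper47.AutPSU
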