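import Cfsg.Agent.Lib.Helper47.AutPSULang

set_option autoImplicit false
set_option linter.unusedSectionVars false
set_option linter.unusedVariables false

/-!
Elements of order `r` in the coset of a field automorphism of odd order `r` of `PSU_n(q)` are
conjugate to it under the image of `GU`.
-/

namespace Cfsg.Agent.Lib.Helper47.AutPSU

open Matrix MatrixGroups Cfsg.Agent.Lib.Helper17 Cfsg.Agent.Lib.Helper99.AutPSU
open Cfsg.Agent.Lib.Helper18.AutPSL (mp mp_apply mp_eq_map mp_one mp_smul nrm nrm_zero nrm_succ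
  nrm_succ' nrm_smul nrmS nrmS_zero nrmS_succ nrmS_mul hilbert90 hilbert90_one nrmS_surj
  st st_apply st_mul st_one st_smul st_st det_st exists_herm_factor mem_GU_iff_st)

variable {F : Type*} [Field F] [Fintype F] {n q : ℕ}

/-- partial norms in `GU` -/
noncomputable def nrmG (σ : F ≃+* F) (g : ↥(Cfsg.GU n F q)) : ℕ → ↥(Cfsg.GU n F q)
  | 0 => 1
  | k + 1 => g * mapGU σ (nrmG σ g k)

theorem nrmG_val (σ : F ≃+* F) (g : ↥(Cfsg.GU n F q)) (k : ℕ) :
    ((nrmG σ g k : ↥(Cfsg.GU n F q)) : GL (Fin n) F).1 = nrm σ (g : GL (Fin n) F).1 k := by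
  induction k with
  | zero => rfl
  | succ k ih =>
    show (g : GL (Fin n) F).1 * ((mapGU σ (nrmG σ g k) : ↥(Cfsg.GU n F q)) : GL (Fin n) F).1 = _
    rw [mapGU_val, ih, nrm_succ]
    rfl

theorem pow_cG_fl (g : ↥(Cfsg.GU n F q)) (σ : F ≃+* F) (k : ℕ) :
    (cG g * fl σ : MulAut (Cfsg.PSU n F q)) ^ k = cG (nrmG σ g k) * fl (σ ^ k) := by
  induction k with
  | zero => simp [nrmG]
  | succ k ih =>
    rw [pow_succ', ih, pow_succ', map_mul]
    show _ = cG (g * mapGU σ (nrmG σ g k)) * _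
    rw [map_mul]
    calc cG g * fl σ * (cG (nrmG σ g k) * fl (σ ^ k))
        = cG g * (fl σ * cG (nrmG σ g k)) * fl (σ ^ k) := by simp only [mul_assoc]
      _ = _ := by rw [fl_mul_cG]; simp only [mul_assoc]

theorem nrmS_ph (hF : Fintype.card F = q ^ 2) (σ : F ≃+* F) (μ : F) (k : ℕ) :
    nrmS σ (ph hF μ) k = ph hF (nrmS σ μ k) := by
  induction k with
  | zero => rw [nrmS_zero, nrmS_zero, map_one]
  | succ k ih => rw [nrmS_succ, ih, nrmS_succ, map_mul, ph_comm]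

theorem gu_st (hF : Fintype.card F = q ^ 2) (g : ↥(Cfsg.GU n F q)) :
    st (ph hF) (g : GL (Fin n) F).1 * (g : GL (Fin n) F).1 = 1 :=
  mul_eq_one_comm.1 ((mem_GU_iff_st hF (ph hF) (ph_apply hF) g.1).1 g.2)

theorem det_GL_ne_zero (g : GL (Fin n) F) : g.1.det ≠ 0 := by
  have := g.det.ne_zero
  simpa using this

/-- build an element of `GU` -/
noncomputable def mkGU (hF : Fintype.card F = q ^ 2) (M : Matrix (Fin n) (Fin n) F)
    (h : st (ph hF) M * M = 1) : ↥(Cfsg.GU n F q) :=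
  ⟨⟨M, st (ph hF) M, mul_eq_one_comm.1 h, h⟩,
    (mem_GU_iff_st hF (ph hF) (ph_apply hF) _).2 (mul_eq_one_comm.1 h)⟩

theorem mkGU_val (hF : Fintype.card F = q ^ 2) (M : Matrix (Fin n) (Fin n) F)
    (h : st (ph hF) M * M = 1) : ((mkGU hF M h : ↥(Cfsg.GU n F q)) : GL (Fin n) F).1 = M := rfl

variable {F₀ : Type*} [Field F₀] [Fintype F₀] {q₀ : ℕ} {j : F₀ →+* F} {σ : F ≃+* F}

/-- the Lang step -/
theorem Sub.exists_GU (hF : Fintype.card F = q ^ 2) (S : Sub q σ F₀ q₀ j) (hn : 0 < n)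
    (g : ↥(Cfsg.GU n F q)) (r : ℕ) (hr0 : 0 < r) (hr : orderOf σ = r) (lam : F)
    (hN : nrm σ (g : GL (Fin n) F).1 r = lam • 1) :
    ∃ (B : ↥(Cfsg.GU n F q)) (ν : F),
      (g : GL (Fin n) F).1 * mp σ (B : GL (Fin n) F).1 = ν • (B : GL (Fin n) F).1 := by
  have hσ : σ ^ r = 1 := by rw [← hr]; exact pow_orderOf_eq_one σ
  have hgu' := gu_st hF g
  have hlam : ph hF lam * lam = 1 := by
    have h1 := gu_st hF (nrmG σ g r)
    rw [nrmG_val, hN, st_smul, st_one, Matrix.smul_mul, Matrix.mul_smul, Matrix.one_mul,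
      smul_smul] at h1
    have h2 := congrFun (congrFun h1 ⟨0, hn⟩) ⟨0, hn⟩
    simpa using h2
  have h0 : lam ≠ 0 := right_ne_zero_of_mul_eq_one hlam
  have hfix : σ lam = lam := by
    have h1 := nrm_succ σ (g : GL (Fin n) F).1 r
    rw [nrm_succ', hσ, mp_one, hN, mp_smul, map_one, Matrix.smul_mul, Matrix.one_mul,
      Matrix.mul_smul, Matrix.mul_one] at h1
    exact (eq_of_smul_eq_smul hn (det_GL_ne_zero g.1) h1).symm
  obtain ⟨μ, hμ0, hμ⟩ := nrmS_surj σ r hr0 hr lam⁻¹ (inv_ne_zero h0) (by rw [map_inv₀, hfix])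
  obtain ⟨b, hb, hb2⟩ := hilbert90 σ (μ • (g : GL (Fin n) F).1) r hr0 hr (by
    rw [nrm_smul, hμ, hN, smul_smul, inv_mul_cancel₀ h0, one_smul])
  have hK : st (ph hF) b * b = (ph hF μ * μ) • mp σ (st (ph hF) b * b) := by
    conv_lhs => rw [← hb2]
    calc st (ph hF) (μ • (g : GL (Fin n) F).1 * mp σ b) * (μ • (g : GL (Fin n) F).1 * mp σ b)
        = st (ph hF) (mp σ b) * (st (ph hF) (μ • (g : GL (Fin n) F).1) *
            (μ • (g : GL (Fin n) F).1)) * mp σ b := by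
          rw [st_mul]; simp only [Matrix.mul_assoc]
      _ = (ph hF μ * μ) • (st (ph hF) (mp σ b) * mp σ b) := by
          have h7 : st (ph hF) (μ • (g : GL (Fin n) F).1) * (μ • (g : GL (Fin n) F).1) =
              (ph hF μ * μ) • 1 := by
            rw [st_smul, Matrix.smul_mul, Matrix.mul_smul, smul_smul, hgu']
          rw [h7, Matrix.mul_smul, Matrix.mul_one, Matrix.smul_mul]
      _ = _ := by rw [st_mp, map_mul]
  have hc : nrmS σ (ph hF μ * μ) r = 1 := by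
    rw [nrmS_mul, nrmS_ph, hμ, map_inv₀, ← mul_inv, hlam, inv_one]
  obtain ⟨d, hd0, hd⟩ := hilbert90_one σ (ph hF μ * μ) r hr0 hr hc
  have hσd : σ d ≠ 0 := by simpa using hd0
  have hfixM : mp σ (d⁻¹ • (st (ph hF) b * b)) = d⁻¹ • (st (ph hF) b * b) := by
    rw [mp_smul]
    conv_rhs => rw [hK, smul_smul]
    congr 1
    have hc0 : ph hF μ * μ ≠ 0 := by
      intro h
      rw [h, zero_mul] at hd
      exact hd0 hd.symm
    rw [map_inv₀]
    conv_rhs => rw [← hd]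
    rw [mul_inv, mul_comm, ← mul_assoc, mul_inv_cancel₀ hc0, one_mul]
  have hstK : st (ph hF) (st (ph hF) b * b) = st (ph hF) b * b := by
    rw [st_mul, st_st _ (ph_ph hF)]
  have hM : st (ph hF) (d⁻¹ • (st (ph hF) b * b)) =
      (ph hF d⁻¹ * d) • (d⁻¹ • (st (ph hF) b * b)) := by
    rw [st_smul, hstK, smul_smul, mul_assoc, mul_inv_cancel₀ hd0, mul_one]
  have hstb : (st (ph hF) b).det ≠ 0 := by
    rw [det_st]
    simpa using hb
  obtain ⟨t, a, ht, ha, haσ, h1⟩ := S.exists_fixed_congr hF hn (d⁻¹ • (st (ph hF) b * b)) hfixM _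
    hM (by
      rw [Matrix.det_smul, det_mul]
      exact mul_ne_zero (pow_ne_zero _ (inv_ne_zero hd0)) (mul_ne_zero hstb hb))
  have hX : (t * d⁻¹) • (st (ph hF) (b * a) * (b * a)) = 1 := by
    rw [← h1, smul_smul, Matrix.mul_smul, Matrix.smul_mul, st_mul]
    simp only [Matrix.mul_assoc]
  have hκ0 : t * d⁻¹ ≠ 0 := mul_ne_zero ht (inv_ne_zero hd0)
  have hsta : (st (ph hF) a).det ≠ 0 := by
    rw [det_st]
    simpa using ha
  have hκ : (t * d⁻¹) ^ q = t * d⁻¹ := by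
    have h2 := congrArg (st (ph hF)) hX
    rw [st_smul, st_mul, st_st _ (ph_ph hF), st_one] at h2
    refine eq_of_smul_eq_smul hn ?_ (h2.trans hX.symm)
    rw [st_mul, det_mul, det_mul, det_mul]
    exact mul_ne_zero (mul_ne_zero hsta hstb) (mul_ne_zero hb ha)
  obtain ⟨s, hs⟩ := exists_norm_eq hF (t * d⁻¹) hκ0 hκ
  have hs0 : s ≠ 0 := by
    rintro rfl
    rw [zero_pow (by omega)] at hs
    exact hκ0 hs.symm
  have hB : st (ph hF) (s • (b * a)) * (s • (b * a)) = 1 := by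
    rw [st_smul, Matrix.smul_mul, Matrix.mul_smul, smul_smul, ph_apply, ← pow_succ, hs, hX]
  refine ⟨mkGU hF _ hB, σ s * μ⁻¹ * s⁻¹, ?_⟩
  rw [mkGU_val, mp_smul, map_mul, haσ, Matrix.mul_smul, ← Matrix.mul_assoc]
  have h5 : (g : GL (Fin n) F).1 * mp σ b = μ⁻¹ • b := by
    conv_rhs => rw [← hb2]
    rw [Matrix.smul_mul, smul_smul, inv_mul_cancel₀ hμ0, one_smul]
  rw [h5, Matrix.smul_mul, smul_smul, smul_smul]
  congr 1
  field_simp

theorem Sub.field_core (hF : Fintype.card F = q ^ 2) (S : Sub q σ F₀ q₀ j) (hn : 3 ≤ n)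
    (g : ↥(Cfsg.GU n F q)) (r : ℕ) (hr0 : 0 < r) (hr : orderOf σ = r)
    (h : (cG g * fl σ : MulAut (Cfsg.PSU n F q)) ^ r = 1) :
    ∃ b : ↥(Cfsg.GU n F q),
      (cG g * fl σ : MulAut (Cfsg.PSU n F q)) = cG b * fl σ * (cG b)⁻¹ := by
  have hσ : σ ^ r = 1 := by rw [← hr]; exact pow_orderOf_eq_one σ
  rw [pow_cG_fl, hσ, map_one, mul_one] at h
  obtain ⟨lam, hl⟩ := exists_smul_of_cG_eq_one hF hn h
  obtain ⟨B, ν, e⟩ := S.exists_GU hF (by omega) g r hr0 hr lam (by rw [← nrmG_val, hl])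
  have e2 : (cG B : MulAut (Cfsg.PSU n F q)) = cG g * cG (mapGU σ B) := by
    have hz : ((g * mapGU σ B * B⁻¹ : ↥(Cfsg.GU n F q)) : GL (Fin n) F).1 = ν • 1 := by
      show (g : GL (Fin n) F).1 * ((mapGU σ B : ↥(Cfsg.GU n F q)) : GL (Fin n) F).1 *
        (B : GL (Fin n) F)⁻¹.1 = _
      rw [mapGU_val, ← mp_eq_map, e, Matrix.smul_mul, Units.mul_inv]
    have := cG_eq_one_of_smul hz
    rw [map_mul, map_mul, map_inv, mul_inv_eq_one] at this
    exact this.symm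
  have e3 := fl_mul_cG (n := n) (q := q) σ B
  refine ⟨B, ?_⟩
  calc (cG g * fl σ : MulAut (Cfsg.PSU n F q)) = cG g * (fl σ * cG B) * (cG B)⁻¹ := by group
    _ = cG g * (cG (mapGU σ B) * fl σ) * (cG B)⁻¹ := by rw [e3]
    _ = (cG g * cG (mapGU σ B)) * fl σ * (cG B)⁻¹ := by group
    _ = _ := by rw [← e2]

end Cfsg.Agent.Lib.Helper47.AutPSU
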