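import Cfsg.Agent.Lib.Helper47.AutPSUKer
import Cfsg.Agent.Lib.Helper18.AutPSL.GFieldCent

set_option autoImplicit false
set_option linter.unusedSectionVars false
set_option linter.unusedVariables false

/-!
The Lang step for `GU`: hermitian descent to the fixed field of a field automorphism of odd order.
-/

namespace Cfsg.Agent.Lib.Helper47.AutPSU

open Matrix MatrixGroups Cfsg.Agent.Lib.Helper17 Cfsg.Agent.Lib.Helper99.AutPSU
open Cfsg.Agent.Lib.Helper18.AutPSL (mp mp_apply mp_eq_map mp_one mp_smul nrm nrm_zero nrm_succ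
  nrm_succ' nrm_smul nrmS nrmS_zero nrmS_succ nrmS_mul hilbert90 hilbert90_one nrmS_surj
  st st_apply st_mul st_one st_smul st_st det_st exists_herm_factor mem_GU_iff_st)

section Gen

variable {K : Type*} [Field K] [Fintype K] {n q : ℕ}

/-- the `q`-power map as a ring automorphism -/
def ph (hK : Fintype.card K = q ^ 2) : K ≃+* K :=
  RingEquiv.ofRingHom (frobQ hK) (frobQ hK)
    (by ext x; simp [frobQ_apply, pow_q_pow_q hK]) (by ext x; simp [frobQ_apply, pow_q_pow_q hK])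

theorem ph_apply (hK : Fintype.card K = q ^ 2) (x : K) : ph hK x = x ^ q := rfl

theorem ph_ph (hK : Fintype.card K = q ^ 2) (x : K) : ph hK (ph hK x) = x := by
  rw [ph_apply, ph_apply, pow_q_pow_q hK]

theorem exists_ph_ne (hK : Fintype.card K = q ^ 2) : ∃ y : K, ph hK y ≠ y := by
  by_contra hcon
  push Not at hcon
  apply frobQ_ne_id hK
  ext a
  exact hcon a

theorem eq_of_smul_eq_smul (hn : 0 < n) {M : Matrix (Fin n) (Fin n) K} (hM : M.det ≠ 0) {a b : K}
    (h : a • M = b • M) : a = b := by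
  have hu : IsUnit M.det := isUnit_iff_ne_zero.2 hM
  have h1 := congrArg (fun N => N * M⁻¹) h
  simp only [Matrix.smul_mul, Matrix.mul_nonsing_inv M hu] at h1
  have h2 := congrFun (congrFun h1 ⟨0, hn⟩) ⟨0, hn⟩
  simpa using h2

/-- a matrix which is hermitian up to a scalar is, up to a scalar, congruent to `1` -/
theorem exists_congr_one (hK : Fintype.card K = q ^ 2) (hn : 0 < n)
    (M : Matrix (Fin n) (Fin n) K) (e : K) (hM : st (ph hK) M = e • M) (hdet : M.det ≠ 0) :
    ∃ (t : K) (P : Matrix (Fin n) (Fin n) K), t ≠ 0 ∧ P.det ≠ 0 ∧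
      st (ph hK) P * (t • M) * P = 1 := by
  have he : ph hK e * e = 1 := by
    have h1 : st (ph hK) (st (ph hK) M) = (ph hK e * e) • M := by
      rw [hM, st_smul, hM, smul_smul]
    rw [st_st _ (ph_ph hK)] at h1
    exact (eq_of_smul_eq_smul hn hdet (by rw [one_smul]; exact h1)).symm
  -- a scalar `t` with `φ t * e = t`
  obtain ⟨t, ht0, ht⟩ : ∃ t : K, t ≠ 0 ∧ ph hK t * e = t := by
    by_cases h1 : (1 : K) + ph hK 1 * e = 0
    · obtain ⟨y, hy⟩ := exists_ph_ne hK
      have he1 : e = -1 := by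
        rw [map_one, one_mul] at h1
        linear_combination h1
      refine ⟨y - ph hK y, sub_ne_zero.2 (Ne.symm hy), ?_⟩
      rw [map_sub, ph_ph, he1]
      ring
    · refine ⟨1 + ph hK 1 * e, h1, ?_⟩
      rw [map_add, map_mul, ph_ph, map_one]
      linear_combination he
  have hherm : st (ph hK) (t • M) = t • M := by
    rw [st_smul, hM, smul_smul, ht]
  obtain ⟨h, hh, hh2⟩ := exists_herm_factor hK (ph hK) (ph_apply hK) (t • M) hherm (by
    rw [Matrix.det_smul]
    exact mul_ne_zero (pow_ne_zero _ ht0) hdet)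
  have hu : IsUnit h.det := isUnit_iff_ne_zero.2 hh
  refine ⟨t, st (ph hK) h⁻¹, ht0, ?_, ?_⟩
  · rw [det_st]
    intro h0
    have h2 : (h⁻¹).det = 0 := by simpa using h0
    have := congrArg Matrix.det (Matrix.mul_nonsing_inv h hu)
    rw [Matrix.det_mul, h2, mul_zero, Matrix.det_one] at this
    exact zero_ne_one this
  · rw [st_st _ (ph_ph hK), hh2]
    have h3 : st (ph hK) h * st (ph hK) h⁻¹ = 1 := by
      rw [← st_mul, Matrix.nonsing_inv_mul h hu, st_one]
    calc h⁻¹ * (h * st (ph hK) h) * st (ph hK) h⁻¹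
        = (h⁻¹ * h) * (st (ph hK) h * st (ph hK) h⁻¹) := by simp only [Matrix.mul_assoc]
      _ = 1 := by rw [h3, Matrix.nonsing_inv_mul h hu, Matrix.one_mul]

end Gen

variable {F : Type*} [Field F] [Fintype F] {n q : ℕ}

theorem ph_comm (hF : Fintype.card F = q ^ 2) (σ : F ≃+* F) (x : F) :
    ph hF (σ x) = σ (ph hF x) := by
  rw [ph_apply, ph_apply, map_pow]

theorem st_mp (hF : Fintype.card F = q ^ 2) (σ : F ≃+* F) (M : Matrix (Fin n) (Fin n) F) :
    st (ph hF) (mp σ M) = mp σ (st (ph hF) M) := by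
  ext i k
  rw [st_apply, mp_apply, mp_apply, st_apply, ph_comm]

/-- data of the fixed field of `σ` -/
structure Sub (q : ℕ) (σ : F ≃+* F) (F₀ : Type*) [Field F₀] [Fintype F₀] (q₀ : ℕ)
    (j : F₀ →+* F) : Prop where
  card : Fintype.card F₀ = q₀ ^ 2
  fix : ∀ x, σ x = x ↔ x ∈ Set.range j
  pow : ∀ x : F₀, j (x ^ q₀) = (j x) ^ q

variable {F₀ : Type*} [Field F₀] [Fintype F₀] {q₀ : ℕ} {j : F₀ →+* F} {σ : F ≃+* F}

theorem Sub.st_map (hF : Fintype.card F = q ^ 2) (S : Sub q σ F₀ q₀ j)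
    (M : Matrix (Fin n) (Fin n) F₀) :
    (st (ph S.card) M).map j = st (ph hF) (M.map j) := by
  ext i k
  rw [Matrix.map_apply, st_apply, st_apply, Matrix.map_apply, ph_apply, ph_apply, S.pow]

theorem Sub.mp_map (S : Sub q σ F₀ q₀ j) (M : Matrix (Fin n) (Fin n) F₀) :
    mp σ (M.map j) = M.map j := by
  ext i k
  exact (S.fix _).2 ⟨M i k, rfl⟩

theorem Sub.exists_map (S : Sub q σ F₀ q₀ j) (M : Matrix (Fin n) (Fin n) F) (h : mp σ M = M) :
    ∃ M₀ : Matrix (Fin n) (Fin n) F₀, M₀.map j = M := by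
  have h3 : ∀ i k, ∃ y, j y = M i k := fun i k => (S.fix _).1 (congrFun (congrFun h i) k)
  choose M₀ hM₀ using h3
  exact ⟨Matrix.of M₀, by ext i k; exact hM₀ i k⟩

theorem det_map_ne (j : F₀ →+* F) {M₀ : Matrix (Fin n) (Fin n) F₀} :
    (M₀.map j).det ≠ 0 ↔ M₀.det ≠ 0 := by
  have h := RingHom.map_det j M₀
  have h' : (M₀.map j).det = j M₀.det := h.symm
  rw [h', Ne, Ne, map_eq_zero]

/-- descent -/
theorem Sub.exists_fixed_congr (hF : Fintype.card F = q ^ 2) (S : Sub q σ F₀ q₀ j) (hn : 0 < n)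
    (M : Matrix (Fin n) (Fin n) F) (hfix : mp σ M = M) (e : F) (hM : st (ph hF) M = e • M)
    (hdet : M.det ≠ 0) :
    ∃ (t : F) (a : Matrix (Fin n) (Fin n) F), t ≠ 0 ∧ a.det ≠ 0 ∧ mp σ a = a ∧
      st (ph hF) a * (t • M) * a = 1 := by
  have he : σ e = e := by
    have h1 : mp σ (st (ph hF) M) = st (ph hF) M := by rw [← st_mp, hfix]
    rw [hM, mp_smul, hfix] at h1
    exact eq_of_smul_eq_smul hn hdet h1
  obtain ⟨e₀, rfl⟩ := (S.fix e).1 he
  obtain ⟨M₀, rfl⟩ := S.exists_map M hfix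
  have hinj : Function.Injective (fun N : Matrix (Fin n) (Fin n) F₀ => N.map j) :=
    Matrix.map_injective j.injective
  have hM₀ : st (ph S.card) M₀ = e₀ • M₀ := by
    apply hinj
    show (st (ph S.card) M₀).map j = (e₀ • M₀).map j
    rw [S.st_map hF, hM]
    ext i k
    simp
  obtain ⟨t, P, ht, hP, h1⟩ := exists_congr_one S.card hn M₀ e₀ hM₀ ((det_map_ne j).1 hdet)
  refine ⟨j t, P.map j, by simpa using ht, (det_map_ne j).2 hP, S.mp_map P, ?_⟩
  have h2 := congrArg (fun N : Matrix (Fin n) (Fin n) F₀ => N.map j) h1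
  simp only [Matrix.map_mul, S.st_map hF] at h2
  rw [Matrix.map_one j (map_zero j) (map_one j)] at h2
  rw [← h2]
  congr 2
  ext i k
  simp

end Cfsg.Agent.Lib.Helper47.AutPSU
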