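import Cfsg.Agent.Lib.Helper47.AutPSUConj

set_option autoImplicit false
set_option linter.unusedSectionVars false
set_option linter.unusedVariables false

/-!
Field automorphisms of `PSU_n(q)`: reduction to standard ones, the fixed field, and the coset
conjugacy theorem (conditional on `AutForm`).
-/

namespace Cfsg.Agent.Lib.Helper47.AutPSU

open Matrix MatrixGroups Cfsg.Agent.Lib.Helper17 Cfsg.Agent.Lib.Helper99.AutPSU
open Cfsg.Agent.Lib.Helper18.AutPSL (ringAut_comm conj_reduce orderOf_conj' exists_subfield_emb)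

variable {F : Type*} [Field F] [Fintype F] {n q : ℕ}

theorem fl_conj_cG (σ : F ≃+* F) (a : ↥(Cfsg.GU n F q)) :
    (fl σ * cG a * (fl σ)⁻¹ : MulAut (Cfsg.PSU n F q)) = cG (mapGU σ a) := by
  rw [fl_mul_cG, mul_assoc, mul_inv_cancel, mul_one]

theorem exists_conj_fld (p : ℕ) [Fact p.Prime] [CharP F p] (hA : AutForm n F q)
    {x : MulAut (Cfsg.PSU n F q)} (hx : Cfsg.IsFieldAutClassPSU x) :
    ∃ (u : ↥(Cfsg.GU n F q)) (σ : F ≃+* F), σ ≠ 1 ∧ Odd (orderOf σ) ∧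
      x = (cG u)⁻¹ * fl σ * cG u := by
  obtain ⟨α, φ, σ, hσ, hodd, hφ, e⟩ := hx
  rw [(isFieldAut_iff σ φ).1 hφ] at e
  obtain ⟨g, τ, rfl⟩ := hA α
  refine ⟨mapGU τ⁻¹ g, σ, hσ, hodd, ?_⟩
  have h1 : (cG (mapGU τ⁻¹ g) : MulAut (Cfsg.PSU n F q)) = (fl τ)⁻¹ * cG g * fl τ := by
    rw [← fl_conj_cG, map_inv, inv_inv]
  have h2 : Commute (fl τ : MulAut (Cfsg.PSU n F q)) (fl σ) := by
    show fl τ * fl σ = fl σ * fl τ
    rw [← map_mul, ← map_mul, ringAut_comm p]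
  rw [h1, ← conj_reduce _ _ _ h2, ← e]
  group

theorem conj_of_core' {E X : Type*} [Group E] [Group X] (c : E →* X) (s : X) (u d : E) (r : ℕ)
    (core : ∀ g : E, (c g * s) ^ r = 1 → ∃ b : E, c g * s = c b * s * (c b)⁻¹)
    (ho : (c d * ((c u)⁻¹ * s * c u)) ^ r = 1) :
    Cfsg.IsConjUnder c.range ((c u)⁻¹ * s * c u) (c d * ((c u)⁻¹ * s * c u)) := by
  have e1 : c (u * d * u⁻¹) * s = c u * (c d * ((c u)⁻¹ * s * c u)) * (c u)⁻¹ := by
    rw [map_mul, map_mul, map_inv]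
    group
  obtain ⟨b, hb⟩ := core (u * d * u⁻¹) (by rw [e1, conj_pow, ho, mul_one, mul_inv_cancel])
  refine ⟨c (u⁻¹ * b * u), ⟨_, rfl⟩, ?_⟩
  have e2 : c d * ((c u)⁻¹ * s * c u) = (c u)⁻¹ * (c (u * d * u⁻¹) * s) * c u := by
    rw [e1]
    group
  rw [e2, hb, map_mul, map_mul, map_inv]
  group

/-- the fixed field of a field automorphism of odd order `r` -/
theorem exists_sub {p f r : ℕ} [Fact p.Prime] (hq : q = p ^ f) (hF : Fintype.card F = q ^ 2)
    (σ : F ≃+* F) (hr : orderOf σ = r) (hodd : Odd r) :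
    r ∣ f ∧ ∀ (F₀ : Type*) [Field F₀] [Fintype F₀], Fintype.card F₀ = p ^ (2 * (f / r)) →
      ∃ j : F₀ →+* F, Sub q σ F₀ (p ^ (f / r)) j := by
  have hr0 : 0 < r := hodd.pos
  have hF' : Fintype.card F = p ^ (2 * f) := by rw [hF, hq, ← pow_mul, mul_comm]
  obtain ⟨h1, h2⟩ := exists_subfield_emb hF' σ hr hr0
  have hdvd : r ∣ f := (Nat.Coprime.dvd_of_dvd_mul_left (Nat.coprime_two_right.2 hodd) h1)
  refine ⟨hdvd, ?_⟩
  intro F₀ _ _ hF₀
  obtain ⟨j, hj⟩ := h2 F₀ (by rw [hF₀, Nat.mul_div_assoc 2 hdvd])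
  have hc : Fintype.card F₀ = (p ^ (f / r)) ^ 2 := by rw [hF₀, ← pow_mul, mul_comm]
  refine ⟨j, hc, hj, ?_⟩
  intro x
  rw [← map_pow]
  congr 1
  obtain ⟨m, hm⟩ := hodd
  have hq' : q = (Fintype.card F₀) ^ m * p ^ (f / r) := by
    rw [hc, ← pow_mul, ← pow_succ, ← pow_mul, hq]
    congr 1
    conv_lhs => rw [← Nat.div_mul_cancel hdvd]
    rw [← hm]
  rw [hq', pow_mul, FiniteField.pow_card_pow]

/-- **S2711**, conditional on the hub. -/
theorem coset_conj {p f : ℕ} [Fact p.Prime] (hq : q = p ^ f) (hf : 1 ≤ f)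
    (hF : Fintype.card F = q ^ 2) (hn : 3 ≤ n) (hA : AutForm n F q)
    (x δ : MulAut (Cfsg.PSU n F q)) (hx : Cfsg.IsFieldAutClassPSU x) {r : ℕ} (hr : r.Prime)
    (hxr : orderOf x = r) (hδ : δ ∈ Cfsg.inndiagPSU n F q) :
    orderOf (δ * x) = r ↔ Cfsg.IsConjUnder (Cfsg.inndiagPSU n F q) x (δ * x) := by
  classical
  have hF' : Fintype.card F = p ^ (2 * f) := by rw [hF, hq, ← pow_mul, mul_comm]
  have hchar : CharP F p := charP_of_card_eq_prime_pow hF'
  rw [inndiag_eq] at hδ ⊢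
  obtain ⟨d, rfl⟩ := hδ
  constructor
  swap
  · rintro ⟨h, -, e⟩
    rw [e, ← hxr]
    have := orderOf_conj' h⁻¹ x
    rwa [inv_inv] at this
  · intro ho
    have ho' : (cG d * x) ^ r = 1 := by
      rw [← ho]
      exact pow_orderOf_eq_one _
    obtain ⟨u, σ, hσ, hodd, rfl⟩ := exists_conj_fld p hA hx
    rw [orderOf_conj', orderOf_injective _ (fl_injective hF hn)] at hxr
    rw [hxr] at hodd
    obtain ⟨hdvd, hsub⟩ := exists_sub hq hF σ hxr hodd
    have hpos : 2 * (f / r) ≠ 0 := by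
      have := Nat.div_pos (Nat.le_of_dvd (by omega) hdvd) hr.pos
      omega
    have : Fintype (GaloisField p (2 * (f / r))) := Fintype.ofFinite _
    obtain ⟨j, S⟩ := hsub (GaloisField p (2 * (f / r))) (by
      rw [← Nat.card_eq_fintype_card, GaloisField.card p _ hpos])
    exact conj_of_core' cG (fl σ) u d r
      (fun g hg => S.field_core hF hn g r hr.pos hxr hg) ho'

end Cfsg.Agent.Lib.Helper47.AutPSU
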