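import Cfsg.Agent.Lib.Helper99.BalPSU.Defs
import Cfsg.Agent.Lib.Helper50.GIPSL
import Cfsg.Agent.Lib.Helper18.AutPSL.GFieldCent

set_option autoImplicit false
set_option linter.unusedSectionVars false
set_option linter.unusedVariables false

/-!
Basics for the ladder for S2686 (failure of local balance for `PSL_n(q)`): semilinear maps, graph
automorphisms `gam g = cG g * gr` and the bilinear form `fB g u v = uᵀ g⁻¹ v`.
-/

namespace Cfsg.Agent.Lib.Helper47.BalPSL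

open Matrix MatrixGroups Cfsg.Agent.Lib.Helper18.AutPSL Cfsg.Agent.Lib.Helper99.BalPSU
  Cfsg.Agent.Lib.Helper50.GI

variable {F : Type*} [Field F] {n : ℕ}

/-- the semilinear map `v ↦ h τ(v)` -/
def Gm (h : GL (Fin n) F) (τ : F ≃+* F) (v : Fin n → F) : Fin n → F :=
  h.1 *ᵥ (fun i => τ (v i))

theorem Gm_add (h : GL (Fin n) F) (τ : F ≃+* F) (u v : Fin n → F) :
    Gm h τ (u + v) = Gm h τ u + Gm h τ v := by
  rw [Gm, Gm, Gm, ← mulVec_add]
  congr 1
  ext i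
  simp

theorem Gm_smul (h : GL (Fin n) F) (τ : F ≃+* F) (c : F) (v : Fin n → F) :
    Gm h τ (c • v) = τ c • Gm h τ v := by
  rw [Gm, Gm, ← mulVec_smul]
  congr 1
  ext i
  simp

theorem gl_inv_mulVec (h : GL (Fin n) F) (v : Fin n → F) : h⁻¹.1 *ᵥ (h.1 *ᵥ v) = v := by
  rw [mulVec_mulVec, Units.inv_mul, one_mulVec]

theorem gl_mulVec_inv (h : GL (Fin n) F) (v : Fin n → F) : h.1 *ᵥ (h⁻¹.1 *ᵥ v) = v := by
  rw [mulVec_mulVec, Units.mul_inv, one_mulVec]

theorem Gm_ne_zero (h : GL (Fin n) F) (τ : F ≃+* F) {v : Fin n → F} (hv : v ≠ 0) :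
    Gm h τ v ≠ 0 := by
  intro h0
  apply hv
  have h1 := gl_inv_mulVec h (fun i => τ (v i))
  rw [show h.1 *ᵥ (fun i => τ (v i)) = 0 from h0, mulVec_zero] at h1
  ext i
  have := congrFun h1 i
  simpa using this.symm

theorem map_mulVec' (τ : F ≃+* F) (M : Matrix (Fin n) (Fin n) F) (u : Fin n → F) :
    (M.map τ) *ᵥ (fun i => τ (u i)) = fun i => τ ((M *ᵥ u) i) := by
  ext i
  simp [Matrix.mulVec, dotProduct, map_sum, map_mul]

theorem Gm_conj (h : GL (Fin n) F) (τ : F ≃+* F) (x : SpecialLinearGroup (Fin n) F)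
    (v : Fin n → F) :
    (conjS h (fldS τ x)).1 *ᵥ Gm h τ v = Gm h τ (x.1 *ᵥ v) := by
  rw [conjS_val, Gm, Gm, ← mulVec_mulVec, gl_inv_mulVec, ← mulVec_mulVec, fldS_val, map_mulVec']

theorem cG_fl_pm (h : GL (Fin n) F) (τ : F ≃+* F) (x : SpecialLinearGroup (Fin n) F) :
    (cG h * fl τ : MulAut (ProjectiveSpecialLinearGroup (Fin n) F)) (pm x) =
      pm (conjS h (fldS τ x)) := rfl

/-- the bilinear form attached to the graph automorphism `gam g = cG g * gr` -/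
abbrev fB (g : GL (Fin n) F) (u v : Fin n → F) : F := bf g⁻¹.1 u v

theorem gam_pm (g : GL (Fin n) F) (x : SpecialLinearGroup (Fin n) F) :
    gam g (pm x) = pm (conjS g (invT x)) := rfl

theorem fB_add_left (g : GL (Fin n) F) (u u' v : Fin n → F) :
    fB g (u + u') v = fB g u v + fB g u' v := by
  simp only [bf, add_dotProduct]

theorem fB_add_right (g : GL (Fin n) F) (u v v' : Fin n → F) :
    fB g u (v + v') = fB g u v + fB g u v' := by
  simp only [bf, mulVec_add, dotProduct_add]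

theorem fB_smul_left (g : GL (Fin n) F) (a : F) (u v : Fin n → F) :
    fB g (a • u) v = a * fB g u v := by
  simp only [bf, smul_dotProduct, smul_eq_mul]

theorem fB_smul_right (g : GL (Fin n) F) (a : F) (u v : Fin n → F) :
    fB g u (a • v) = a * fB g u v := by
  simp only [bf, mulVec_smul, dotProduct_smul, smul_eq_mul]

theorem inv_transpose {g : GL (Fin n) F} {e : F} (he : e * e = 1) (hg : g.1ᵀ = e • g.1) :
    g⁻¹.1ᵀ = e • g⁻¹.1 := by
  have h1 : g⁻¹.1ᵀ * g.1ᵀ = 1 := by rw [← transpose_mul, Units.mul_inv, transpose_one]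
  rw [hg, Matrix.mul_smul] at h1
  calc g⁻¹.1ᵀ = (e * e) • (g⁻¹.1ᵀ * (g.1 * g⁻¹.1)) := by
        rw [he, one_smul, Units.mul_inv, Matrix.mul_one]
    _ = e • ((e • (g⁻¹.1ᵀ * g.1)) * g⁻¹.1) := by
        rw [Matrix.smul_mul, smul_smul, Matrix.mul_assoc]
    _ = _ := by rw [h1, Matrix.one_mul]

theorem fB_comm {g : GL (Fin n) F} {e : F} (he : e * e = 1) (hg : g.1ᵀ = e • g.1)
    (u v : Fin n → F) : fB g v u = e * fB g u v := by
  show v ⬝ᵥ (g⁻¹.1 *ᵥ u) = e * (u ⬝ᵥ (g⁻¹.1 *ᵥ v))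
  rw [dotProduct_mulVec, ← mulVec_transpose, inv_transpose he hg, smul_mulVec, smul_dotProduct,
    smul_eq_mul, dotProduct_comm]

theorem fB_nondeg (g : GL (Fin n) F) {v : Fin n → F} (h : ∀ u, fB g u v = 0) : v = 0 := by
  have h1 : g⁻¹.1 *ᵥ v = 0 := by
    ext i
    have := h (Pi.single i 1)
    simpa [bf] using this
  have := gl_mulVec_inv g v
  rw [h1, mulVec_zero] at this
  exact this.symm

theorem isom_iff (g : GL (Fin n) F) (M : Matrix (Fin n) (Fin n) F) (κ : F) :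
    (∀ u v, fB g (M *ᵥ u) (M *ᵥ v) = κ * fB g u v) ↔ Mᵀ * g⁻¹.1 * M = κ • g⁻¹.1 := by
  constructor
  · intro h
    apply bf_ext
    intro u v
    rw [← bf_mulVec, bf_smul]
    exact h u v
  · intro h u v
    show bf g⁻¹.1 (M *ᵥ u) (M *ᵥ v) = κ * bf g⁻¹.1 u v
    rw [bf_mulVec, h, bf_smul]

/-- similitudes: `M g Mᵀ = κ g` -/
theorem mul_g_transpose (g : GL (Fin n) F) (M : GL (Fin n) F) {κ : F}
    (h : M.1ᵀ * g⁻¹.1 * M.1 = κ • g⁻¹.1) : M.1 * g.1 * M.1ᵀ = κ • g.1 := by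
  have e : M.1ᵀ = (M.1ᵀ * g⁻¹.1 * M.1) * (M⁻¹.1 * g.1) := by
    rw [Matrix.mul_assoc, ← Matrix.mul_assoc M.1, Units.mul_inv, Matrix.one_mul, Matrix.mul_assoc,
      Units.inv_mul, Matrix.mul_one]
  rw [e, h, Matrix.smul_mul, Matrix.mul_smul, ← Matrix.mul_assoc, Matrix.mul_assoc M.1,
    Units.mul_inv, Matrix.mul_one, ← Matrix.mul_assoc, Units.mul_inv, Matrix.one_mul]

theorem transpose_ginv_mul (g : GL (Fin n) F) (M : GL (Fin n) F) {κ : F}
    (h : M.1 * g.1 * M.1ᵀ = κ • g.1) : M.1ᵀ * g⁻¹.1 * M.1 = κ • g⁻¹.1 := by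
  have e : M.1ᵀ = (g⁻¹.1 * M⁻¹.1) * (M.1 * g.1 * M.1ᵀ) := by
    rw [Matrix.mul_assoc M.1, ← Matrix.mul_assoc (g⁻¹.1 * M⁻¹.1), Matrix.mul_assoc g⁻¹.1,
      Units.inv_mul, Matrix.mul_one, ← Matrix.mul_assoc, Units.inv_mul, Matrix.one_mul]
  rw [e, h, Matrix.mul_smul, Matrix.smul_mul, Matrix.smul_mul, Matrix.mul_assoc (g⁻¹.1 * M⁻¹.1),
    Units.mul_inv, Matrix.mul_one, Matrix.mul_assoc, Units.inv_mul, Matrix.mul_one]

/-- **GB3**: similitudes of the form commute with the graph automorphism -/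
theorem cG_comm_gam (g h : GL (Fin n) F) (hn : 2 ≤ n) {κ : F} (hκ : κ ≠ 0)
    (hh : ∀ u v, fB g (h.1 *ᵥ u) (h.1 *ᵥ v) = κ * fB g u v) :
    cG h * gam g = gam g * cG h := by
  have h1 := mul_g_transpose g h ((isom_iff g h.1 κ).1 hh)
  unfold gam
  rw [mul_assoc, gr_mul_cG, ← mul_assoc, ← mul_assoc, ← map_mul, ← map_mul]
  congr 1
  rw [cG_eq_iff hn]
  refine ⟨Units.mk0 κ hκ, ?_⟩
  rw [Units.val_mul, Units.val_mul, gT_val, Units.val_mk0, ← Matrix.smul_mul, ← h1,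
    Matrix.mul_assoc, ← transpose_mul, Units.inv_mul, transpose_one, Matrix.mul_one]

/-- **GB1**: isometries of determinant one give fixed points -/
theorem gam_fix_of_isom {g : GL (Fin n) F} {e : F} (he : e * e = 1) (hg : g.1ᵀ = e • g.1)
    (x : SpecialLinearGroup (Fin n) F)
    (hx : ∀ u v, fB g (x.1 *ᵥ u) (x.1 *ᵥ v) = fB g u v) : conjS g (invT x) = x := by
  have h1 := mul_g_transpose g (SpecialLinearGroup.toGL x) (κ := 1) ((isom_iff g x.1 1).1 (by
    intro u v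
    rw [one_mul]
    exact hx u v))
  rw [one_smul] at h1
  have h1' : x.1 * g.1 * x.1ᵀ = g.1 := h1
  apply conjS_eq_of_mul
  have h2 : (invT x).1ᵀ * x.1 = 1 := invT_transpose_mul x
  have h3 : x.1ᵀ * (invT x).1 = 1 := by
    have := congrArg transpose h2
    rwa [transpose_mul, transpose_transpose, transpose_one] at this
  calc x.1 * g.1 = x.1 * g.1 * (x.1ᵀ * (invT x).1) := by rw [h3, Matrix.mul_one]
    _ = (x.1 * g.1 * x.1ᵀ) * (invT x).1 := by simp only [Matrix.mul_assoc]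
    _ = _ := by rw [h1']

theorem gam_pm_of_isom {g : GL (Fin n) F} {e : F} (he : e * e = 1) (hg : g.1ᵀ = e • g.1)
    (x : SpecialLinearGroup (Fin n) F)
    (hx : ∀ u v, fB g (x.1 *ᵥ u) (x.1 *ᵥ v) = fB g u v) : pm x ∈ fixS (gam g) := by
  show gam g (pm x) = pm x
  rw [gam_pm, gam_fix_of_isom he hg x hx]

/-- **GB2**: fixed points are similitudes -/
theorem exists_mult_of_fix (hn : 2 ≤ n) (g : GL (Fin n) F)
    (x : SpecialLinearGroup (Fin n) F) (hx : pm x ∈ fixS (gam g)) :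
    ∃ κ : F, κ ≠ 0 ∧ ∀ u v, fB g (x.1 *ᵥ u) (x.1 *ᵥ v) = κ * fB g u v := by
  have hx' : pm x = pm (conjS g (invT x)) := by
    have : gam g (pm x) = pm x := hx
    rw [gam_pm] at this
    exact this.symm
  obtain ⟨ε, hε⟩ := exists_eps_of_pm_eq hx'
  have hε0 : ε ≠ 0 := by
    rintro rfl
    rw [zero_smul] at hε
    have h1 := (conjS g (invT x)).2
    rw [hε] at h1
    have : Nonempty (Fin n) := ⟨⟨0, by omega⟩⟩
    rw [Matrix.det_zero] at h1
    exact zero_ne_one h1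
  refine ⟨ε⁻¹, inv_ne_zero hε0, ?_⟩
  rw [isom_iff]
  apply transpose_ginv_mul g (SpecialLinearGroup.toGL x)
  show x.1 * g.1 * x.1ᵀ = _
  have h2 : (invT x).1ᵀ * x.1 = 1 := invT_transpose_mul x
  have h3 : (invT x).1 * x.1ᵀ = 1 := by
    have := congrArg transpose h2
    rw [transpose_mul, transpose_transpose, transpose_one] at this
    exact mul_eq_one_comm.1 this
  have h4 := conjS_mul g (invT x)
  rw [hε] at h4
  have h5 : ε • (x.1 * g.1 * x.1ᵀ) = g.1 := by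
    rw [← Matrix.smul_mul, ← Matrix.smul_mul, h4, Matrix.mul_assoc, h3, Matrix.mul_one]
  conv_rhs => rw [← h5]
  rw [smul_smul, inv_mul_cancel₀ hε0, one_smul]

end Cfsg.Agent.Lib.Helper47.BalPSL
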