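import Mathlib

set_option autoImplicit false

/-!
Sub-rung GAL: an automorphism of a finite field fixing the fixed field of `σ` is a power of `σ`.
-/

namespace Cfsg.Agent.Lib.Helper47.BalPSU

theorem gal_pow {F : Type*} [Field F] [Fintype F] (σ τ : F ≃+* F) {p : ℕ} (hp : p.Prime)
    (hσ : orderOf σ = p) (h : ∀ x, σ x = x → τ x = x) : τ ^ p = 1 := by
  classical
  have hfin : Finite (F ≃+* F) :=
    Finite.of_injective (fun e => (e : F → F)) DFunLike.coe_injective
  let G := Subgroup.zpowers σ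
  have : Fintype G := Fintype.ofFinite _
  let τ' : F →ₐ[FixedPoints.subfield G F] F :=
    { (τ : F →+* F) with
      commutes' := fun x => h x.1 (x.2 ⟨σ, Subgroup.mem_zpowers σ⟩) }
  obtain ⟨g, hg⟩ := (FixedPoints.toAlgHom_bijective G F).2 τ'
  obtain ⟨k, hk⟩ := Subgroup.mem_zpowers_iff.1 g.2
  have e : τ = g.1 := by
    ext x
    exact (congrArg (fun f : F →ₐ[FixedPoints.subfield G F] F => f x) hg).symm
  rw [e, ← hk, ← zpow_natCast, ← zpow_mul, mul_comm, zpow_mul, zpow_natCast, ← hσ,
    pow_orderOf_eq_one, one_zpow]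

end Cfsg.Agent.Lib.Helper47.BalPSU
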