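import Cfsg.Agent.Lib.Helper47.BalPSLPts
import Cfsg.Agent.Lib.Helper47.SLn
import Cfsg.Agent.Lib.Helper47.BalPSUGAL

set_option autoImplicit false
set_option linter.unusedSectionVars false
set_option linter.unusedVariables false

/-!
The field case of S2686: the fixed points of a field automorphism of `PSL_n(F)`.
-/

namespace Cfsg.Agent.Lib.Helper47.BalPSL

open Matrix MatrixGroups Cfsg.Agent.Lib.Helper18.AutPSL Cfsg.Agent.Lib.Helper99.BalPSU
  Cfsg.Agent.Lib.Helper50.GI
open scoped commutatorElement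

theorem transvection_pow' {ι F : Type*} [DecidableEq ι] [Fintype ι] [Field F] {i j : ι}
    (hij : i ≠ j) (c : F) (k : ℕ) :
    SpecialLinearGroup.transvection hij c ^ k = SpecialLinearGroup.transvection hij (k * c) := by
  induction k with
  | zero => rw [pow_zero, Nat.cast_zero, zero_mul, SpecialLinearGroup.transvection_coeff_zero]
  | succ k ih =>
    rw [pow_succ, ih, ← SpecialLinearGroup.transvection_add]
    congr 1
    push_cast
    ring

/-- a normal subgroup of `SL_n(F)` is central or contains all the `r`-th powers -/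
theorem sl_normal_dichotomy {ι F : Type*} [DecidableEq ι] [Fintype ι] [Field F] [Nontrivial ι]
    (r : ℕ) [CharP F r] (L : Subgroup (SpecialLinearGroup ι F)) [hL : L.Normal] :
    L ≤ Subgroup.center (SpecialLinearGroup ι F) ∨ ∀ s, s ^ r ∈ L := by
  rcases Cfsg.Agent.Lib.Helper47.normal_le_center_or_commutator_le L with h | h1
  · exact Or.inl h
  right
  have hcomm : ∀ a b : SpecialLinearGroup ι F,
      (QuotientGroup.mk' L a) * (QuotientGroup.mk' L b) =
        (QuotientGroup.mk' L b) * (QuotientGroup.mk' L a) := by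
    intro a b
    rw [← map_mul, ← map_mul]
    apply (QuotientGroup.eq).2
    apply h1
    have : (a * b)⁻¹ * (b * a) = ⁅b⁻¹, a⁻¹⁆ := by
      rw [commutatorElement_def]; group
    rw [this]
    exact Subgroup.commutator_mem_commutator (Subgroup.mem_top _) (Subgroup.mem_top _)
  intro s
  rw [← QuotientGroup.eq_one_iff, ← QuotientGroup.mk'_apply, map_pow]
  refine Cfsg.Agent.Lib.Helper47.transvection_induction
    (fun s => (QuotientGroup.mk' L s) ^ r = 1) ?_ ?_ s
  · intro i j hij c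
    show (QuotientGroup.mk' L _) ^ r = 1
    rw [← map_pow, transvection_pow', CharP.cast_eq_zero, zero_mul,
      SpecialLinearGroup.transvection_coeff_zero, map_one]
  · intro x y hx hy
    show (QuotientGroup.mk' L _) ^ r = 1
    rw [map_mul, (show Commute _ _ from hcomm x y).mul_pow, hx, hy, one_mul]

variable {F : Type*} [Field F] {F₀ : Type*} [Field F₀] {n : ℕ}

/-- `SL_n(F₀) → PSL_n(F)` -/
noncomputable def Ph (j : F₀ →+* F) :
    SpecialLinearGroup (Fin n) F₀ →* ProjectiveSpecialLinearGroup (Fin n) F :=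
  (QuotientGroup.mk' _).comp (SpecialLinearGroup.map j)

theorem Ph_apply (j : F₀ →+* F) (c : SpecialLinearGroup (Fin n) F₀) :
    Ph j c = pm (SpecialLinearGroup.map j c) := rfl

theorem fldS_map (j : F₀ →+* F) (σ : F ≃+* F) (hj : ∀ x, σ (j x) = j x)
    (c : SpecialLinearGroup (Fin n) F₀) :
    fldS σ (SpecialLinearGroup.map j c) = SpecialLinearGroup.map j c := by
  apply Subtype.ext
  ext a b
  exact hj _

theorem fl_Ph (j : F₀ →+* F) (σ : F ≃+* F) (hj : ∀ x, σ (j x) = j x)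
    (c : SpecialLinearGroup (Fin n) F₀) : fl σ (Ph j c) = Ph j c := by
  rw [Ph_apply]
  show pm (fldS σ _) = _
  rw [fldS_map j σ hj]

theorem exists_map_of_fix (j : F₀ →+* F) (σ : F ≃+* F) (hj : ∀ x, σ x = x → x ∈ Set.range j)
    (s : SpecialLinearGroup (Fin n) F) (hs : fldS σ s = s) :
    ∃ c : SpecialLinearGroup (Fin n) F₀, SpecialLinearGroup.map j c = s := by
  have h1 : ∀ a b, ∃ t : F₀, j t = s.1 a b := by
    intro a b
    apply hj
    exact congrFun (congrFun (congrArg Subtype.val hs) a) b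
  choose M hM using h1
  have hMs : (Matrix.of M).map j = s.1 := by
    ext a b
    exact hM a b
  have hdet : (Matrix.of M).det = 1 := by
    apply j.injective
    rw [RingHom.map_det, map_one, RingHom.mapMatrix_apply, hMs, s.2]
  exact ⟨⟨Matrix.of M, hdet⟩, Subtype.ext hMs⟩

theorem Ph_eq_one_of_center (j : F₀ →+* F) {c : SpecialLinearGroup (Fin n) F₀}
    (hc : c ∈ Subgroup.center (SpecialLinearGroup (Fin n) F₀)) :
    (Ph j c : ProjectiveSpecialLinearGroup (Fin n) F) = 1 := by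
  obtain ⟨t, ht, hs⟩ := Matrix.SpecialLinearGroup.mem_center_iff.1 hc
  rw [Ph_apply, ← pm_one]
  symm
  apply pm_eq_of_smul (ε := j t)
  show c.1.map j = _
  rw [← hs]
  ext a b
  by_cases hab : a = b
  · subst hab; simp
  · simp [hab]

theorem exists_scalar_of_fix (σ : F ≃+* F) (s : SpecialLinearGroup (Fin n) F)
    (h : fl σ (pm s) = pm s) : ∃ z : F, z ^ n = 1 ∧ (fldS σ s).1 = z • s.1 := by
  obtain ⟨z, hz⟩ := exists_eps_of_pm_eq (x := s) (y := fldS σ s) h.symm
  refine ⟨z, ?_, hz⟩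
  have := congrArg Matrix.det hz
  rw [(fldS σ s).2, det_smul, s.2, mul_one, Fintype.card_fin] at this
  exact this.symm

theorem conj_Ph (j : F₀ →+* F) (σ : F ≃+* F) (hj : ∀ x, σ x = x ↔ x ∈ Set.range j)
    (k : ProjectiveSpecialLinearGroup (Fin n) F) (hk : fl σ k = k)
    (c : SpecialLinearGroup (Fin n) F₀) :
    ∃ c' : SpecialLinearGroup (Fin n) F₀, k * Ph j c * k⁻¹ = Ph j c' := by
  obtain ⟨s, rfl⟩ := pm_surjective k
  obtain ⟨z, hz, hs⟩ := exists_scalar_of_fix σ s hk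
  have hj1 : ∀ x, σ (j x) = j x := fun x => (hj _).2 ⟨x, rfl⟩
  obtain ⟨c', hc'⟩ := exists_map_of_fix j σ (fun x => (hj x).1)
    (s * SpecialLinearGroup.map j c * s⁻¹) (by
      rw [map_mul, map_mul, fldS_map j σ hj1, map_inv]
      apply mul_inv_eq_of_eq_mul
      apply Subtype.ext
      show (fldS σ s).1 * _ = s.1 * _ * (s⁻¹).1 * (fldS σ s).1
      rw [hs, Matrix.mul_smul, Matrix.smul_mul, Matrix.mul_assoc (s.1 * _)]
      have : (s⁻¹).1 * s.1 = 1 := congrArg Subtype.val (inv_mul_cancel s)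
      rw [this, Matrix.mul_one])
  exact ⟨c', by rw [Ph_apply, Ph_apply, hc']; rfl⟩

/-! ### elements of order `p` -/

theorem sl_pow_val {R : Type*} [CommRing R] (x : SpecialLinearGroup (Fin n) R) (k : ℕ) :
    (x ^ k).1 = x.1 ^ k := Matrix.SpecialLinearGroup.coe_pow x k

theorem exists_of_pow (j : F₀ →+* F) (p : ℕ) [Fact p.Prime] (x : SpecialLinearGroup (Fin n) F₀)
    (k : ℕ) (h1 : (Ph j x : ProjectiveSpecialLinearGroup (Fin n) F) ≠ 1)
    (h2 : (Ph j x : ProjectiveSpecialLinearGroup (Fin n) F) ^ (p ^ k) = 1) :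
    ∃ c : SpecialLinearGroup (Fin n) F₀,
      orderOf (Ph j c : ProjectiveSpecialLinearGroup (Fin n) F) = p := by
  obtain ⟨i, -, hi⟩ := (Nat.dvd_prime_pow Fact.out).1 (orderOf_dvd_of_pow_eq_one h2)
  have hi0 : i ≠ 0 := by
    rintro rfl
    rw [pow_zero, orderOf_eq_one_iff] at hi
    exact h1 hi
  obtain ⟨i, rfl⟩ := Nat.exists_eq_succ_of_ne_zero hi0
  have hp0 : 0 < p := (Fact.out : p.Prime).pos
  refine ⟨x ^ (p ^ i), ?_⟩
  rw [map_pow, orderOf_pow_of_dvd (pow_ne_zero _ hp0.ne') (by rw [hi]; exact pow_dvd_pow _ (by omega)),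
    hi, Nat.succ_eq_add_one, pow_succ, Nat.mul_div_cancel_left _ (pow_pos hp0 _)]

theorem Ph_ne_one_of_entry (j : F₀ →+* F) (x : SpecialLinearGroup (Fin n) F₀) {a b : Fin n}
    (hab : a ≠ b) (hx : x.1 a b ≠ 0) : (Ph j x : ProjectiveSpecialLinearGroup (Fin n) F) ≠ 1 := by
  intro h
  rw [Ph_apply, ← pm_one] at h
  obtain ⟨ε, hε⟩ := exists_eps_of_pm_eq h.symm
  have := congrFun (congrFun hε a) b
  have e : (SpecialLinearGroup.map j x).1 a b = j (x.1 a b) := rfl
  rw [e] at this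
  simp [hab] at this
  exact hx this

/-- the rotation in the coordinates `i`, `j` -/
noncomputable def rot {i k : Fin n} (hik : i ≠ k) : SpecialLinearGroup (Fin n) F₀ :=
  SpecialLinearGroup.transvection hik 1 * SpecialLinearGroup.transvection hik.symm (-1) *
    SpecialLinearGroup.transvection hik 1

theorem rot_smul {i k : Fin n} (hik : i ≠ k) (w : Fin n → F₀) (l : Fin n) :
    ((rot hik : SpecialLinearGroup (Fin n) F₀) • w) l =
      if l = i then w k else if l = k then - w i else w l := by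
  simp only [rot, mul_smul, Cfsg.Agent.Lib.Helper47.transvection_smul_apply]
  by_cases hli : l = i
  · subst hli
    simp [hik, hik.symm]
  · by_cases hlk : l = k
    · subst hlk
      simp [hik.symm]
    · simp [hli, hlk]

theorem rot_pow_four {i k : Fin n} (hik : i ≠ k) :
    (rot hik : SpecialLinearGroup (Fin n) F₀) ^ 4 = 1 := by
  apply Cfsg.Agent.Lib.Helper47.sl_ext_smul
  intro w
  funext l
  simp only [pow_succ, pow_zero, one_mul, mul_smul, one_smul, rot_smul]
  by_cases hli : l = i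
  · subst hli
    simp [hik.symm]
  · by_cases hlk : l = k
    · subst hlk
      simp [hik.symm]
    · simp [hli, hlk]

theorem rot_entry {i k : Fin n} (hik : i ≠ k) :
    (rot hik : SpecialLinearGroup (Fin n) F₀).1 i k = 1 := by
  have := rot_smul (F₀ := F₀) hik (Pi.single k 1) i
  rw [Matrix.SpecialLinearGroup.smul_def] at this
  simpa using this

theorem exists_order_two (hn : 2 ≤ n) (j : F₀ →+* F) :
    ∃ c : SpecialLinearGroup (Fin n) F₀,
      orderOf (Ph j c : ProjectiveSpecialLinearGroup (Fin n) F) = 2 := by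
  have hik : (⟨0, by omega⟩ : Fin n) ≠ ⟨1, by omega⟩ := by
    intro h0
    have := congrArg Fin.val h0
    simp at this
  have : Fact (Nat.Prime 2) := ⟨Nat.prime_two⟩
  apply exists_of_pow j 2 (rot hik) 2
  · apply Ph_ne_one_of_entry j _ hik
    rw [rot_entry]
    exact one_ne_zero
  · rw [← map_pow, show (2 : ℕ) ^ 2 = 4 from rfl, rot_pow_four, map_one]

theorem exists_order_odd (j : F₀ →+* F) (p : ℕ) [Fact p.Prime] (hp2 : p ≠ 2) (hpn : p ≤ n) :
    ∃ c : SpecialLinearGroup (Fin n) F₀,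
      orderOf (Ph j c : ProjectiveSpecialLinearGroup (Fin n) F) = p := by
  have hp : p.Prime := Fact.out
  have hdvd : p ∣ Fintype.card (Equiv.Perm (Fin n)) := by
    rw [Fintype.card_perm, Fintype.card_fin]
    exact (Nat.Prime.dvd_factorial hp).2 hpn
  obtain ⟨π, hπ⟩ := exists_prime_orderOf_dvd_card p hdvd
  have hπp : π ^ p = 1 := by rw [← hπ]; exact pow_orderOf_eq_one π
  have hsign : Equiv.Perm.sign π⁻¹ = 1 := by
    rw [Equiv.Perm.sign_inv]
    rcases Int.units_eq_one_or (Equiv.Perm.sign π) with h | h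
    · exact h
    · exfalso
      have h1 := congrArg Equiv.Perm.sign hπp
      rw [map_pow, h, map_one, (hp.odd_of_ne_two hp2).neg_one_pow] at h1
      exact absurd h1 (by decide)
  let c : SpecialLinearGroup (Fin n) F₀ := ⟨Matrix.permMatrixHom π, by
    rw [Matrix.permMatrixHom_apply, Matrix.det_permutation, hsign]
    simp⟩
  have hcp : c ^ p = 1 := by
    apply Subtype.ext
    rw [sl_pow_val]
    show (Matrix.permMatrixHom π) ^ p = 1
    rw [← map_pow, hπp, map_one]
  have hne : π⁻¹ ≠ 1 := by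
    intro h
    rw [inv_eq_one] at h
    rw [h, orderOf_one] at hπ
    exact hp.one_lt.ne hπ
  obtain ⟨i, hi⟩ : ∃ i, π⁻¹ i ≠ i := by
    by_contra hcon
    push Not at hcon
    exact hne (Equiv.ext hcon)
  refine ⟨c, orderOf_eq_prime (by rw [← map_pow, hcp, map_one]) ?_⟩
  apply Ph_ne_one_of_entry j c (Ne.symm hi)
  show (Matrix.permMatrixHom π : Matrix (Fin n) (Fin n) F₀) i (π⁻¹ i) ≠ 0
  simp [Matrix.permMatrixHom_apply, Equiv.Perm.permMatrix, PEquiv.toMatrix_apply]

theorem exists_order_p [Finite F] (hn : 2 ≤ n) (p : ℕ) [Fact p.Prime] (j : F₀ →+* F)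
    (σ : F ≃+* F) (hj : ∀ x, σ x = x ↔ x ∈ Set.range j)
    (hp : p ∣ Nat.card (fixS (fl σ : MulAut (ProjectiveSpecialLinearGroup (Fin n) F)))) :
    ∃ c : SpecialLinearGroup (Fin n) F₀,
      orderOf (Ph j c : ProjectiveSpecialLinearGroup (Fin n) F) = p := by
  by_cases hpn : p ∣ n
  · by_cases h2 : p = 2
    · subst h2
      exact exists_order_two hn j
    · exact exists_order_odd j p h2 (Nat.le_of_dvd (by omega) hpn)
  · have : Finite (ProjectiveSpecialLinearGroup (Fin n) F) := inferInstance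
    obtain ⟨k, hk⟩ := exists_prime_orderOf_dvd_card' p hp
    rw [← Subgroup.orderOf_coe] at hk
    obtain ⟨s, hs⟩ := pm_surjective k.1
    have hfix : fl σ (pm s) = pm s := by rw [hs]; exact k.2
    obtain ⟨z, hz, hsz⟩ := exists_scalar_of_fix σ s hfix
    obtain ⟨c, hc⟩ := exists_map_of_fix j σ (fun x => (hj x).1) (s ^ n) (by
      rw [map_pow]
      apply Subtype.ext
      rw [sl_pow_val, sl_pow_val, hsz, smul_pow, hz, one_smul])
    refine ⟨c, ?_⟩
    have e : (Ph j c : ProjectiveSpecialLinearGroup (Fin n) F) = k.1 ^ n := by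
      rw [Ph_apply, hc, ← hs]
      rfl
    rw [e, Nat.Coprime.orderOf_pow, hk]
    rw [hk]
    exact (Nat.Prime.coprime_iff_not_dvd Fact.out).2 hpn

/-! ### rational transvections and rigidity -/

theorem map_dot (j : F₀ →+* F) {a φ : Fin n → F₀} (h : φ ⬝ᵥ a = 0) :
    (fun i => j (φ i)) ⬝ᵥ (fun i => j (a i)) = 0 := by
  have := congrArg j h
  rw [map_zero] at this
  rw [← this]
  simp [dotProduct, map_sum, map_mul]

theorem map_tv (j : F₀ →+* F) {a φ : Fin n → F₀} (h : φ ⬝ᵥ a = 0) :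
    SpecialLinearGroup.map j (tv a φ h) =
      tv (fun i => j (a i)) (fun i => j (φ i)) (map_dot j h) := by
  apply Subtype.ext
  ext i k
  show j ((tv a φ h).1 i k) = _
  rw [tv_val, tv_val]
  by_cases hik : i = k
  · subst hik
    simp [vecMulVec_apply]
  · simp [vecMulVec_apply, hik]

theorem map_vec_ne_zero (j : F₀ →+* F) {a : Fin n → F₀} (ha : a ≠ 0) :
    (fun i => j (a i)) ≠ 0 := by
  intro h
  apply ha
  ext i
  apply j.injective
  rw [Pi.zero_apply, map_zero]
  exact congrFun h i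

theorem exists_rat_perp (hn : 2 ≤ n) {a : Fin n → F₀} (ha : a ≠ 0) :
    ∃ φ : Fin n → F₀, φ ≠ 0 ∧ φ ⬝ᵥ a = 0 := by
  obtain ⟨i, hi⟩ := exists_ne_zero_entry ha
  have : Nontrivial (Fin n) := Fin.nontrivial_iff_two_le.2 hn
  obtain ⟨k, hk⟩ := exists_ne i
  refine ⟨a i • Pi.single k 1 - a k • Pi.single i 1, ?_, ?_⟩
  · intro h0
    have := congrFun h0 k
    simp [hk] at this
    exact hi this
  · rw [sub_dotProduct, smul_dotProduct, smul_dotProduct, _root_.single_one_dotProduct,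
      _root_.single_one_dotProduct, smul_eq_mul, smul_eq_mul]
    ring

theorem typeA_rigid (hn : 2 ≤ n) (j : F₀ →+* F) (h : GL (Fin n) F) (τ : F ≃+* F)
    (hfix : ∀ c : SpecialLinearGroup (Fin n) F₀,
      (cG h * fl τ : MulAut (ProjectiveSpecialLinearGroup (Fin n) F)) (Ph j c) = Ph j c) :
    (∀ t, τ (j t) = j t) ∧ ∃ μ : F, h.1 = μ • 1 := by
  apply rat_rigid hn j h τ
  intro c₀ hc₀
  obtain ⟨φ, hφ, hh⟩ := exists_rat_perp hn hc₀
  have := hfix (tv c₀ φ hh)
  rw [Ph_apply, map_tv] at this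
  exact pt_of_fix h τ _ (map_vec_ne_zero j hc₀) (map_vec_ne_zero j hφ) this

theorem cG_eq_one_of_scalar (h : GL (Fin n) F) {μ : F} (hμ : h.1 = μ • 1) :
    (cG h : MulAut (ProjectiveSpecialLinearGroup (Fin n) F)) = 1 := by
  ext x
  obtain ⟨x, rfl⟩ := pm_surjective x
  rw [cG_pm, conjS_eq_of_mul (y := x)]
  · rfl
  · rw [hμ]
    simp

theorem typeB_excl (hn : 3 ≤ n) (j : F₀ →+* F) (h : GL (Fin n) F) (τ : F ≃+* F)
    (hfix : ∀ c : SpecialLinearGroup (Fin n) F₀,
      (cG h * fl τ * gr : MulAut (ProjectiveSpecialLinearGroup (Fin n) F)) (Ph j c) = Ph j c) :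
    False := by
  have key : ∀ i k : Fin n, i ≠ k → ∃ μ : F,
      Gm h τ (fun l => j ((Pi.single k 1 : Fin n → F₀) l)) =
        μ • (fun l => j ((Pi.single i 1 : Fin n → F₀) l)) := by
    intro i k hik
    have hh : (Pi.single k 1 : Fin n → F₀) ⬝ᵥ Pi.single i 1 = 0 := by
      rw [_root_.single_one_dotProduct]
      simp [hik.symm]
    have := hfix (tv _ _ hh)
    rw [Ph_apply, map_tv] at this
    exact pt_of_fix_gr h τ _ (map_vec_ne_zero j (Pi.single_ne_zero_iff.2 one_ne_zero))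
      (map_vec_ne_zero j (Pi.single_ne_zero_iff.2 one_ne_zero)) this
  have h02 : (⟨0, by omega⟩ : Fin n) ≠ ⟨2, by omega⟩ := by
    intro h0
    have := congrArg Fin.val h0
    simp at this
  have h12 : (⟨1, by omega⟩ : Fin n) ≠ ⟨2, by omega⟩ := by
    intro h0
    have := congrArg Fin.val h0
    simp at this
  have h01 : (⟨0, by omega⟩ : Fin n) ≠ ⟨1, by omega⟩ := by
    intro h0
    have := congrArg Fin.val h0
    simp at this
  obtain ⟨μ, hμ⟩ := key _ _ h02
  obtain ⟨μ', hμ'⟩ := key _ _ h12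
  have e := congrFun (hμ.symm.trans hμ') ⟨0, by omega⟩
  simp [h01] at e
  rw [e, zero_smul] at hμ
  exact Gm_ne_zero h τ (map_vec_ne_zero j (Pi.single_ne_zero_iff.2 one_ne_zero)) hμ

theorem eq_one_of_comm (hn : 2 ≤ n) (j : F₀ →+* F) (k : ProjectiveSpecialLinearGroup (Fin n) F)
    (h : ∀ c : SpecialLinearGroup (Fin n) F₀, k * Ph j c = Ph j c * k) : k = 1 := by
  obtain ⟨s, rfl⟩ := pm_surjective k
  have h1 : ∀ c : SpecialLinearGroup (Fin n) F₀,
      (cG (SpecialLinearGroup.toGL s) * fl 1 :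
        MulAut (ProjectiveSpecialLinearGroup (Fin n) F)) (Ph j c) = Ph j c := by
    intro c
    rw [map_one, mul_one, cG_toGL, MulAut.conj_apply, h c, mul_inv_cancel_right]
  obtain ⟨-, μ, hμ⟩ := typeA_rigid hn j _ _ h1
  rw [← pm_one]
  symm
  exact pm_eq_of_smul (ε := μ) hμ

theorem aut_form' [Fintype F] (r : ℕ) [Fact r.Prime] [CharP F r] (hn : 2 ≤ n)
    (α : MulAut (ProjectiveSpecialLinearGroup (Fin n) F)) :
    (∃ (h : GL (Fin n) F) (τ : F ≃+* F), α = cG h * fl τ) ∨
      (3 ≤ n ∧ ∃ (h : GL (Fin n) F) (τ : F ≃+* F), α = cG h * fl τ * gr) := by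
  rcases Nat.lt_or_ge 2 n with h3 | h3
  · obtain ⟨h, τ, e | e⟩ := aut_form_fin r hn α
    · exact Or.inl ⟨h, τ, e⟩
    · exact Or.inr ⟨h3, h, τ, e⟩
  · obtain rfl : n = 2 := by omega
    obtain ⟨h, τ, e⟩ := aut_form2 r α
    exact Or.inl ⟨h, τ, e⟩

/-! ### the two hypotheses -/

theorem fld_fix_ne_bot (hn : 2 ≤ n) (j : F₀ →+* F) (σ : F ≃+* F) (hj : ∀ x, σ (j x) = j x) :
    fixS (fl σ : MulAut (ProjectiveSpecialLinearGroup (Fin n) F)) ≠ ⊥ := by
  intro h
  have hik : (⟨0, by omega⟩ : Fin n) ≠ ⟨1, by omega⟩ := by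
    intro h0
    have := congrArg Fin.val h0
    simp at this
  have h1 : Ph j (rot hik) ∈ fixS (fl σ : MulAut (ProjectiveSpecialLinearGroup (Fin n) F)) :=
    fl_Ph j σ hj _
  rw [h, Subgroup.mem_bot] at h1
  refine Ph_ne_one_of_entry j _ hik ?_ h1
  rw [rot_entry]
  exact one_ne_zero

theorem conj_comm_of_fix {K : Type*} [Group K] {β : MulAut K} {k : K} (hk : β k = k) :
    MulAut.conj k * β = β * MulAut.conj k := by
  ext x
  simp [MulAut.mul_apply, MulAut.conj_apply, hk]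

theorem fld_HI [Finite F] (hn : 2 ≤ n) (r : ℕ) [Fact r.Prime] [CharP F r] (p : ℕ)
    [Fact p.Prime] (hpr : p ≠ r) (j : F₀ →+* F) (σ : F ≃+* F)
    (hj : ∀ x, σ x = x ↔ x ∈ Set.range j)
    (hp : p ∣ Nat.card (fixS (fl σ : MulAut (ProjectiveSpecialLinearGroup (Fin n) F)))) :
    HI p (fl σ : MulAut (ProjectiveSpecialLinearGroup (Fin n) F)) := by
  intro M hM hcop hinv
  have : CharP F₀ r := RingHom.charP j j.injective r
  have : Nontrivial (Fin n) := Fin.nontrivial_iff_two_le.2 hn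
  have hj1 : ∀ x, σ (j x) = j x := fun x => (hj _).2 ⟨x, rfl⟩
  have hnorm : ∀ k, fl σ k = k → ∀ m ∈ M, k * m * k⁻¹ ∈ M := fun k hk m hm =>
    hinv (MulAut.conj k) (conj_comm_of_fix hk) m hm
  let L : Subgroup (SpecialLinearGroup (Fin n) F₀) := M.comap (Ph j)
  have hL : L.Normal := ⟨fun c hc d => by
    show Ph j (d * c * d⁻¹) ∈ M
    rw [map_mul, map_mul, map_inv]
    exact hnorm _ (fl_Ph j σ hj1 d) _ hc⟩
  rcases sl_normal_dichotomy r L with hcase | hcase
  · rw [eq_bot_iff]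
    intro k hk
    rw [Subgroup.mem_bot]
    apply eq_one_of_comm hn j
    intro c
    obtain ⟨c', hc'⟩ := conj_Ph j σ hj k (hM hk) c
    have h1 : c' * c⁻¹ ∈ L := by
      show Ph j (c' * c⁻¹) ∈ M
      rw [map_mul, ← hc', map_inv]
      have : k * Ph j c * k⁻¹ * (Ph j c)⁻¹ = k * (Ph j c * k⁻¹ * (Ph j c)⁻¹) := by group
      rw [this]
      exact M.mul_mem hk (hnorm _ (fl_Ph j σ hj1 c) _ (M.inv_mem hk))
    have h2 := Ph_eq_one_of_center (F := F) j (hcase h1)
    rw [map_mul, ← hc', map_inv] at h2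
    calc k * Ph j c = (k * Ph j c * k⁻¹ * (Ph j c)⁻¹) * (Ph j c * k) := by group
      _ = _ := by rw [h2, one_mul]
  · exfalso
    obtain ⟨c, hc⟩ := exists_order_p hn p j σ hj hp
    have h1 : (Ph j c : ProjectiveSpecialLinearGroup (Fin n) F) ^ r ∈ M := by
      rw [← map_pow]
      exact hcase c
    have hco : Nat.Coprime p r := (Nat.coprime_primes Fact.out Fact.out).2 hpr
    have h2 : orderOf ((Ph j c : ProjectiveSpecialLinearGroup (Fin n) F) ^ r) = p := by
      rw [Nat.Coprime.orderOf_pow, hc]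
      rw [hc]
      exact hco
    have h3 : p ∣ Nat.card M := by
      have := orderOf_dvd_natCard (⟨_, h1⟩ : M)
      rwa [Subgroup.orderOf_mk, h2] at this
    have := Nat.Coprime.eq_one_of_dvd hcop.symm h3
    exact (Fact.out : p.Prime).one_lt.ne' this

theorem fld_HII [Fintype F] (hn : 2 ≤ n) (r : ℕ) [Fact r.Prime] [CharP F r] (p : ℕ)
    [Fact p.Prime] (j : F₀ →+* F) (σ : F ≃+* F) (hσ : orderOf σ = p)
    (hj : ∀ x, σ x = x ↔ x ∈ Set.range j) :
    HII p (fl σ : MulAut (ProjectiveSpecialLinearGroup (Fin n) F)) := by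
  intro α hα hcop
  have hj1 : ∀ x, σ (j x) = j x := fun x => (hj _).2 ⟨x, rfl⟩
  have hfix : ∀ c, α (Ph j c) = Ph j c := fun c => hα _ (fl_Ph j σ hj1 c)
  rcases aut_form' r hn α with ⟨h, τ, rfl⟩ | ⟨h3, h, τ, rfl⟩
  · obtain ⟨h1, μ, hμ⟩ := typeA_rigid hn j h τ hfix
    rw [cG_eq_one_of_scalar h hμ, one_mul] at hcop ⊢
    have hτp : τ ^ p = 1 := Cfsg.Agent.Lib.Helper47.BalPSU.gal_pow σ τ Fact.out hσ (fun x hx => by
      obtain ⟨t, rfl⟩ := (hj x).1 hx
      exact h1 t)
    have h4 : orderOf (fl τ : MulAut (ProjectiveSpecialLinearGroup (Fin n) F)) ∣ p :=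
      orderOf_dvd_of_pow_eq_one (by rw [← map_pow, hτp, map_one])
    exact orderOf_eq_one_iff.1 (Nat.Coprime.eq_one_of_dvd hcop h4)
  · exact (typeB_excl h3 j h τ hfix).elim

end Cfsg.Agent.Lib.Helper47.BalPSL
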