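import Cfsg.Agent.Lib.Helper47.BalPSLFld
import Cfsg.Agent.Lib.Helper62.BalPSUA

set_option autoImplicit false
set_option linter.unusedSectionVars false
set_option linter.unusedVariables false

/-!
S2686 (failure of local balance for `PSL_n(q)`), modulo the graph and graph-field types.
-/

namespace Cfsg.Agent.Lib.Helper47.BalPSL

open Matrix MatrixGroups Cfsg.Agent.Lib.Helper18.AutPSL Cfsg.Agent.Lib.Helper99.BalPSU
  Cfsg.Agent.Lib.Helper50.GI Cfsg.Agent.Lib.Helper62.BalPSU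

variable {F : Type*} [Field F] [Fintype F] {n : ℕ}

theorem field_case (hn : 2 ≤ n) (r : ℕ) [Fact r.Prime] [CharP F r] (p : ℕ) [Fact p.Prime]
    (hpr : p ≠ r) (g : GL (Fin n) F) (σ : F ≃+* F)
    (hord : orderOf (cG g * fl σ : MulAut (ProjectiveSpecialLinearGroup (Fin n) F)) = p)
    (hσ : σ ≠ 1) :
    fixS (cG g * fl σ : MulAut (ProjectiveSpecialLinearGroup (Fin n) F)) ≠ ⊥ ∧
      (p ∣ Nat.card (fixS (cG g * fl σ : MulAut (ProjectiveSpecialLinearGroup (Fin n) F))) →
        HI p (cG g * fl σ : MulAut (ProjectiveSpecialLinearGroup (Fin n) F))) ∧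
      HII p (cG g * fl σ : MulAut (ProjectiveSpecialLinearGroup (Fin n) F)) := by
  have hp : p.Prime := Fact.out
  have hp1 : (cG g * fl σ : MulAut (ProjectiveSpecialLinearGroup (Fin n) F)) ^ p = 1 := by
    rw [← hord]; exact pow_orderOf_eq_one _
  have hσp : σ ^ p = 1 := by
    have h1 := hp1
    rw [pow_cG_fl] at h1
    refine (rigid_fin hn (nrmG σ g p)⁻¹ (σ ^ p) ?_).1
    rw [map_inv]
    exact inv_eq_of_mul_eq_one_right h1
  have hoσ : orderOf σ = p := orderOf_eq_prime hσp hσ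
  obtain ⟨b, hb⟩ := field_core hn g σ p hp.pos hoσ hp1
  rw [hb]
  have hj : ∀ x, σ x = x ↔
      x ∈ Set.range (RingHom.eqLocusField (σ : F →+* F) (RingHom.id F)).subtype := by
    intro x
    constructor
    · intro hx
      exact ⟨⟨x, hx⟩, rfl⟩
    · rintro ⟨y, rfl⟩
      exact y.2
  refine ⟨?_, ?_, HII_conj p (cG b) (fl σ) (fld_HII hn r p _ σ hoσ hj)⟩
  · rw [fixS_conj]
    intro h
    have h' := (Subgroup.map_eq_bot_iff_of_injective _
      (show Function.Injective (MulEquiv.toMonoidHom (cG b)) from (cG b).injective)).1 h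
    exact fld_fix_ne_bot hn _ σ (fun x => (hj _).2 ⟨x, rfl⟩) h'
  · intro hd
    rw [card_fixS_conj] at hd
    exact HI_conj p _ _ (fld_HI hn r p hpr _ σ hj hd)

theorem center_eq_bot (hn : 2 ≤ n) :
    Subgroup.center (ProjectiveSpecialLinearGroup (Fin n) F) = ⊥ := by
  rw [eq_bot_iff]
  intro k hk
  rw [Subgroup.mem_bot]
  apply eq_one_of_comm hn (RingHom.id F)
  intro c
  exact (Subgroup.mem_center_iff.1 hk _).symm

theorem typeA_one : TypeA (1 : MulAut (ProjectiveSpecialLinearGroup (Fin n) F)) := by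
  have := typeA_cG (1 : GL (Fin n) F)
  rwa [map_one] at this

theorem typeA_cG_fl (g : GL (Fin n) F) (σ : F ≃+* F) :
    TypeA (cG g * fl σ : MulAut (ProjectiveSpecialLinearGroup (Fin n) F)) :=
  (typeA_cG g).mul (typeA_fld σ)

theorem not_typeA_of_form (r : ℕ) [Fact r.Prime] [CharP F r] (h3 : 3 ≤ n) (g : GL (Fin n) F)
    (σ : F ≃+* F) :
    ¬ TypeA (cG g * fl σ * gr : MulAut (ProjectiveSpecialLinearGroup (Fin n) F)) := by
  intro h
  have h3' : 3 ≤ Fintype.card (Fin n) := by rw [Fintype.card_fin]; exact h3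
  have hT := tvInv (ι := Fin n) (F := F) r h3'
  apply not_typeA_gr (F := F) h3'
  have := ((typeA_cG_fl g σ).inv h3' hT).mul h
  rwa [inv_mul_cancel_left] at this

theorem two_of_not_typeA (r : ℕ) [Fact r.Prime] [CharP F r] (h3 : 3 ≤ n)
    (β : MulAut (ProjectiveSpecialLinearGroup (Fin n) F)) (hβ : ¬ TypeA β) (p : ℕ)
    (hp : p.Prime) (hord : orderOf β = p) : p = 2 := by
  have h3' : 3 ≤ Fintype.card (Fin n) := by rw [Fintype.card_fin]; exact h3
  have hT := tvInv (ι := Fin n) (F := F) r h3'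
  have hA : TypeA (β * gr) := (typeA_or h3' hT β).resolve_left hβ
  have hB : TypeA (gr * β) := by
    rcases typeA_or h3' hT (gr * (β * gr)) with h | h
    · exfalso
      apply not_typeA_gr (F := F) h3'
      have := h.mul (hA.inv h3' hT)
      rwa [mul_assoc, mul_inv_cancel, mul_one] at this
    · rwa [mul_assoc, mul_assoc, gr_mul_gr, mul_one] at h
  have hsq : TypeA (β * β) := by
    have := hA.mul hB
    rwa [mul_assoc, ← mul_assoc gr, gr_mul_gr, one_mul] at this
  rcases hp.eq_two_or_odd' with h2 | ⟨k, hk⟩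
  · exact h2
  · exfalso
    apply hβ
    have hpow : ∀ m : ℕ, TypeA ((β * β) ^ m) := by
      intro m
      induction m with
      | zero => rw [pow_zero]; exact typeA_one
      | succ m ih => rw [pow_succ]; exact ih.mul hsq
    have h1 : β ^ p = 1 := by rw [← hord]; exact pow_orderOf_eq_one _
    rw [hk, pow_succ, pow_mul, pow_two] at h1
    have h2 : β = ((β * β) ^ k)⁻¹ := (inv_eq_of_mul_eq_one_right h1).symm
    rw [h2]
    exact (hpow k).inv h3' hT

/-- S2686 modulo the graph and graph-field types -/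
theorem main (r : ℕ) [Fact r.Prime] [CharP F r] (hn : 2 ≤ n)
    (hgraph : (2 : F) ≠ 0 → ∀ β : MulAut (ProjectiveSpecialLinearGroup (Fin n) F),
      orderOf β = 2 → ¬ TypeA β → HI 2 β ∧ HII 2 β)
    (𝒢 : Subgroup (MulAut (ProjectiveSpecialLinearGroup (Fin n) F)))
    (hinn : ∀ k : ProjectiveSpecialLinearGroup (Fin n) F, MulAut.conj k ∈ 𝒢)
    (p : ℕ) [Fact p.Prime] (hpr : p ≠ r)
    (β : MulAut (ProjectiveSpecialLinearGroup (Fin n) F)) (hord : orderOf β = p)
    (hnot : ¬ Cfsg.IsInnerDiagonalAutPSL β) :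
    Cfsg.pPrimeCore p ↥(𝒢 ⊓ Subgroup.centralizer {β}) ≠ ⊥ ↔
      ((∃ γ φ : MulAut (ProjectiveSpecialLinearGroup (Fin n) F),
          Cfsg.IsInnerDiagonalAutPSL γ ∧ Cfsg.IsFieldAutPSL φ ∧ β = φ.trans γ) ∧
        Nat.Coprime p (Nat.card ↥(MonoidHom.eqLocus β.toMonoidHom
          (MonoidHom.id (ProjectiveSpecialLinearGroup (Fin n) F))))) := by
  have hZ := center_eq_bot (F := F) hn
  have hp : p.Prime := Fact.out
  rcases aut_form' r hn β with ⟨g, σ, rfl⟩ | ⟨h3, g, σ, rfl⟩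
  · have hσ : σ ≠ 1 := by
      rintro rfl
      apply hnot
      rw [map_one, mul_one]
      exact isInnerDiagonal_cG g
    obtain ⟨hfix, hI, hII⟩ := field_case hn r p hpr g σ hord hσ
    constructor
    · intro hcore
      refine ⟨⟨cG g, fl σ, isInnerDiagonal_cG g, ⟨σ, isStdField_fld σ⟩, rfl⟩, ?_⟩
      by_contra hcon
      rw [Nat.Prime.coprime_iff_not_dvd hp, not_not] at hcon
      exact hcore (core_eq_bot hZ 𝒢 hinn p _ (hI hcon) hII)
    · rintro ⟨-, hcop⟩
      exact core_ne_bot hZ 𝒢 hinn p _ hfix hcop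
  · have hB := not_typeA_of_form r h3 g σ
    obtain rfl : p = 2 := two_of_not_typeA r h3 _ hB p hp hord
    have h2 : (2 : F) ≠ 0 := by
      intro h0
      have h1 : ((2 : ℕ) : F) = 0 := by exact_mod_cast h0
      rw [CharP.cast_eq_zero_iff F r] at h1
      exact hpr ((Nat.prime_dvd_prime_iff_eq Fact.out Nat.prime_two).1 h1).symm
    obtain ⟨hI, hII⟩ := hgraph h2 _ hord hB
    constructor
    · intro hcore
      exact absurd (core_eq_bot hZ 𝒢 hinn 2 _ hI hII) hcore
    · rintro ⟨⟨γ, φ, hγ, ⟨τ, hφ⟩, e⟩, -⟩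
      exfalso
      apply hB
      obtain ⟨g', rfl⟩ := eq_cG_of_isInnerDiagonal hγ
      rw [eq_fld_of_isStdField hφ] at e
      rw [e]
      exact typeA_cG_fl g' τ

end Cfsg.Agent.Lib.Helper47.BalPSL
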