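import Cfsg.Agent.Lib.Helper47.BalPSLDefs

set_option autoImplicit false
set_option linter.unusedSectionVars false
set_option linter.unusedVariables false

/-!
Points fixed by automorphisms of `PSL_n(F)` fixing transvections; rigidity.
-/

namespace Cfsg.Agent.Lib.Helper47.BalPSL

open Matrix MatrixGroups Cfsg.Agent.Lib.Helper18.AutPSL Cfsg.Agent.Lib.Helper99.BalPSU
  Cfsg.Agent.Lib.Helper50.GI

variable {F : Type*} [Field F] {n : ℕ}

/-- the centre of a transvection is determined by its image in `PSL` -/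
theorem center_of_pm_tv_eq {a φ a' φ' : Fin n → F} (h : φ ⬝ᵥ a = 0) (h' : φ' ⬝ᵥ a' = 0)
    (ha : a ≠ 0) (hφ : φ ≠ 0) (he : pm (tv a φ h) = pm (tv a' φ' h')) : ∃ μ : F, a' = μ • a := by
  obtain ⟨ε, hε⟩ := exists_eps_of_pm_eq he
  have key : ∀ v : Fin n → F, v + (φ' ⬝ᵥ v) • a' = ε • (v + (φ ⬝ᵥ v) • a) := by
    intro v
    rw [← tv_mulVec a' φ' h', ← tv_mulVec a φ h, hε, smul_mulVec]
  by_cases h1 : ε = 1
  · obtain ⟨i, hi⟩ := exists_ne_zero_entry hφ
    have k1 := key (Pi.single i (φ i)⁻¹)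
    have e1 : φ ⬝ᵥ Pi.single i (φ i)⁻¹ = 1 := by
      rw [dotProduct_single, mul_inv_cancel₀ hi]
    rw [e1, h1, one_smul, one_smul] at k1
    have k2 : (φ' ⬝ᵥ Pi.single i (φ i)⁻¹) • a' = a := add_left_cancel k1
    have hne : φ' ⬝ᵥ Pi.single i (φ i)⁻¹ ≠ 0 := by
      intro h0
      rw [h0, zero_smul] at k2
      exact ha k2.symm
    refine ⟨(φ' ⬝ᵥ Pi.single i (φ i)⁻¹)⁻¹, ?_⟩
    rw [← k2, smul_smul, inv_mul_cancel₀ hne, one_smul]
  · have k1 := key a
    rw [h, zero_smul, add_zero] at k1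
    have k2 : (φ' ⬝ᵥ a) • a' = (ε - 1) • a := by
      rw [sub_smul, one_smul, ← k1]
      abel
    have hne : φ' ⬝ᵥ a ≠ 0 := by
      intro h0
      rw [h0, zero_smul] at k2
      rcases smul_eq_zero.1 k2.symm with h3 | h3
      · exact h1 (sub_eq_zero.1 h3)
      · exact ha h3
    refine ⟨(φ' ⬝ᵥ a)⁻¹ * (ε - 1), ?_⟩
    rw [mul_smul, ← k2, smul_smul, inv_mul_cancel₀ hne, one_smul]

theorem cG_fl_tv (h : GL (Fin n) F) (τ : F ≃+* F) {a φ : Fin n → F} (hh : φ ⬝ᵥ a = 0) :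
    (cG h * fl τ : MulAut (ProjectiveSpecialLinearGroup (Fin n) F)) (pm (tv a φ hh)) =
      pm (tv (Gm h τ a) ((τ ∘ φ) ᵥ* h⁻¹.1) (conj_dot h (fld_dot τ hh))) := by
  rw [cG_fl_pm, fldS_tv, conjS_tv h (fld_dot τ hh) (conj_dot h (fld_dot τ hh))]
  rfl

/-- an automorphism of type A fixing a transvection fixes its centre -/
theorem pt_of_fix (h : GL (Fin n) F) (τ : F ≃+* F) {a φ : Fin n → F} (hh : φ ⬝ᵥ a = 0)
    (ha : a ≠ 0) (hφ : φ ≠ 0)
    (hfix : (cG h * fl τ : MulAut (ProjectiveSpecialLinearGroup (Fin n) F)) (pm (tv a φ hh)) =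
      pm (tv a φ hh)) : ∃ μ : F, Gm h τ a = μ • a := by
  rw [cG_fl_tv] at hfix
  exact center_of_pm_tv_eq hh _ ha hφ hfix.symm

/-- an automorphism of type B fixing a transvection maps its axis to its centre -/
theorem pt_of_fix_gr (h : GL (Fin n) F) (τ : F ≃+* F) {a φ : Fin n → F} (hh : φ ⬝ᵥ a = 0)
    (ha : a ≠ 0) (hφ : φ ≠ 0)
    (hfix : (cG h * fl τ * gr : MulAut (ProjectiveSpecialLinearGroup (Fin n) F))
      (pm (tv a φ hh)) = pm (tv a φ hh)) : ∃ μ : F, Gm h τ φ = μ • a := by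
  have h' : (-a) ⬝ᵥ φ = 0 := by rw [neg_dotProduct, dotProduct_comm, hh, neg_zero]
  rw [MulAut.mul_apply, gr_pm, invT_tv hh h', cG_fl_tv] at hfix
  exact center_of_pm_tv_eq hh _ ha hφ hfix.symm

theorem Gm_single (h : GL (Fin n) F) (τ : F ≃+* F) (i : Fin n) :
    Gm h τ (Pi.single i 1) = h.1 *ᵥ Pi.single i 1 := by
  rw [Gm]
  congr 1
  ext k
  by_cases hk : k = i
  · subst hk; simp
  · simp [hk]

/-- a semilinear map fixing all the points rational over a subfield is a scalar, and its field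
automorphism fixes the subfield -/
theorem rat_rigid (hn : 2 ≤ n) {F₀ : Type*} [Field F₀] (j : F₀ →+* F) (h : GL (Fin n) F)
    (τ : F ≃+* F)
    (hfix : ∀ c₀ : Fin n → F₀, c₀ ≠ 0 →
      ∃ μ : F, Gm h τ (fun i => j (c₀ i)) = μ • (fun i => j (c₀ i))) :
    (∀ t, τ (j t) = j t) ∧ ∃ μ : F, h.1 = μ • 1 := by
  have hs : ∀ i : Fin n, (fun k => j ((Pi.single i 1 : Fin n → F₀) k)) = Pi.single i (1 : F) := by
    intro i
    ext k
    by_cases hk : k = i
    · subst hk; simp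
    · simp [hk]
  have h1 : ∀ i : Fin n, ∃ μ : F, Gm h τ (Pi.single i 1) = μ • Pi.single i 1 := by
    intro i
    obtain ⟨μ, hμ⟩ := hfix (Pi.single i 1) (Pi.single_ne_zero_iff.2 one_ne_zero)
    rw [hs] at hμ
    exact ⟨μ, hμ⟩
  choose μ hμ using h1
  have hμ0 : ∀ i, μ i ≠ 0 := by
    intro i h0
    have := hμ i
    rw [h0, zero_smul] at this
    exact Gm_ne_zero h τ (Pi.single_ne_zero_iff.2 one_ne_zero) this
  have h2 : ∀ i k : Fin n, i ≠ k → ∀ t : F₀, τ (j t) * μ k = μ i * j t := by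
    intro i k hik t
    have hne : (Pi.single i 1 + t • Pi.single k 1 : Fin n → F₀) ≠ 0 := by
      intro h0
      have := congrFun h0 i
      simp [hik] at this
    obtain ⟨ν, hν⟩ := hfix _ hne
    have e : (fun l => j ((Pi.single i 1 + t • Pi.single k 1 : Fin n → F₀) l)) =
        Pi.single i (1 : F) + j t • Pi.single k (1 : F) := by
      rw [← hs i, ← hs k]
      ext l
      simp
    rw [e, Gm_add, Gm_smul, hμ, hμ] at hν
    have e1 := congrFun hν i
    have e2 := congrFun hν k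
    simp [hik, hik.symm] at e1 e2
    rw [e2, ← e1]
  have h3 : ∀ i k : Fin n, μ k = μ i := by
    intro i k
    by_cases hik : i = k
    · rw [hik]
    · have := h2 i k hik 1
      simpa using this
  refine ⟨?_, μ ⟨0, by omega⟩, ?_⟩
  · intro t
    have hik : (⟨0, by omega⟩ : Fin n) ≠ ⟨1, by omega⟩ := by
      intro h0
      have := congrArg Fin.val h0
      simp at this
    have := h2 _ _ hik t
    rw [h3 ⟨0, by omega⟩ ⟨1, by omega⟩, mul_comm] at this
    exact mul_left_cancel₀ (hμ0 _) this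
  · ext a b
    have := congrFun (hμ b) a
    rw [Gm_single, h3 ⟨0, by omega⟩ b] at this
    simpa [Matrix.one_apply, Pi.single_apply] using this

/-- a semilinear map fixing all the points is a scalar -/
theorem pts_rigid (hn : 2 ≤ n) (h : GL (Fin n) F) (τ : F ≃+* F)
    (hfix : ∀ c : Fin n → F, c ≠ 0 → ∃ μ : F, Gm h τ c = μ • c) :
    τ = 1 ∧ ∃ μ : F, h.1 = μ • 1 := by
  obtain ⟨h1, h2⟩ := rat_rigid hn (RingHom.id F) h τ hfix
  exact ⟨RingEquiv.ext h1, h2⟩

end Cfsg.Agent.Lib.Helper47.BalPSL
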