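import Cfsg.Agent.Lib.Helper47.BalPSURig
import Cfsg.Agent.Lib.Helper50.AutPSUOut

set_option autoImplicit false
set_option linter.unusedSectionVars false
set_option linter.unusedVariables false

/-!
The embedding `PSU_n(q₀) → PSU_n(q)` attached to a field automorphism, and the order of the group
of fixed points.
-/

namespace Cfsg.Agent.Lib.Helper47.AutPSU

open Matrix MatrixGroups Cfsg.Agent.Lib.Helper17 Cfsg.Agent.Lib.Helper99.AutPSU
  Cfsg.Agent.Lib.Helper99.BalPSU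
open Cfsg.Agent.Lib.Helper18.AutPSL (mp mp_apply mp_eq_map)

variable {F : Type*} [Field F] [Fintype F] {n q : ℕ}
variable {F₀ : Type*} [Field F₀] [Fintype F₀] {q₀ : ℕ} {j : F₀ →+* F} {σ : F ≃+* F}

theorem jv_mulVec (M : Matrix (Fin n) (Fin n) F₀) (v : Fin n → F₀) :
    jv j (M *ᵥ v) = M.map j *ᵥ jv j v := by
  ext i
  simp [jv, Matrix.mulVec, dotProduct, map_sum, map_mul]

theorem det_map_j (j : F₀ →+* F) (M : Matrix (Fin n) (Fin n) F₀) : (M.map j).det = j M.det :=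
  (RingHom.map_det j M).symm

theorem det_map_su (j : F₀ →+* F) (x : ↥(Cfsg.SU n F₀ q₀)) : ((mt x).map j).det = 1 := by
  rw [det_map_j, mt_det, map_one]

/-- `SU_n(q₀) → SU_n(q)` -/
noncomputable def Sub.mapS (hF : Fintype.card F = q ^ 2) (S : Sub q σ F₀ q₀ j) :
    ↥(Cfsg.SU n F₀ q₀) →* ↥(Cfsg.SU n F q) where
  toFun x := mkSU ((mt x).map j) (det_map_su j x) (fun u v => gu_herm (S.mapJ hF (toGU x)) u v)
  map_one' := by
    apply mt_injective
    show (mt (1 : ↥(Cfsg.SU n F₀ q₀))).map j = 1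
    rw [mt_one, Matrix.map_one j (map_zero j) (map_one j)]
  map_mul' x y := by
    apply mt_injective
    show (mt (x * y)).map j = (mt x).map j * (mt y).map j
    rw [mt_mul, Matrix.map_mul]

theorem Sub.mt_mapS (hF : Fintype.card F = q ^ 2) (S : Sub q σ F₀ q₀ j) (x : ↥(Cfsg.SU n F₀ q₀)) :
    mt (S.mapS hF x) = (mt x).map j := rfl

theorem Sub.fldS_mapS (hF : Fintype.card F = q ^ 2) (S : Sub q σ F₀ q₀ j)
    (x : ↥(Cfsg.SU n F₀ q₀)) : fldS σ (S.mapS hF x) = S.mapS hF x := by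
  apply mt_injective
  rw [fldS_val, S.mt_mapS, ← mp_eq_map, S.mp_map]

theorem Sub.exists_mapS (hF : Fintype.card F = q ^ 2) (S : Sub q σ F₀ q₀ j)
    (t : ↥(Cfsg.SU n F q)) (ht : fldS σ t = t) : ∃ x, S.mapS hF x = t := by
  have h1 : mp σ (mt t) = mt t := by
    rw [mp_eq_map, ← fldS_val, ht]
  obtain ⟨M₀, hM₀⟩ := S.exists_map _ h1
  have hd : M₀.det = 1 := by
    apply j.injective
    rw [← det_map_j, hM₀, mt_det, map_one]
  refine ⟨mkSU M₀ hd ?_, ?_⟩
  · intro u v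
    apply j.injective
    rw [← S.herm_jv, jv_mulVec, jv_mulVec, hM₀, mt_herm, S.herm_jv]
  · apply mt_injective
    rw [S.mt_mapS, mt_mkSU, hM₀]

theorem mem_center_of_smul {x : ↥(Cfsg.SU n F q)} {c : F} (h : mt x = c • 1) :
    x ∈ Subgroup.center ↥(Cfsg.SU n F q) := by
  rw [Subgroup.mem_center_iff]
  intro y
  apply mt_injective
  rw [mt_mul, mt_mul, h]
  simp

theorem mt_eq_smul_of_center (hF : Fintype.card F = q ^ 2) {z : ↥(Cfsg.SU n F q)}
    (hz : z ∈ Subgroup.center ↥(Cfsg.SU n F q)) : ∃ ζ : F, mt z = ζ • 1 := by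
  obtain ⟨ζ, hζ⟩ := center_scalar hF z hz
  refine ⟨ζ, ?_⟩
  rw [Matrix.ext_iff_mulVec]
  intro v
  rw [hζ, smul_mulVec, one_mulVec]

/-- `PSU_n(q₀) → PSU_n(q)` -/
noncomputable def Sub.iot (hF : Fintype.card F = q ^ 2) (S : Sub q σ F₀ q₀ j) :
    Cfsg.PSU n F₀ q₀ →* Cfsg.PSU n F q :=
  QuotientGroup.lift _ ((QuotientGroup.mk' (Subgroup.center ↥(Cfsg.SU n F q))).comp (S.mapS hF))
    (by
      intro z hz
      obtain ⟨ζ, hζ⟩ := mt_eq_smul_of_center S.card hz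
      show pm (S.mapS hF z) = 1
      rw [QuotientGroup.eq_one_iff]
      apply mem_center_of_smul (c := j ζ)
      rw [S.mt_mapS, hζ]
      ext i k
      by_cases hik : i = k
      · subst hik
        simp
      · simp [hik])

theorem Sub.iot_pm (hF : Fintype.card F = q ^ 2) (S : Sub q σ F₀ q₀ j) (x : ↥(Cfsg.SU n F₀ q₀)) :
    S.iot hF (pm x) = pm (S.mapS hF x) := rfl

theorem Sub.fl_iot (hF : Fintype.card F = q ^ 2) (S : Sub q σ F₀ q₀ j) (y : Cfsg.PSU n F₀ q₀) :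
    fl σ (S.iot hF y) = S.iot hF y := by
  obtain ⟨x, rfl⟩ := pm_surjective y
  rw [S.iot_pm, fl_pm, S.fldS_mapS]

/-- the image of the embedding is normalised by the fixed points -/
theorem Sub.conj_iot (hF : Fintype.card F = q ^ 2) (S : Sub q σ F₀ q₀ j)
    (m : Cfsg.PSU n F q) (hm : fl σ m = m) (y : Cfsg.PSU n F₀ q₀) :
    ∃ y', m * S.iot hF y * m⁻¹ = S.iot hF y' := by
  obtain ⟨x, rfl⟩ := pm_surjective m
  obtain ⟨t, rfl⟩ := pm_surjective y
  rw [fl_pm, eq_comm, QuotientGroup.eq] at hm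
  set z := x⁻¹ * fldS σ x with hz
  have hx : fldS σ x = x * z := by rw [hz]; group
  have hzc := Subgroup.mem_center_iff.1 hm
  obtain ⟨t', ht'⟩ := S.exists_mapS hF (x * S.mapS hF t * x⁻¹) (by
    rw [map_mul, map_mul, map_inv, S.fldS_mapS, hx, _root_.mul_inv_rev]
    calc x * z * S.mapS hF t * (z⁻¹ * x⁻¹) = x * (z * S.mapS hF t) * z⁻¹ * x⁻¹ := by group
      _ = x * (S.mapS hF t * z) * z⁻¹ * x⁻¹ := by rw [hzc]
      _ = _ := by group)
  exact ⟨pm t', by rw [S.iot_pm, S.iot_pm, ht']; rfl⟩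

/-- a non-trivial fixed point -/
theorem Sub.exists_iot_ne_one (hF : Fintype.card F = q ^ 2) (S : Sub q σ F₀ q₀ j) (hn : 3 ≤ n) :
    ∃ y : Cfsg.PSU n F₀ q₀, S.iot hF y ≠ 1 := by
  obtain ⟨c, hc0, hcc⟩ := exists_isotropic_ne_zero S.card (n := n) (by omega)
  have hc : Iso q₀ c := ⟨hc0, hcc⟩
  obtain ⟨t, l, hl0, htσ, ht⟩ := S.exists_rat_transv hF hc
  obtain ⟨x, rfl⟩ := S.exists_mapS hF t htσ
  refine ⟨pm x, ?_⟩
  rw [S.iot_pm]
  intro h1
  rw [QuotientGroup.eq_one_iff] at h1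
  obtain ⟨ζ, hζ⟩ := center_scalar hF _ h1
  have hb := S.iso_jv hc
  obtain ⟨a, hp⟩ := exists_HP hF hb
  have e1 := hζ (jv j c)
  rw [ht, hb.2, mul_zero, zero_smul, add_zero] at e1
  have hζ1 : ζ = 1 := by
    have h2 : (ζ - 1) • jv j c = 0 := by rw [sub_smul, one_smul, ← e1, sub_self]
    rcases smul_eq_zero.1 h2 with h | h
    · exact sub_eq_zero.1 h
    · exact absurd h hb.1
  have e2 := hζ a
  rw [ht, hp.ba hF, mul_one, hζ1, one_smul, add_eq_left] at e2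
  rcases smul_eq_zero.1 e2 with h | h
  · exact hl0 h
  · exact hb.1 h

/-- an element centralising the image of the embedding is trivial -/
theorem Sub.eq_one_of_comm_iot (hF : Fintype.card F = q ^ 2) (S : Sub q σ F₀ q₀ j) (hn : 3 ≤ n)
    (m : Cfsg.PSU n F q) (h : ∀ y, m * S.iot hF y * m⁻¹ = S.iot hF y) : m = 1 := by
  obtain ⟨x, rfl⟩ := pm_surjective m
  obtain ⟨-, c, hc⟩ := S.rig hF hn (toGU x) 1 (by
    intro t ht
    obtain ⟨t₀, rfl⟩ := S.exists_mapS hF t ht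
    rw [map_one, mul_one, cG_toGU]
    exact h (pm t₀))
  apply Cfsg.Agent.Lib.Helper50.AutPSUOut.conj_injective hF hn
  rw [map_one, ← cG_toGU]
  exact cG_eq_one_of_smul hc

/-- the order of the group of fixed points divides `|SU_n(q₀)|` -/
theorem Sub.card_fixS_dvd (hF : Fintype.card F = q ^ 2) (S : Sub q σ F₀ q₀ j) (hn : 3 ≤ n) :
    Nat.card ↥(fixS (fl σ : MulAut (Cfsg.PSU n F q))) ∣ Nat.card ↥(Cfsg.SU n F₀ q₀) := by
  have : Finite (F ≃+* F) := Finite.of_injective (fun e => (e : F → F)) DFunLike.coe_injective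
  have hσ0 : 0 < orderOf σ := orderOf_pos σ
  have h1 : Nat.card (S.Th hF : ↥(Cfsg.GU n F₀ q₀) →* MulAut (Cfsg.PSU n F q)).range =
      Nat.card ↥(Cfsg.SU n F₀ q₀) := by
    rw [← Cfsg.Agent.Lib.Helper50.AutPSUOut.card_range_cG S.card hn, ← Subgroup.index_ker,
      ← Subgroup.index_ker]
    congr 1
    ext g
    rw [S.ker_Th hF hn, Cfsg.Agent.Lib.Helper50.AutPSUOut.mem_ker_cG S.card hn,
      Subgroup.mem_subgroupOf, Cfsg.Geo.mem_scalars_iff]
    constructor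
    · rintro ⟨c, hc⟩
      exact ⟨c, hc⟩
    · rintro ⟨d, hd⟩
      have hd0 : d ≠ 0 := by
        rintro rfl
        rw [zero_smul] at hd
        have := det_GL_ne_zero (g : GL (Fin n) F₀)
        rw [hd] at this
        apply this
        have : Nonempty (Fin n) := ⟨⟨0, by omega⟩⟩
        exact Matrix.det_zero
      exact ⟨Units.mk0 d hd0, hd⟩
  rw [← h1, S.range_Th hF hn _ hσ0 rfl,
    ← Subgroup.card_map_of_injective (K := fixS (fl σ : MulAut (Cfsg.PSU n F q)))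
      (Cfsg.Agent.Lib.Helper50.AutPSUOut.conj_injective hF hn)]
  apply Subgroup.card_dvd_of_le
  rintro _ ⟨k, hk, rfl⟩
  refine ⟨Cfsg.Agent.Lib.Helper50.AutPSUOut.inn_le_range ⟨k, rfl⟩, ?_⟩
  apply Subgroup.mem_centralizer_singleton_iff.2
  ext y
  have hk' : fl σ k = k := hk
  simp only [MulAut.mul_apply, MulAut.conj_apply, map_mul, map_inv, hk']

end Cfsg.Agent.Lib.Helper47.AutPSU
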