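import Cfsg.Agent.Lib.Helper99.BalPSU.Defs
import Cfsg.Agent.Lib.Helper47.AutPSUMain

set_option autoImplicit false
set_option linter.unusedSectionVars false
set_option linter.unusedVariables false

/-!
Rung ODDN of the ladder for S2687: an automorphism of odd prime order of `PSU_n(q)` which is not
inner-diagonal is conjugate to a standard field automorphism.
-/

namespace Cfsg.Agent.Lib.Helper47.BalPSU

open Matrix MatrixGroups Cfsg.Agent.Lib.Helper99.AutPSU Cfsg.Agent.Lib.Helper99.BalPSU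
  Cfsg.Agent.Lib.Helper47.AutPSU

variable {F : Type*} [Field F] [Fintype F] {n q : ℕ}

/-- `q` is a power of the characteristic -/
theorem exists_q_eq (hF : Fintype.card F = q ^ 2) :
    ∃ (r f : ℕ), r.Prime ∧ 1 ≤ f ∧ q = r ^ f := by
  obtain ⟨r, _, k, hr, hk⟩ := FiniteField.card' F
  have h1 : q ∣ r ^ (k : ℕ) := by
    rw [← hk, hF]
    exact Dvd.intro_left (q ^ 1) (by ring)
  obtain ⟨f, -, hf⟩ := (Nat.dvd_prime_pow hr).1 h1
  refine ⟨r, f, hr, ?_, hf⟩
  rcases Nat.eq_zero_or_pos f with rfl | h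
  · rw [pow_zero] at hf
    rw [hf] at hF
    have := Fintype.one_lt_card (α := F)
    omega
  · exact h

/-- existence of the fixed field data of a field automorphism of odd order -/
theorem exists_Sub (hF : Fintype.card F = q ^ 2) (σ : F ≃+* F) (hodd : Odd (orderOf σ)) :
    ∃ (F₀ : Type) (_ : Field F₀) (_ : Fintype F₀) (q₀ : ℕ) (j : F₀ →+* F), Sub q σ F₀ q₀ j ∧
      q = q₀ ^ orderOf σ := by
  obtain ⟨r, f, hr, hf, hq⟩ := exists_q_eq hF
  have : Fact r.Prime := ⟨hr⟩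
  obtain ⟨hdvd, hsub⟩ := exists_sub hq hF σ rfl hodd
  have hpos : 2 * (f / orderOf σ) ≠ 0 := by
    have := Nat.div_pos (Nat.le_of_dvd (by omega) hdvd) hodd.pos
    omega
  let _ : Fintype (GaloisField r (2 * (f / orderOf σ))) := Fintype.ofFinite _
  obtain ⟨j, S⟩ := hsub (GaloisField r (2 * (f / orderOf σ))) (by
    rw [← Nat.card_eq_fintype_card, GaloisField.card r _ hpos])
  refine ⟨GaloisField r (2 * (f / orderOf σ)), inferInstance, inferInstance, _, j, S, ?_⟩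
  rw [← pow_mul, Nat.div_mul_cancel hdvd, hq]

theorem odd_normal (hF : Fintype.card F = q ^ 2) (hn : 3 ≤ n) (h32 : ¬(n = 3 ∧ q = 2)) {p : ℕ}
    [Fact p.Prime] (hp2 : p ≠ 2) (β : MulAut (Cfsg.PSU n F q)) (hord : orderOf β = p)
    (hnot : ¬ Cfsg.IsInnerDiagonalAutPSU β) :
    ∃ (h : MulAut (Cfsg.PSU n F q)) (σ : F ≃+* F), orderOf σ = p ∧ β = h * fl σ * h⁻¹ := by
  have hp : p.Prime := Fact.out
  obtain ⟨g, σ, rfl⟩ := autForm hF hn h32 β
  have hσ1 : σ ≠ 1 := by
    rintro rfl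
    exact hnot ((isInnerDiagonal_iff _).2 ⟨g, by rw [map_one, mul_one]⟩)
  have hpow : (cG g * fl σ : MulAut (Cfsg.PSU n F q)) ^ p = 1 := by
    rw [← hord]
    exact pow_orderOf_eq_one _
  have hσp : σ ^ p = 1 := by
    have h1 := hpow
    rw [pow_cG_fl] at h1
    exact (rigid hF hn _ _ h1).1
  have hoσ : orderOf σ = p := orderOf_eq_prime hσp hσ1
  have hodd : Odd (orderOf σ) := by
    rw [hoσ]
    exact hp.odd_of_ne_two hp2
  obtain ⟨F₀, _, _, q₀, j, S, -⟩ := exists_Sub hF σ hodd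
  obtain ⟨b, hb⟩ := S.field_core hF hn g p hp.pos hoσ hpow
  exact ⟨cG b, σ, hoσ, hb⟩

end Cfsg.Agent.Lib.Helper47.BalPSU
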