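import Cfsg.Agent.Lib.Helper50.AutPSUOut

set_option autoImplicit false

/-!
Sub-rung ORD: arithmetic of the orders of `SU_n(q)` and `PSU_n(q)`.
-/

namespace Cfsg.Agent.Lib.Helper47.BalPSU

theorem prod_three (q : ℕ) (hq : 1 ≤ q) :
    (q + 1) ^ 3 ∣ ∏ i ∈ Finset.range 3, (if Even i then q ^ (i + 1) + 1 else q ^ (i + 1) - 1) := by
  obtain ⟨k, rfl⟩ : ∃ k, q = k + 1 := ⟨q - 1, by omega⟩
  have h1 : ¬ Even 1 := by decide
  have h2 : Even 2 := by decide
  simp only [Finset.prod_range_succ, Finset.prod_range_zero, Even.zero, if_true, h1, if_false, h2,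
    one_mul, zero_add]
  have e1 : (k + 1) ^ (1 + 1) - 1 = (k + 1 + 1) * k := by
    have : (k + 1) ^ (1 + 1) = (k + 1 + 1) * k + 1 := by ring
    omega
  have e2 : (k + 1) ^ (2 + 1) + 1 = (k + 1 + 1) * (k ^ 2 + k + 1) := by ring
  rw [e1, e2]
  exact ⟨k * (k ^ 2 + k + 1), by ring⟩

theorem dvd_card_PSU {K : Type*} [Field K] [Fintype K] {q n p : ℕ}
    (hK : Fintype.card K = q ^ 2) (hn : 3 ≤ n) (hp : p.Prime)
    (h : p ∣ Nat.card ↥(Cfsg.SU n K q)) : p ∣ Nat.card (Cfsg.PSU n K q) := by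
  have hq : 1 ≤ q := by
    rcases Nat.eq_zero_or_pos q with rfl | h0
    · have := Fintype.card_pos (α := K)
      rw [hK] at this
      simp at this
    · exact h0
  have e1 := Cfsg.Agent.Lib.Helper50.AutPSUOut.card_SU_eq hK hn
  rw [e1] at h
  rcases (Nat.Prime.dvd_mul hp).1 h with h | h
  swap
  · exact h
  have hpq : p ∣ q + 1 := h.trans (Nat.gcd_dvd_right _ _)
  apply hpq.trans
  have e2 := Cfsg.Agent.Lib.Helper50.Herm.card_SU hK n (by omega)
  have e3 := Cfsg.Agent.Lib.Helper50.Herm.card_GU hK n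
  have h3 : (q + 1) ^ 3 ∣ Nat.card ↥(Cfsg.GU n K q) := by
    rw [e3]
    apply Dvd.dvd.mul_left
    exact (prod_three q hq).trans (Finset.prod_dvd_prod_of_subset _ _ _
      (Finset.range_subset_range.2 hn))
  rw [← e2, e1] at h3
  obtain ⟨g', hg'⟩ := Nat.gcd_dvd_right n (q + 1)
  set g := Nat.gcd n (q + 1) with hg
  set P := Nat.card (Cfsg.PSU n K q) with hP
  have hg0 : 0 < g := Nat.pos_of_ne_zero (by
    intro h0
    rw [h0, zero_mul] at hg'
    omega)
  have h4 : (q + 1) * g * (g * g' * g') ∣ (q + 1) * g * P := by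
    have e : (q + 1) ^ 3 = (q + 1) * g * (g * g' * g') := by
      conv_lhs => rw [pow_succ, pow_two]
      conv_lhs => rw [mul_assoc]
      conv_lhs => 
        enter [2]
        rw [hg']
      ring
    rw [← e]
    rwa [mul_assoc]
  have h5 := Nat.dvd_of_mul_dvd_mul_left (Nat.mul_pos (by omega) hg0) h4
  rw [hg']
  exact (Dvd.intro _ rfl).trans h5

theorem card_SU_three_two {K : Type*} [Field K] [Fintype K] (hK : Fintype.card K = 2 ^ 2) :
    Nat.card ↥(Cfsg.SU 3 K 2) = 216 := by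
  have e2 := Cfsg.Agent.Lib.Helper50.Herm.card_SU hK 3 (by omega)
  have e3 := Cfsg.Agent.Lib.Helper50.Herm.card_GU hK 3
  have h1 : ¬ Even 1 := by decide
  have h2 : Even 2 := by decide
  simp only [Finset.prod_range_succ, Finset.prod_range_zero, Even.zero, if_true, h1, if_false, h2,
    one_mul, zero_add] at e3
  norm_num at e3
  omega

end Cfsg.Agent.Lib.Helper47.BalPSU
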