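import Cfsg.Agent.Lib.Helper47.BalPSURig
import Cfsg.Agent.Lib.Helper50.AutPSUC

set_option autoImplicit false
set_option linter.unusedSectionVars false
set_option linter.unusedVariables false

/-!
Sub-rung T32: the exceptional case `(n, q₀) = (3, 2)` of rung ODD of the ladder for S2687.
-/

namespace Cfsg.Agent.Lib.Helper47.BalPSU

open Matrix MatrixGroups Cfsg.Agent.Lib.Helper17 Cfsg.Agent.Lib.Helper99.AutPSU
  Cfsg.Agent.Lib.Helper99.BalPSU Cfsg.Agent.Lib.Helper47.AutPSU

/-- conjugation by a fixed point commutes with the automorphism -/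
theorem conj_comm_of_fix {K : Type*} [Group K] (β : MulAut K) {k : K} (hk : β k = k) :
    MulAut.conj k * β = β * MulAut.conj k := by
  ext y
  simp only [MulAut.mul_apply, MulAut.conj_apply, map_mul, map_inv, hk]

variable {F : Type*} [Field F] [Fintype F] {q : ℕ}

/-- in dimension three a totally isotropic subspace is a line -/
theorem line_of_perp (hF : Fintype.card F = q ^ 2) {c c' : Fin 3 → F} (hc : Iso q c)
    (h0 : Cfsg.hermForm 3 F q c' c' = 0) (h1 : Cfsg.hermForm 3 F q c' c = 0) :
    ∃ μ : F, c' = μ • c := by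
  obtain ⟨d, hp⟩ := exists_HP hF hc
  obtain ⟨w, hwc, hwd, hww⟩ := W_ne hF (le_refl 3) hp
  have hw0 : w ≠ 0 := by
    rintro rfl
    exact hww (herm_zero_left _)
  have hli := Cfsg.Agent.Lib.Helper50.AutPSUC.linearIndependent_frame hp.a0 hp.b0 hp.ab (hp.ba hF)
    hwc hwd hw0
  have hspan := hli.span_eq_top_of_card_eq_finrank (by simp)
  have hmem : c' ∈ Submodule.span F (Set.range ![c, d, w]) := by rw [hspan]; trivial
  obtain ⟨f, hf⟩ := (Submodule.mem_span_range_iff_exists_fun F).1 hmem
  simp only [Fin.sum_univ_three, Matrix.cons_val_zero, Matrix.cons_val_one, Matrix.cons_val] at hf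
  have hcw := herm_zero_comm hF hwc
  have hdw := herm_zero_comm hF hwd
  have e1 : f 1 = 0 := by
    have := h1
    rw [← hf] at this
    simp only [hermForm_add_left, hermForm_smul_left, hp.a0, hp.ba hF, hwc] at this
    linear_combination this
  rw [e1, zero_smul, add_zero] at hf
  have e2 : f 2 = 0 := by
    have := h0
    rw [← hf] at this
    simp only [hermForm_add_left, hermForm_add_right hF, hermForm_smul_left, hermForm_smul_right,
      hp.a0, hwc, hcw] at this
    have h3 : f 2 * (f 2 ^ q * Cfsg.hermForm 3 F q w w) = 0 := by linear_combination this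
    rcases mul_eq_zero.1 h3 with h | h
    · exact h
    · rcases mul_eq_zero.1 h with h | h
      · exact pow_eq_zero_iff (q_ne_zero hF) |>.1 h
      · exact absurd h hww
  rw [e2, zero_smul, add_zero] at hf
  exact ⟨f 0, hf.symm⟩

theorem case32 (hF : Fintype.card F = q ^ 2)
    (σ : F ≃+* F) {F₀ : Type*} [Field F₀] [Fintype F₀] {j : F₀ →+* F} (S : Sub q σ F₀ 2 j)
    (M : Subgroup (Cfsg.PSU 3 F q)) (hM : M ≤ fixS (fl σ : MulAut (Cfsg.PSU 3 F q)))
    (hcop : (Nat.card M).Coprime 3)
    (hinv : ∀ α : MulAut (Cfsg.PSU 3 F q), α * fl σ = fl σ * α → ∀ k ∈ M, α k ∈ M)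
    (x : ↥(Cfsg.SU 3 F q)) (hx : pm x ∈ M) (c : Fin 3 → F) (hc : Iso q c)
    (hcσ : ∀ i, σ (c i) = c i) : ∃ μ : F, mt x *ᵥ c = μ • c := by
  -- characteristic two
  have h2 : (2 : F) = 0 := by
    have : Fact (Nat.Prime 2) := ⟨Nat.prime_two⟩
    have hch : CharP F₀ 2 := charP_of_card_eq_prime_pow S.card
    have h20 : (2 : F₀) = 0 := by
      have := CharP.cast_eq_zero F₀ 2
      exact_mod_cast this
    have := congrArg j h20
    rwa [map_ofNat, map_zero] at this
  have h11 : (1 : F) + 1 ^ q = 0 := by rw [one_pow]; linear_combination h2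
  set c' := mt x *ᵥ c with hc'
  set h := Cfsg.hermForm 3 F q c' c with hh
  set hb := Cfsg.hermForm 3 F q c c' with hhb
  have hbq : h ^ q = hb := hermForm_conj hF _ _ _
  have hqb : hb ^ q = h := hermForm_conj hF _ _ _
  have hc'0 : Cfsg.hermForm 3 F q c' c' = 0 := by rw [hc', mt_herm, hc.2]
  -- the scalar `ζ`
  have hfix : pm x = pm (fldS σ x) := by
    have : fl σ (pm x) = pm x := hM hx
    rw [fl_pm] at this
    exact this.symm
  obtain ⟨ζ, hζ⟩ := exists_scalar_of_pm_eq hF hfix
  obtain ⟨d, hp⟩ := exists_HP hF hc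
  have hζ1 : ζ * ζ ^ q = 1 := by
    have e := mt_herm (fldS σ x) c d
    rw [hζ, hζ, hermForm_smul_left, hermForm_smul_right, mt_herm, hp.ab] at e
    linear_combination e
  have hcσ' : (fun i => σ (c i)) = c := funext hcσ
  have hσc' : (fun i => σ (c' i)) = ζ • c' := by
    rw [hc', ← map_mulVec, hcσ', ← fldS_val, hζ]
  have hσh : σ h = ζ * h := by
    rw [hh, ← herm_map, hσc', hcσ', hermForm_smul_left]
  have hN : h * hb = 0 ∨ h * hb = 1 := by
    have e1 : σ (h * hb) = h * hb := by
      rw [← hbq, map_mul, map_pow, hσh, mul_pow]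
      linear_combination (h * h ^ q) * hζ1
    obtain ⟨N₀, hN₀⟩ := (S.fix _).1 e1
    have e2 : (h * hb) ^ q = h * hb := by rw [mul_pow, hbq, hqb, mul_comm]
    have e3 : N₀ ^ 2 = N₀ := by
      apply j.injective
      rw [S.pow, hN₀, e2]
    have e4 : N₀ * (N₀ - 1) = 0 := by linear_combination e3
    rcases mul_eq_zero.1 e4 with e | e
    · left; rw [← hN₀, e, map_zero]
    · right; rw [← hN₀, sub_eq_zero.1 e, map_one]
  rcases hN with hN | hN
  · have h0 : h = 0 := by
      rcases mul_eq_zero.1 hN with e | e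
      · exact e
      · rw [← hqb, e, zero_pow (q_ne_zero hF)]
    exact line_of_perp hF hc hc'0 h0
  · exfalso
    obtain ⟨t, -, ht⟩ := exists_X hF hc.2 1 h11
    simp only [one_mul] at ht
    have htσ : fldS σ t = t := by
      apply su_ext'
      intro v
      have hv : v = fun i => σ (σ.symm (v i)) := by ext i; simp
      rw [fldS_val]
      conv_lhs => rw [hv]
      rw [map_mulVec, ht, ht]
      ext i
      simp only [Pi.add_apply, Pi.smul_apply, smul_eq_mul, map_add, map_mul,
        RingEquiv.apply_symm_apply]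
      rw [hcσ, ← herm_map, hcσ', ← hv]
    have htt : t⁻¹ = t := by
      apply inv_eq_of_mul_eq_one_left
      apply su_ext'
      intro v
      rw [mt_mul_mulVec, ht, ht, mt_one, one_mulVec]
      simp only [hermForm_add_left, hermForm_smul_left, hc.2]
      linear_combination (norm := module) (Cfsg.hermForm 3 F q v c * h2) • c
    set y := x * (t * x⁻¹ * t⁻¹) with hy
    have hyM : pm y ∈ M := by
      have e1 : MulAut.conj (pm t) (pm x)⁻¹ ∈ M :=
        hinv _ (conj_comm_of_fix _ (by rw [fl_pm, htσ])) _ (M.inv_mem hx)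
      exact M.mul_mem hx e1
    have hY : ∀ v, mt y *ᵥ v = v + Cfsg.hermForm 3 F q v c • c +
        (Cfsg.hermForm 3 F q v c' + Cfsg.hermForm 3 F q v c * hb) • c' := by
      intro v
      rw [hy, htt, mt_mul_mulVec, mt_mul_mulVec, mt_mul_mulVec, ht (mt x⁻¹ *ᵥ _), mulVec_add,
        mt_mulVec_inv, mulVec_smul, herm_inv_left, ← hc', ht]
      simp only [hermForm_add_left, hermForm_smul_left, ← hhb]
    have hYY : ∀ v, mt y *ᵥ (mt y *ᵥ v) = v +
        (Cfsg.hermForm 3 F q v c + Cfsg.hermForm 3 F q v c' * h) • c +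
        Cfsg.hermForm 3 F q v c' • c' := by
      intro v
      rw [hY (mt y *ᵥ v), hY v]
      simp only [hermForm_add_left, hermForm_smul_left, hc.2, hc'0, ← hhb, ← hh]
      set a := Cfsg.hermForm 3 F q v c
      set b := Cfsg.hermForm 3 F q v c'
      linear_combination (norm := module) (a * hN + a * h2) • c + ((b + a * hb) * hN + (b + 2 * a * hb) * h2) • c'
    have hY3 : y ^ 3 = 1 := by
      apply su_ext'
      intro v
      rw [pow_succ, pow_two, mt_mul_mulVec, mt_mul_mulVec, mt_one, one_mulVec, hYY (mt y *ᵥ v),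
        hY v]
      simp only [hermForm_add_left, hermForm_smul_left, hc.2, hc'0, ← hhb, ← hh]
      set a := Cfsg.hermForm 3 F q v c
      set b := Cfsg.hermForm 3 F q v c'
      linear_combination (norm := module) ((a + (b + a * hb) * h) * h2) • c + ((b + a * hb) * h2) • c'
    have hy1 : pm y ≠ 1 := by
      intro e
      rw [QuotientGroup.eq_one_iff] at e
      obtain ⟨z, hz⟩ := center_scalar hF _ e
      have e1 := hz c
      rw [hY, hc.2, zero_smul, add_zero, zero_mul, add_zero, ← hhb] at e1
      have e2 := congrArg (fun u => Cfsg.hermForm 3 F q u c) e1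
      simp only [hermForm_add_left, hermForm_smul_left, hc.2, ← hh] at e2
      have : (1 : F) = 0 := by linear_combination -hN + e2
      exact one_ne_zero this
    have ho : orderOf (pm y) = 3 := by
      have : Fact (Nat.Prime 3) := ⟨Nat.prime_three⟩
      apply orderOf_eq_prime _ hy1
      show pm (y ^ 3) = 1
      rw [hY3]
      rfl
    have hdvd : 3 ∣ Nat.card M := by
      have := orderOf_dvd_natCard (⟨pm y, hyM⟩ : M)
      rwa [Subgroup.orderOf_mk, ho] at this
    have := Nat.dvd_gcd hdvd (dvd_refl 3)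
    rw [hcop] at this
    omega

end Cfsg.Agent.Lib.Helper47.BalPSU
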