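import Cfsg.Agent.Lib.Helper47.BalPSUEmb
import Cfsg.Agent.Lib.Helper47.BalPSUODDN
import Cfsg.Agent.Lib.Helper47.BalPSUGAL
import Cfsg.Agent.Lib.Helper47.BalPSUORD
import Cfsg.Agent.Lib.Helper47.BalPSUT32
import Cfsg.Agent.S0283

set_option autoImplicit false
set_option linter.unusedSectionVars false
set_option linter.unusedVariables false

/-!
Rung ODD of the ladder for S2687.
-/

namespace Cfsg.Agent.Lib.Helper47.BalPSU

open Matrix MatrixGroups Cfsg.Agent.Lib.Helper99.AutPSU Cfsg.Agent.Lib.Helper99.BalPSU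
  Cfsg.Agent.Lib.Helper47.AutPSU

/-- the abstract argument for `HI` -/
theorem HI_of_simple {K K₀ : Type*} [Group K] [Group K₀] [Finite K] [IsSimpleGroup K₀]
    (ι : K₀ →* K) (β : MulAut K) (p : ℕ)
    (hfix : ∀ y, β (ι y) = ι y)
    (hnorm : ∀ m : K, β m = m → ∀ y, ∃ y', m * ι y * m⁻¹ = ι y')
    (hnt : ∃ y, ι y ≠ 1) (hp1 : p ≠ 1)
    (hp : p ∣ Nat.card K₀)
    (hrig : ∀ m : K, (∀ y, m * ι y * m⁻¹ = ι y) → m = 1) : HI p β := by
  intro M hM hcop hinv
  have hinj : Function.Injective ι := by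
    rw [← MonoidHom.ker_eq_bot_iff]
    rcases IsSimpleGroup.eq_bot_or_eq_top_of_normal ι.ker inferInstance with h | h
    · exact h
    · obtain ⟨y, hy⟩ := hnt
      exact absurd (MonoidHom.mem_ker.1 (h ▸ Subgroup.mem_top y)) hy
  have hN : (M.comap ι).Normal := by
    constructor
    intro m hm y
    rw [Subgroup.mem_comap] at hm ⊢
    rw [map_mul, map_mul, map_inv]
    exact hinv _ (conj_comm_of_fix β (hfix y)) _ hm
  rcases IsSimpleGroup.eq_bot_or_eq_top_of_normal (M.comap ι) hN with h | h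
  · rw [Subgroup.eq_bot_iff_forall]
    intro m hm
    apply hrig
    intro y
    obtain ⟨y', hy'⟩ := hnorm m (hM hm) y
    have h1 : ι (y' * y⁻¹) ∈ M := by
      rw [map_mul, ← hy', map_inv]
      have h2 : ι y * m⁻¹ * (ι y)⁻¹ ∈ M :=
        hinv _ (conj_comm_of_fix β (hfix y)) _ (M.inv_mem hm)
      have h3 := M.mul_mem hm h2
      have e : m * ι y * m⁻¹ * (ι y)⁻¹ = m * (ι y * m⁻¹ * (ι y)⁻¹) := by group
      rw [e]
      exact h3
    have h4 : y' * y⁻¹ ∈ M.comap ι := h1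
    rw [h, Subgroup.mem_bot, mul_inv_eq_one] at h4
    rw [hy', h4]
  · exfalso
    have hle : ι.range ≤ M := by
      rintro _ ⟨y, rfl⟩
      have : y ∈ M.comap ι := h ▸ Subgroup.mem_top y
      exact this
    have h1 : Nat.card K₀ ∣ Nat.card M := by
      rw [Nat.card_congr (MonoidHom.ofInjective hinj).toEquiv]
      exact Subgroup.card_dvd_of_le hle
    have h2 : p ∣ Nat.gcd (Nat.card M) p := Nat.dvd_gcd (hp.trans h1) dvd_rfl
    rw [hcop] at h2
    exact hp1 (Nat.dvd_one.1 h2)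

variable {F : Type*} [Field F] [Fintype F] {n q : ℕ}

theorem odd_case (hF : Fintype.card F = q ^ 2) (hn : 3 ≤ n) (h32 : ¬(n = 3 ∧ q = 2)) {p r : ℕ}
    [Fact p.Prime] [Fact r.Prime] [CharP F r] (hpr : p ≠ r) (hp2 : p ≠ 2) (σ : F ≃+* F)
    (hσ : orderOf σ = p) :
    fixS (fl σ : MulAut (Cfsg.PSU n F q)) ≠ ⊥ ∧
      (p ∣ Nat.card ↥(fixS (fl σ : MulAut (Cfsg.PSU n F q))) →
        HI p (fl σ : MulAut (Cfsg.PSU n F q))) ∧
      HII p (fl σ : MulAut (Cfsg.PSU n F q)) := by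
  have hp : p.Prime := Fact.out
  have hodd : Odd (orderOf σ) := by
    rw [hσ]
    exact hp.odd_of_ne_two hp2
  obtain ⟨F₀, _, _, q₀, j, S, hq⟩ := exists_Sub hF σ hodd
  refine ⟨?_, ?_, ?_⟩
  · obtain ⟨y, hy⟩ := S.exists_iot_ne_one hF hn
    intro h
    apply hy
    have : S.iot hF y ∈ fixS (fl σ : MulAut (Cfsg.PSU n F q)) := S.fl_iot hF y
    rw [h] at this
    exact this
  · intro hdvd
    have h1 : p ∣ Nat.card ↥(Cfsg.SU n F₀ q₀) := hdvd.trans (S.card_fixS_dvd hF hn)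
    by_cases h32' : n = 3 ∧ q₀ = 2
    · obtain ⟨rfl, rfl⟩ := h32'
      rw [card_SU_three_two S.card] at h1
      have hp3 : p = 3 := by
        have h2 : p ∣ 2 ^ 3 * 3 ^ 3 := by norm_num; exact h1
        rcases (Nat.Prime.dvd_mul hp).1 h2 with h | h
        · exact absurd ((Nat.prime_dvd_prime_iff_eq hp Nat.prime_two).1 (hp.dvd_of_dvd_pow h)) hp2
        · exact (Nat.prime_dvd_prime_iff_eq hp Nat.prime_three).1 (hp.dvd_of_dvd_pow h)
      subst hp3
      intro M hM hcop hinv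
      rw [Subgroup.eq_bot_iff_forall]
      intro m hm
      obtain ⟨x, rfl⟩ := pm_surjective m
      obtain ⟨-, c, hc⟩ := S.rig0 hF hn (toGU x) 1 (by
        intro c hc
        exact case32 hF σ S M hM hcop hinv x hm (jv j c) (S.iso_jv hc) (S.jv_fix c))
      apply Cfsg.Agent.Lib.Helper50.AutPSUOut.conj_injective hF hn
      rw [map_one, ← cG_toGU]
      exact cG_eq_one_of_smul hc
    · have : IsSimpleGroup (Cfsg.PSU n F₀ q₀) := Cfsg.Agent.S0283.result S.card n hn h32'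
      exact HI_of_simple (S.iot hF) (fl σ) p (S.fl_iot hF) (S.conj_iot hF)
        (S.exists_iot_ne_one hF hn) hp.one_lt.ne' (dvd_card_PSU S.card hn hp h1)
        (S.eq_one_of_comm_iot hF hn)
  · intro α hα hcop
    obtain ⟨h, τ, rfl⟩ := autForm hF hn h32 α
    obtain ⟨hτ, c, hc⟩ := S.rig hF hn h τ (by
      intro t ht
      apply hα
      show fl σ (pm t) = pm t
      rw [fl_pm, ht])
    have hτp : τ ^ p = 1 := gal_pow σ τ hp hσ (by
      intro x hx
      obtain ⟨y, rfl⟩ := (S.fix x).1 hx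
      exact hτ y)
    rw [cG_eq_one_of_smul hc, one_mul] at hcop ⊢
    have h1 : (fl τ : MulAut (Cfsg.PSU n F q)) ^ p = 1 := by rw [← map_pow, hτp, map_one]
    have h2 : orderOf (fl τ : MulAut (Cfsg.PSU n F q)) ∣ p := orderOf_dvd_of_pow_eq_one h1
    have h3 : orderOf (fl τ : MulAut (Cfsg.PSU n F q)) = 1 :=
      Nat.eq_one_of_dvd_coprimes hcop dvd_rfl h2
    exact orderOf_eq_one_iff.1 h3

end Cfsg.Agent.Lib.Helper47.BalPSU
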