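import Cfsg.Agent.Lib.Helper99.BalPSU.Defs
import Cfsg.Agent.Lib.Helper47.AutPSUCent2

set_option autoImplicit false
set_option linter.unusedSectionVars false
set_option linter.unusedVariables false

/-!
Rigidity over the fixed field of a field automorphism `σ` of `PSU_n(q)`: a semilinear map fixing
all `σ`-rational isotropic points is a scalar and its field automorphism is trivial on `Fix σ`.
-/

namespace Cfsg.Agent.Lib.Helper47.AutPSU

open Matrix MatrixGroups Cfsg.Agent.Lib.Helper17 Cfsg.Agent.Lib.Helper99.AutPSU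
  Cfsg.Agent.Lib.Helper99.BalPSU Cfsg.Agent.Lib.Helper47.AutPSU

variable {F : Type*} [Field F] [Fintype F] {n q : ℕ}
variable {F₀ : Type*} [Field F₀] [Fintype F₀] {q₀ : ℕ} {j : F₀ →+* F} {σ : F ≃+* F}

/-- extension of scalars of a vector -/
def jv (j : F₀ →+* F) (v : Fin n → F₀) : Fin n → F := fun i => j (v i)

theorem jv_add (u v : Fin n → F₀) : jv j (u + v) = jv j u + jv j v := by
  ext i; simp [jv]

theorem jv_sub (u v : Fin n → F₀) : jv j (u - v) = jv j u - jv j v := by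
  ext i; simp [jv]

theorem jv_smul (c : F₀) (v : Fin n → F₀) : jv j (c • v) = j c • jv j v := by
  ext i; simp [jv]

theorem jv_ne_zero {v : Fin n → F₀} (hv : v ≠ 0) : jv j v ≠ 0 := by
  intro h
  apply hv
  ext i
  have := congrFun h i
  simpa [jv] using this

theorem jv_single (i : Fin n) : jv j (Pi.single i 1) = Pi.single i 1 := by
  ext k
  by_cases h : k = i
  · subst h; simp [jv]
  · simp [jv, Pi.single_eq_of_ne h]

theorem Sub.herm_jv (S : Sub q σ F₀ q₀ j) (u v : Fin n → F₀) :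
    Cfsg.hermForm n F q (jv j u) (jv j v) = j (Cfsg.hermForm n F₀ q₀ u v) := by
  simp only [Cfsg.hermForm, jv, map_sum, map_mul, S.pow]

theorem Sub.jv_fix (S : Sub q σ F₀ q₀ j) (v : Fin n → F₀) (i : Fin n) :
    σ (jv j v i) = jv j v i := (S.fix _).2 ⟨v i, rfl⟩

theorem Sub.exists_jv (S : Sub q σ F₀ q₀ j) (v : Fin n → F) (h : ∀ i, σ (v i) = v i) :
    ∃ v₀ : Fin n → F₀, jv j v₀ = v := by
  have h3 : ∀ i, ∃ y, j y = v i := fun i => (S.fix _).1 (h i)
  choose v₀ hv₀ using h3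
  exact ⟨v₀, funext hv₀⟩

theorem Sub.iso_jv (S : Sub q σ F₀ q₀ j) {c : Fin n → F₀} (hc : Iso q₀ c) : Iso q (jv j c) :=
  ⟨jv_ne_zero hc.1, by rw [S.herm_jv, hc.2, map_zero]⟩

theorem Sub.iso_of_jv (S : Sub q σ F₀ q₀ j) {c : Fin n → F₀} (hc : Iso q (jv j c)) : Iso q₀ c := by
  refine ⟨?_, ?_⟩
  · rintro rfl
    apply hc.1
    ext i
    simp [jv]
  · have := hc.2
    rw [S.herm_jv] at this
    exact j.injective (by rw [this, map_zero])

theorem Sub.hp_jv (S : Sub q σ F₀ q₀ j) {a b : Fin n → F₀} (hp : HP q₀ a b) :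
    HP q (jv j a) (jv j b) :=
  ⟨by rw [S.herm_jv, hp.a0, map_zero], by rw [S.herm_jv, hp.b0, map_zero],
    by rw [S.herm_jv, hp.ab, map_one]⟩

/-- **Rigidity.** -/
theorem Sub.rig0 (hF : Fintype.card F = q ^ 2) (S : Sub q σ F₀ q₀ j) (hn : 3 ≤ n)
    (g : ↥(Cfsg.GU n F q)) (τ : F ≃+* F)
    (h : ∀ c : Fin n → F₀, Iso q₀ c → ∃ μ : F, Gam g τ (jv j c) = μ • jv j c) :
    (∀ y : F₀, τ (j y) = j y) ∧ ∃ c : F, (g : GL (Fin n) F).1 = c • 1 := by
  have h' : ∀ c : Fin n → F₀, Iso q₀ c → ∃ μ : F, μ ≠ 0 ∧ Gam g τ (jv j c) = μ • jv j c := by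
    intro c hc
    obtain ⟨μ, hμ⟩ := h c hc
    refine ⟨μ, ?_, hμ⟩
    rintro rfl
    rw [zero_smul] at hμ
    exact Gam_ne_zero g τ (jv_ne_zero hc.1) hμ
  obtain ⟨a₀, ha0, haa⟩ := exists_isotropic_ne_zero S.card (n := n) (by omega)
  obtain ⟨b₀, hp₀⟩ := exists_HP S.card (⟨ha0, haa⟩ : Iso q₀ a₀)
  have hp := S.hp_jv hp₀
  set a := jv j a₀ with ha
  set b := jv j b₀ with hb
  obtain ⟨α, hα0, hα⟩ := h' a₀ hp₀.isoA
  obtain ⟨β, hβ0, hβ⟩ := h' b₀ (hp₀.isoB S.card)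
  rw [← ha] at hα
  rw [← hb] at hβ
  have key : ∀ (w₀ : Fin n → F₀) (k₀ : F₀), Cfsg.hermForm n F₀ q₀ w₀ a₀ = 0 →
      Cfsg.hermForm n F₀ q₀ w₀ b₀ = 0 → k₀ + k₀ ^ q₀ + Cfsg.hermForm n F₀ q₀ w₀ w₀ = 0 →
      τ (j k₀) * α = β * j k₀ ∧ Gam g τ (jv j w₀) = β • jv j w₀ := by
    intro w₀ k₀ hwa₀ hwb₀ hk
    have haw₀ := herm_zero_comm S.card hwa₀
    have hbw₀ := herm_zero_comm S.card hwb₀
    have hv : Iso q₀ (b₀ + w₀ + k₀ • a₀) := by
      constructor
      · intro h0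
        have := congrArg (fun u => Cfsg.hermForm n F₀ q₀ u a₀) h0
        simp only [hermForm_add_left, hermForm_smul_left, hp₀.a0, hp₀.ba S.card, hwa₀,
          herm_zero_left] at this
        simp at this
      · simp only [hermForm_add_left, hermForm_add_right S.card, hermForm_smul_left,
          hermForm_smul_right, hp₀.a0, hp₀.b0, hp₀.ab, hp₀.ba S.card, hwa₀, hwb₀, haw₀, hbw₀]
        linear_combination hk
    set w := jv j w₀ with hw
    set k := j k₀ with hk'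
    have hwa : Cfsg.hermForm n F q w a = 0 := by rw [hw, ha, S.herm_jv, hwa₀, map_zero]
    have hwb : Cfsg.hermForm n F q w b = 0 := by rw [hw, hb, S.herm_jv, hwb₀, map_zero]
    obtain ⟨c, hc0, hc⟩ := h' _ hv
    rw [jv_add, jv_add, jv_smul, ← ha, ← hb, ← hw, ← hk', Gam_add, Gam_add, Gam_smul, hα, hβ]
      at hc
    have hGa : Cfsg.hermForm n F q (Gam g τ w) a = 0 := by
      have h1 := Gam_herm g τ w a
      rw [hα, hwa, map_zero, hermForm_smul_right] at h1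
      exact (mul_eq_zero.1 h1).resolve_left (pow_ne_zero _ hα0)
    have hGb : Cfsg.hermForm n F q (Gam g τ w) b = 0 := by
      have h1 := Gam_herm g τ w b
      rw [hβ, hwb, map_zero, hermForm_smul_right] at h1
      exact (mul_eq_zero.1 h1).resolve_left (pow_ne_zero _ hβ0)
    have e1 := congrArg (fun u => Cfsg.hermForm n F q u a) hc
    have e2 := congrArg (fun u => Cfsg.hermForm n F q u b) hc
    simp only [hermForm_add_left, hermForm_smul_left, hp.a0, hp.b0, hp.ab, hp.ba hF, hwa, hwb,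
      hGa, hGb] at e1 e2
    have hcβ : c = β := by linear_combination -e1
    rw [hcβ] at hc e2
    have e3 : τ k * α = β * k := by linear_combination e2
    refine ⟨e3, ?_⟩
    have h5 : Gam g τ w = β • (b + w + k • a) - β • b - τ k • α • a := by rw [← hc]; abel
    rw [h5, smul_smul, e3]
    module
  have hk : ∀ k₀ : F₀, τ (j k₀) * α = β * j k₀ := by
    intro k₀
    obtain ⟨w, h1, h2, h3⟩ := exists_w S.card hn hp₀ k₀
    exact (key w k₀ h1 h2 h3).1
  have hαβ : α = β := by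
    have := hk 1
    rwa [map_one, map_one, one_mul, mul_one] at this
  have hτ : ∀ y : F₀, τ (j y) = j y := by
    intro y
    have := hk y
    rw [hαβ, mul_comm] at this
    exact mul_left_cancel₀ hβ0 this
  refine ⟨hτ, β, ?_⟩
  have hrat : ∀ v₀ : Fin n → F₀, Gam g τ (jv j v₀) = β • jv j v₀ := by
    intro v₀
    obtain ⟨k, hk'⟩ := exists_trace_eq S.card
      (-(Cfsg.hermForm n F₀ q₀ (pw q₀ a₀ b₀ v₀) (pw q₀ a₀ b₀ v₀))) (by
        rw [pow_q_eq_frob S.card, map_neg, ← pow_q_eq_frob S.card, hermForm_conj S.card])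
    have h6 := (key (pw q₀ a₀ b₀ v₀) k (pw_a S.card hp₀ v₀) (pw_b S.card hp₀ v₀)
      (by rw [hk']; ring)).2
    conv_lhs => rw [decomp (q := q₀) a₀ b₀ v₀]
    rw [jv_add, jv_add, jv_smul, jv_smul, Gam_add, Gam_add, Gam_smul, Gam_smul, ← ha, ← hb, hα,
      hβ, h6, hαβ, hτ, hτ]
    conv_rhs => rw [decomp (q := q₀) a₀ b₀ v₀]
    rw [jv_add, jv_add, jv_smul, jv_smul, ← ha, ← hb]
    simp only [smul_add, smul_smul]
    congr 1
    congr 1 <;> rw [mul_comm]
  ext i k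
  have h1 := congrFun (hrat (Pi.single k 1)) i
  rw [jv_single, Gam] at h1
  have h2 : (fun i => τ ((Pi.single k 1 : Fin n → F) i)) = Pi.single k 1 := by
    ext l
    by_cases hl : l = k
    · subst hl; simp
    · simp [Pi.single_eq_of_ne hl]
  rw [h2, mulVec_single_one] at h1
  rw [Matrix.smul_apply, Matrix.one_apply]
  simp only [Matrix.col_apply, Pi.smul_apply, Pi.single_apply, smul_eq_mul] at h1 ⊢
  exact h1

/-- rational transvections -/
theorem Sub.exists_rat_transv (hF : Fintype.card F = q ^ 2) (S : Sub q σ F₀ q₀ j)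
    {c : Fin n → F₀} (hc : Iso q₀ c) :
    ∃ (t : ↥(Cfsg.SU n F q)) (l : F), l ≠ 0 ∧ fldS σ t = t ∧
      ∀ v, mt t *ᵥ v = v + (l * Cfsg.hermForm n F q v (jv j c)) • jv j c := by
  obtain ⟨l₀, hl0, hl⟩ := exists_trace_zero S.card
  have hl' : j l₀ + (j l₀) ^ q = 0 := by rw [← S.pow, hl, map_neg]; ring
  obtain ⟨t, -, ht⟩ := exists_X hF (S.iso_jv hc).2 (j l₀) hl'
  refine ⟨t, j l₀, by simpa using hl0, ?_, ht⟩
  apply su_ext'
  intro v
  have hv : v = fun i => σ (σ.symm (v i)) := by ext i; simp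
  have hcσ : (fun i => σ (jv j c i)) = jv j c := funext (S.jv_fix c)
  rw [fldS_val]
  conv_lhs => rw [hv]
  rw [map_mulVec, ht, ht]
  ext i
  simp only [Pi.add_apply, Pi.smul_apply, smul_eq_mul, map_add, map_mul, RingEquiv.apply_symm_apply]
  rw [S.jv_fix, (S.fix _).2 ⟨l₀, rfl⟩, ← herm_map, hcσ, ← hv]

/-- an automorphism fixing the images of all rational elements fixes the rational isotropic
points -/
theorem Sub.rig1 (hF : Fintype.card F = q ^ 2) (S : Sub q σ F₀ q₀ j)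
    (g : ↥(Cfsg.GU n F q)) (τ : F ≃+* F)
    (hfix : ∀ t : ↥(Cfsg.SU n F q), fldS σ t = t →
      (cG g * fl τ : MulAut (Cfsg.PSU n F q)) (pm t) = pm t)
    (c : Fin n → F₀) (hc : Iso q₀ c) : ∃ μ : F, Gam g τ (jv j c) = μ • jv j c := by
  obtain ⟨x, l, hl0, hxσ, hl⟩ := S.exists_rat_transv hF hc
  have hb := S.iso_jv hc
  set b := jv j c with hbdef
  obtain ⟨a, hp⟩ := exists_HP hF hb
  have hpm : pm (conjS g (fldS τ x)) = pm x := by
    have := hfix x hxσ
    simpa [MulAut.mul_apply, fl_pm, cG_pm] using this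
  obtain ⟨ζ, hζ⟩ := exists_scalar_of_pm_eq hF hpm
  by_cases hζ1 : ζ = 1
  · have h1 := hζ (Gam g τ a)
    rw [Gam_conj, hl, hl, hp.ba hF, mul_one, Gam_add, Gam_smul, hζ1, one_smul] at h1
    have h2 : τ l • Gam g τ b = (l * Cfsg.hermForm n F q (Gam g τ a) b) • b :=
      (add_left_cancel h1).symm
    have hσl : τ l ≠ 0 := by simpa using hl0
    refine ⟨(τ l)⁻¹ * (l * Cfsg.hermForm n F q (Gam g τ a) b), ?_⟩
    rw [mul_smul, ← h2, smul_smul, inv_mul_cancel₀ hσl, one_smul]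
  · have h1 := hζ (Gam g τ b)
    rw [Gam_conj, hl, hl b, hb.2, mul_zero, zero_smul, add_zero] at h1
    have h2 : (ζ - 1) • Gam g τ b = (l * Cfsg.hermForm n F q (Gam g τ b) b) • b := by
      rw [sub_smul, one_smul, ← h1]; abel
    refine ⟨(ζ - 1)⁻¹ * (l * Cfsg.hermForm n F q (Gam g τ b) b), ?_⟩
    rw [mul_smul, ← h2, smul_smul, inv_mul_cancel₀ (sub_ne_zero.2 hζ1), one_smul]

theorem Sub.rig (hF : Fintype.card F = q ^ 2) (S : Sub q σ F₀ q₀ j) (hn : 3 ≤ n)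
    (g : ↥(Cfsg.GU n F q)) (τ : F ≃+* F)
    (hfix : ∀ t : ↥(Cfsg.SU n F q), fldS σ t = t →
      (cG g * fl τ : MulAut (Cfsg.PSU n F q)) (pm t) = pm t) :
    (∀ y : F₀, τ (j y) = j y) ∧ ∃ c : F, (g : GL (Fin n) F).1 = c • 1 :=
  S.rig0 hF hn g τ (S.rig1 hF g τ hfix)

end Cfsg.Agent.Lib.Helper47.AutPSU
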