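import Mathlib

set_option autoImplicit false

namespace Cfsg.Agent.Lib.Helper47

/-- a graph in which any two non-adjacent distinct vertices have a common neighbour, and which is
not complete, is connected of diameter two -/
theorem connected_and_diam_eq_two {α : Type*} (Γ : SimpleGraph α)
    (h1 : ∀ u v, u ≠ v → ¬ Γ.Adj u v → ∃ w, Γ.Adj u w ∧ Γ.Adj w v)
    (u₀ v₀ : α) (hne : u₀ ≠ v₀) (hna : ¬ Γ.Adj u₀ v₀) : Γ.Connected ∧ Γ.diam = 2 := by
  have hle : Γ.ediam ≤ 2 := by
    apply SimpleGraph.ediam_le_of_edist_le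
    intro u v
    by_cases huv : u = v
    · subst huv
      simp
    by_cases ha : Γ.Adj u v
    · rw [SimpleGraph.edist_eq_one_iff_adj.mpr ha]
      norm_num
    · obtain ⟨w, hw1, hw2⟩ := h1 u v huv ha
      have := (SimpleGraph.Walk.cons hw1 (SimpleGraph.Walk.cons hw2 SimpleGraph.Walk.nil)).edist_le
      simpa using this
  have hge : 2 ≤ Γ.ediam := by
    refine le_trans ?_ (SimpleGraph.edist_le_ediam (u := u₀) (v := v₀))
    by_contra hlt
    push Not at hlt
    have h0 : Γ.edist u₀ v₀ ≠ 0 := by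
      rw [Ne, SimpleGraph.edist_eq_zero_iff]
      exact hne
    have h1' : Γ.edist u₀ v₀ ≠ 1 := by
      rw [Ne, SimpleGraph.edist_eq_one_iff_adj]
      exact hna
    have hlt' : Γ.edist u₀ v₀ < 2 := hlt
    obtain ⟨n, hn⟩ := ENat.ne_top_iff_exists.mp (ne_top_of_lt hlt')
    rw [← hn] at h0 h1' hlt'
    have h2 : n < 2 := by exact_mod_cast hlt'
    interval_cases n
    · exact h0 rfl
    · exact h1' rfl
  have heq : Γ.ediam = 2 := le_antisymm hle hge
  have : Nonempty α := ⟨u₀⟩
  refine ⟨SimpleGraph.connected_of_ediam_ne_top (by rw [heq]; exact ENat.natCast_ne_top 2), ?_⟩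
  rw [SimpleGraph.diam, heq]
  rfl

end Cfsg.Agent.Lib.Helper47
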