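import Mathlib

/-!
A quadratic polynomial `t² + τ t + 1` without roots over a finite field with `q ≡ 3 (mod 4)`, `q > 3`,
does not have constant quadratic character on both square classes.
-/

set_option autoImplicit false

namespace Cfsg.Agent.Lib.Helper47

variable {F : Type*} [Field F] [Fintype F]

/-- points of the conic `y² = t² + τ t + 1` -/
theorem card_conic (h2 : (2 : F) ≠ 0) (τ : F) (hτ : τ ^ 2 - 4 ≠ 0) :
    Nat.card {p : F × F // p.2 ^ 2 = p.1 ^ 2 + τ * p.1 + 1} = Fintype.card F - 1 := by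
  have hc : (1 - τ ^ 2 / 4 : F) ≠ 0 := by
    intro h
    apply hτ
    have h4 : (4 : F) ≠ 0 := by
      have : (4 : F) = 2 * 2 := by norm_num
      rw [this]; exact mul_ne_zero h2 h2
    field_simp at h
    linear_combination -h
  have e : {p : F × F // p.2 ^ 2 = p.1 ^ 2 + τ * p.1 + 1} ≃ Fˣ :=
    { toFun := fun p => Units.mk0 (p.1.2 - p.1.1 - τ / 2) (by
        intro h
        apply hc
        have := p.2
        have h4 : (4 : F) = 2 * 2 := by norm_num
        have hy : p.1.2 = p.1.1 + τ / 2 := by linear_combination h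
        rw [hy] at this
        rw [h4]
        field_simp at this ⊢
        linear_combination -this)
      invFun := fun u => ⟨(((1 - τ ^ 2 / 4) / (u : F) - u) / 2 - τ / 2,
          ((1 - τ ^ 2 / 4) / (u : F) + u) / 2), by
        have hu : (u : F) ≠ 0 := u.ne_zero
        have h4 : (4 : F) = 2 * 2 := by norm_num
        simp only
        rw [h4]
        field_simp
        ring⟩
      left_inv := by
        rintro ⟨⟨t, y⟩, hp⟩
        simp only at hp
        have hP : y - t - τ / 2 ≠ 0 := by
          intro h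
          apply hc
          have h4 : (4 : F) = 2 * 2 := by norm_num
          have hy : y = t + τ / 2 := by linear_combination h
          rw [hy] at hp
          rw [h4]
          field_simp at hp ⊢
          linear_combination -hp
        have hQ : (1 - τ ^ 2 / 4) / (y - t - τ / 2) = y + t + τ / 2 := by
          rw [div_eq_iff hP]
          have h4 : (4 : F) = 2 * 2 := by norm_num
          rw [h4]
          field_simp
          linear_combination (-4 : F) * hp
        apply Subtype.ext
        simp only [Units.val_mk0, hQ, Prod.mk.injEq]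
        constructor
        · field_simp; ring
        · field_simp; ring
      right_inv := by
        intro u
        apply Units.ext
        have hu : (u : F) ≠ 0 := u.ne_zero
        simp only [Units.val_mk0]
        field_simp
        ring }
  rw [Nat.card_congr e, Nat.card_units, Nat.card_eq_fintype_card]

theorem sum_quadraticChar_conic [DecidableEq F] (h2 : (2 : F) ≠ 0) (τ : F) (hτ : τ ^ 2 - 4 ≠ 0) :
    ∑ t : F, (quadraticChar F (t ^ 2 + τ * t + 1) + 1) = (Fintype.card F : ℤ) - 1 := by
  have hF : ringChar F ≠ 2 := by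
    intro h
    apply h2
    have := ringChar.Nat.cast_ringChar (R := F)
    rw [h] at this
    exact_mod_cast this
  have e : {p : F × F // p.2 ^ 2 = p.1 ^ 2 + τ * p.1 + 1} ≃
      Σ t : F, {y : F // y ^ 2 = t ^ 2 + τ * t + 1} :=
    { toFun := fun p => ⟨p.1.1, ⟨p.1.2, p.2⟩⟩
      invFun := fun z => ⟨(z.1, z.2.1), z.2.2⟩
      left_inv := fun p => rfl
      right_inv := fun z => rfl }
  have h1 := card_conic h2 τ hτ
  rw [Nat.card_congr e, Nat.card_sigma] at h1
  have hq : 1 ≤ Fintype.card F := Fintype.card_pos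
  have h3 : ∀ t : F, (Nat.card {y : F // y ^ 2 = t ^ 2 + τ * t + 1} : ℤ) =
      quadraticChar F (t ^ 2 + τ * t + 1) + 1 := by
    intro t
    rw [← quadraticChar_card_sqrts hF]
    congr 1
    rw [Nat.card_eq_fintype_card, Set.toFinset_card]
    rfl
  calc ∑ t : F, (quadraticChar F (t ^ 2 + τ * t + 1) + 1)
      = ∑ t : F, (Nat.card {y : F // y ^ 2 = t ^ 2 + τ * t + 1} : ℤ) := by
        apply Finset.sum_congr rfl
        intro t _
        rw [h3]
    _ = ((∑ t : F, Nat.card {y : F // y ^ 2 = t ^ 2 + τ * t + 1} : ℕ) : ℤ) := by push_cast; rfl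
    _ = (Fintype.card F : ℤ) - 1 := by rw [h1]; push_cast [hq]; ring

theorem exists_pair_nonsquare (hq : Fintype.card F % 4 = 3) (hq3 : 3 < Fintype.card F) (τ : F)
    (hτ : ¬ IsSquare (τ ^ 2 - 4)) :
    ∃ ρ σ : F, ρ ≠ 0 ∧ σ ≠ 0 ∧ IsSquare (ρ * σ) ∧
      ¬ IsSquare ((ρ ^ 2 + τ * ρ + 1) * (σ ^ 2 + τ * σ + 1)) := by
  classical
  by_contra H
  push Not at H
  have hF : ringChar F ≠ 2 := by
    intro h
    have := FiniteField.even_card_of_char_two h
    omega
  have h2 : (2 : F) ≠ 0 := by
    intro h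
    apply hF
    have : ringChar F ∣ 2 := by
      apply ringChar.dvd
      exact_mod_cast h
    rcases (Nat.dvd_prime Nat.prime_two).1 this with h1 | h1
    · exact absurd h1 (CharP.ringChar_ne_one)
    · exact h1
  have hτ0 : τ ^ 2 - 4 ≠ 0 := by
    intro h
    apply hτ
    rw [h]
    exact IsSquare.zero
  have hh : ∀ t : F, t ^ 2 + τ * t + 1 ≠ 0 := by
    intro t ht
    apply hτ
    exact ⟨2 * t + τ, by linear_combination (-4 : F) * ht⟩
  set χ := quadraticChar F with hχ
  have hm1 : χ (-1) = -1 := by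
    rw [quadraticChar_neg_one_iff_not_isSquare, FiniteField.isSquare_neg_one_iff]
    omega
  set c₁ := χ ((1 : F) ^ 2 + τ * 1 + 1) with hc₁
  set c₂ := χ ((-1 : F) ^ 2 + τ * (-1) + 1) with hc₂
  have d₁ : c₁ = 1 ∨ c₁ = -1 := quadraticChar_dichotomy (hh 1)
  have d₂ : c₂ = 1 ∨ c₂ = -1 := quadraticChar_dichotomy (hh (-1))
  have key : ∀ ρ σ : F, ρ ≠ 0 → σ ≠ 0 → χ (ρ * σ) = 1 →
      χ (ρ ^ 2 + τ * ρ + 1) * χ (σ ^ 2 + τ * σ + 1) = 1 := by
    intro ρ σ hρ hσ h
    rw [← map_mul, quadraticChar_one_iff_isSquare (mul_ne_zero (hh ρ) (hh σ))]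
    exact H ρ σ hρ hσ ((quadraticChar_one_iff_isSquare (mul_ne_zero hρ hσ)).mp h)
  have hf : ∀ t : F, t ≠ 0 →
      2 * χ (t ^ 2 + τ * t + 1) - (c₁ + c₂) - (c₁ - c₂) * χ t = 0 := by
    intro t ht
    rcases quadraticChar_dichotomy ht with h | h
    · have := key 1 t one_ne_zero ht (by rw [one_mul]; exact h)
      rw [← hχ] at h
      rw [h]
      rw [← hc₁] at this
      rcases d₁ with d | d <;> rw [d] at this ⊢ <;> linarith
    · have := key (-1) t (neg_ne_zero.mpr one_ne_zero) ht (by
        rw [map_mul, hm1]; rw [← hχ] at h; rw [h]; norm_num)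
      rw [← hχ] at h
      rw [h]
      rw [← hc₂] at this
      rcases d₂ with d | d <;> rw [d] at this ⊢ <;> linarith
  have hsum1 : ∑ t : F, (2 * χ (t ^ 2 + τ * t + 1) - (c₁ + c₂) - (c₁ - c₂) * χ t)
      = 2 - (c₁ + c₂) := by
    rw [Finset.sum_eq_single (0 : F)]
    · have h0 : χ 0 = 0 := MulChar.map_zero χ
      simp [h0]
    · intro t _ ht
      exact hf t ht
    · intro h
      exact absurd (Finset.mem_univ _) h
  have hs := sum_quadraticChar_conic h2 τ hτ0
  rw [Finset.sum_add_distrib] at hs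
  simp only [Finset.sum_const, Finset.card_univ, nsmul_eq_mul, mul_one] at hs
  have hs0 := quadraticChar_sum_zero hF
  rw [Finset.sum_sub_distrib, Finset.sum_sub_distrib, ← Finset.mul_sum, ← Finset.mul_sum] at hsum1
  simp only [Finset.sum_const, Finset.card_univ, nsmul_eq_mul] at hsum1
  rw [← hχ] at hs hs0
  rw [hs0] at hsum1
  have hq' : (3 : ℤ) < Fintype.card F := by exact_mod_cast hq3
  have hS : ∑ t : F, χ (t ^ 2 + τ * t + 1) = -1 := by linarith
  rw [hS] at hsum1
  rcases d₁ with d | d <;> rcases d₂ with d' | d' <;> rw [d, d'] at hsum1 <;> nlinarith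

end Cfsg.Agent.Lib.Helper47
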